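import Cfsg.Agent.Lib.EPPO7.Loc3

/-!
# Consequences of the data of an intersection-maximal subgroup
-/

set_option autoImplicit false
set_option linter.style.haveILetI false

namespace Cfsg.Agent.Lib.EPPO7

open Cfsg.Agent.Lib.SmallSimple.SylowBasic

universe u

variable {M : Type u} [Group M] [Finite M]

/-- Exponent two implies commutativity. -/
theorem comm_of_sq {W : Subgroup M} (hW : ∀ x ∈ W, x * x = 1) {x y : M} (hx : x ∈ W) (hy : y ∈ W) :
    x * y = y * x := by
  have h1 := hW _ (W.mul_mem hx hy)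
  have h2 := hW _ hx
  have h3 := hW _ hy
  have hxi : x⁻¹ = x := by rw [inv_eq_iff_mul_eq_one]; exact h2
  have hyi : y⁻¹ = y := by rw [inv_eq_iff_mul_eq_one]; exact h3
  calc x * y = (x * y)⁻¹ := (inv_eq_of_mul_eq_one_left h1).symm
    _ = y * x := by rw [mul_inv_rev, hxi, hyi]

/-- The commutator image of an involution on an elementary abelian group. -/
theorem exists_comm_img {W : Subgroup M} (hW : ∀ x ∈ W, x * x = 1) {t : M}
    (ht : t ∈ Subgroup.normalizer (W : Set M)) (ht2 : t * t = 1) :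
    ∃ R : Subgroup M, R ≤ W ⊓ Subgroup.centralizer ({t} : Set M) ∧ (∀ w ∈ W, t * w * t⁻¹ * w ∈ R) ∧
      (∀ x ∈ R, ∃ w ∈ W, x = t * w * t⁻¹ * w) ∧
      Nat.card R * Nat.card (W ⊓ Subgroup.centralizer ({t} : Set M) : Subgroup M) = Nat.card W := by
  classical
  have htinv : t⁻¹ = t := by rw [inv_eq_iff_mul_eq_one]; exact ht2
  have hconj : ∀ w ∈ W, t * w * t⁻¹ ∈ W := fun w hw => (Subgroup.mem_normalizer_iff.1 ht w).1 hw
  let f : W →* W := MonoidHom.mk' (fun v => ⟨t * (v : M) * t⁻¹ * v, W.mul_mem (hconj _ v.2) v.2⟩) (by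
    intro a c
    apply Subtype.ext
    simp only [Subgroup.coe_mul]
    have h1 := comm_of_sq hW a.2 (hconj _ c.2)
    calc t * ((a : M) * c) * t⁻¹ * (a * c)
        = (t * a * t⁻¹) * (t * c * t⁻¹) * (a * c) := by group
      _ = (t * a * t⁻¹) * ((t * c * t⁻¹) * a) * c := by group
      _ = (t * a * t⁻¹) * (a * (t * c * t⁻¹)) * c := by rw [h1.symm]
      _ = (t * a * t⁻¹) * a * ((t * c * t⁻¹) * c) := by group)
  let R : Subgroup M := f.range.map W.subtype
  have hfker : Nat.card f.ker = Nat.card (W ⊓ Subgroup.centralizer ({t} : Set M) : Subgroup M) := by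
    have hk : (W ⊓ Subgroup.centralizer ({t} : Set M) : Subgroup M) = f.ker.map W.subtype := by
      ext x
      constructor
      · rintro ⟨hxW, hxt⟩
        have hxt' : x * t = t * x := Subgroup.mem_centralizer_singleton_iff.1 hxt
        refine ⟨⟨x, hxW⟩, ?_, rfl⟩
        show f ⟨x, hxW⟩ = 1
        apply Subtype.ext
        show t * x * t⁻¹ * x = 1
        rw [← hxt']
        have := hW x hxW
        calc x * t * t⁻¹ * x = x * x := by group
          _ = 1 := this
      · rintro ⟨v, hv, rfl⟩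
        have hv0 : f v = 1 := hv
        have hv' : t * (v : M) * t⁻¹ * v = 1 := congrArg Subtype.val hv0
        refine ⟨v.2, Subgroup.mem_centralizer_singleton_iff.2 ?_⟩
        have h1 : t * (v : M) * t⁻¹ = (v : M)⁻¹ := eq_inv_of_mul_eq_one_left hv'
        have h2 : (v : M)⁻¹ = v := by rw [inv_eq_iff_mul_eq_one]; exact hW _ v.2
        rw [h2] at h1
        show (v : M) * t = t * v
        calc (v : M) * t = (t * v * t⁻¹) * t := by rw [h1]
          _ = t * v := by group
    rw [hk]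
    exact Nat.card_congr (Subgroup.equivMapOfInjective _ _ W.subtype_injective).toEquiv
  have hR : Nat.card R = Nat.card f.range :=
    Nat.card_congr (Subgroup.equivMapOfInjective _ _ W.subtype_injective).toEquiv.symm
  refine ⟨R, ?_, ?_, ?_, ?_⟩
  · rintro _ ⟨_, ⟨v, rfl⟩, rfl⟩
    have hmem : t * (v : M) * t⁻¹ * v ∈ W := W.mul_mem (hconj _ v.2) v.2
    refine ⟨hmem, Subgroup.mem_centralizer_singleton_iff.2 ?_⟩
    show t * (v : M) * t⁻¹ * v * t = t * (t * v * t⁻¹ * v)
    have h1 := comm_of_sq hW (hconj _ v.2) v.2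
    have hx : t * (t * (v : M) * t⁻¹) * t⁻¹ = v := by
      calc t * (t * (v : M) * t⁻¹) * t⁻¹ = (t * t) * v * (t * t)⁻¹ := by group
        _ = v := by rw [ht2]; simp
    have h2 : t * ((t * (v : M) * t⁻¹) * v) * t⁻¹ = (t * v * t⁻¹) * v := by
      calc t * ((t * (v : M) * t⁻¹) * v) * t⁻¹ = (t * (t * (v : M) * t⁻¹) * t⁻¹) * (t * v * t⁻¹) := by group
        _ = v * (t * v * t⁻¹) := by rw [hx]
        _ = (t * v * t⁻¹) * v := h1.symm
    calc t * (v : M) * t⁻¹ * v * t = (t * ((t * (v : M) * t⁻¹) * v) * t⁻¹) * t := by rw [h2]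
      _ = t * (t * v * t⁻¹ * v) := by group
  · intro w hw
    exact ⟨f ⟨w, hw⟩, ⟨⟨w, hw⟩, rfl⟩, rfl⟩
  · rintro _ ⟨_, ⟨v, rfl⟩, rfl⟩
    exact ⟨v, v.2, rfl⟩
  · have h1 := Subgroup.index_ker f
    have h2 := Subgroup.card_mul_index f.ker
    rw [h1, hfker] at h2
    rw [hR, mul_comm]
    exact h2

/-- Cardinal bound when everything outside `P` lies in one coset. -/
theorem card_le_two_mul {A P : Subgroup M} {t : M} (h : ∀ s ∈ A, s ∉ P → s * t ∈ A ⊓ P) :
    Nat.card A ≤ 2 * Nat.card (A ⊓ P : Subgroup M) := by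
  classical
  rw [show 2 * Nat.card (A ⊓ P : Subgroup M) = Nat.card (Bool × (A ⊓ P : Subgroup M)) by
    rw [Nat.card_prod]; simp]
  refine Nat.card_le_card_of_injective
    (fun s : A => if hs : (s : M) ∈ P then (true, ⟨s, s.2, hs⟩) else (false, ⟨s * t, h s s.2 hs⟩)) ?_
  intro a c hac
  by_cases ha : (a : M) ∈ P <;> by_cases hc : (c : M) ∈ P
  · simp only [ha, hc, dif_pos] at hac
    have := congrArg (fun x => ((x.2 : (A ⊓ P : Subgroup M)) : M)) hac
    exact Subtype.ext this
  · simp [ha, hc] at hac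
  · simp [ha, hc] at hac
  · simp only [ha, hc, dif_neg, not_false_eq_true] at hac
    have := congrArg (fun x => ((x.2 : (A ⊓ P : Subgroup M)) : M)) hac
    simp only at this
    exact Subtype.ext (mul_right_cancel this)

/-- A subgroup of a group of order 4 containing two distinct nonidentity elements is everything. -/
theorem eq_of_card_four {P E : Subgroup M} (hP : Nat.card P = 4) (hE : E ≤ P) {x y : M} (hx : x ∈ E) (hy : y ∈ E)
    (hx1 : x ≠ 1) (hy1 : y ≠ 1) (hxy : x ≠ y) : E = P := by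
  classical
  have hd : Nat.card E ∣ 4 := hP ▸ Subgroup.card_dvd_of_le hE
  have h3 : 3 ≤ Nat.card E := by
    haveI := Fintype.ofFinite E
    rw [Nat.card_eq_fintype_card]
    have hs : ({⟨1, E.one_mem⟩, ⟨x, hx⟩, ⟨y, hy⟩} : Finset E).card = 3 := by
      rw [Finset.card_insert_of_notMem, Finset.card_insert_of_notMem, Finset.card_singleton]
      · simpa [Subtype.ext_iff] using hxy
      · simp only [Finset.mem_insert, Finset.mem_singleton, not_or, Subtype.ext_iff]
        exact ⟨hx1.symm, hy1.symm⟩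
    rw [← hs]
    exact Finset.card_le_univ _
  have h4 : Nat.card E = 4 := by
    have hle := Nat.le_of_dvd (by norm_num) hd
    interval_cases h : Nat.card E
    · omega
    · rfl
  exact Subgroup.eq_of_le_of_card_ge hE (by omega)

end Cfsg.Agent.Lib.EPPO7
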