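import Cfsg.Agent.Lib.EPPO7.Dat

/-!
# Consequences of the data of an intersection-maximal subgroup, II
-/

set_option autoImplicit false
set_option linter.style.haveILetI false

namespace Cfsg.Agent.Lib.EPPO7

open Cfsg.Agent.Lib.SmallSimple.SylowBasic

universe u

variable {M : Type u} [Group M] [Finite M]

namespace LocData

variable {X P : Subgroup M} {τ : M} {r b : ℕ}

/-- A nonidentity element of a 2-subgroup `P` is not fixed by `τ`. -/
theorem fix_eq_one (D : LocData X P τ r b) {x : M} (hx : x ∈ P) (h : τ * x * τ⁻¹ = x) : x = 1 := by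
  have hc : Commute x τ := by
    show x * τ = τ * x
    calc x * τ = (τ * x * τ⁻¹) * τ := by rw [h]
      _ = τ * x := by group
  obtain ⟨k, hk⟩ := orderOf_of_mem_two D.p2 hx
  have hco : (orderOf x).Coprime (orderOf τ) := by
    rw [hk, D.ord]
    exact D.r_odd
  rcases D.pp.mixed hc hco with h1 | h1
  · exact h1
  · exact absurd h1 D.τ_ne_one

theorem r_eq_three (D : LocData (Subgroup.normalizer (P : Set M)) P τ r b)
    (h4 : Nat.card (omegaZ P) = 4) : r = 3 := by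
  classical
  obtain ⟨v, hv, hv1⟩ := (Subgroup.bot_or_exists_ne_one (omegaZ P)).resolve_left (omegaZ_ne_bot D.p2 D.p1)
  have hτV := normalizer_le_omegaZ P D.τX
  have hpow : ∀ i : ℕ, τ ^ i * v * (τ ^ i)⁻¹ ∈ omegaZ P := fun i =>
    (Subgroup.mem_normalizer_iff.1 (Subgroup.pow_mem _ hτV i) v).1 hv
  have hne : ∀ i : ℕ, τ ^ i * v * (τ ^ i)⁻¹ ≠ 1 := by
    intro i h
    apply hv1
    have h2 := mul_inv_eq_one.1 h
    have h3 : τ ^ i * v = τ ^ i * 1 := by rw [h2, mul_one]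
    exact mul_left_cancel h3
  let Y := {x : (omegaZ P) // x ≠ 1}
  haveI : Fintype (omegaZ P) := Fintype.ofFinite _
  haveI : Fintype Y := Fintype.ofFinite _
  have hcard : Fintype.card Y = 3 := by
    have h5 : Fintype.card Y = Fintype.card (omegaZ P) - 1 := by
      have := Fintype.card_subtype_compl (fun x : (omegaZ P) => x = 1)
      simpa [Y] using this
    rw [h5, ← Nat.card_eq_fintype_card, h4]
  let f : Fin 4 → Y := fun i => ⟨⟨τ ^ (i : ℕ) * v * (τ ^ (i : ℕ))⁻¹, hpow i⟩, fun h => hne i (congrArg Subtype.val h)⟩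
  obtain ⟨i, j, hij, hf⟩ := Fintype.exists_ne_map_eq_of_card_lt f (by rw [hcard]; simp)
  have hf' : τ ^ (i : ℕ) * v * (τ ^ (i : ℕ))⁻¹ = τ ^ (j : ℕ) * v * (τ ^ (j : ℕ))⁻¹ :=
    congrArg (fun x : Y => ((x : omegaZ P) : M)) hf
  set c := τ ^ (((i : ℕ) : ℤ) - (j : ℕ)) with hc
  have hcv : c * v * c⁻¹ = v := by
    have h1 : c = (τ ^ (j : ℕ))⁻¹ * τ ^ (i : ℕ) := by
      rw [hc, sub_eq_neg_add, zpow_add, zpow_neg]
      norm_cast
    rw [h1]
    calc (τ ^ (j : ℕ))⁻¹ * τ ^ (i : ℕ) * v * ((τ ^ (j : ℕ))⁻¹ * τ ^ (i : ℕ))⁻¹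
        = (τ ^ (j : ℕ))⁻¹ * (τ ^ (i : ℕ) * v * (τ ^ (i : ℕ))⁻¹) * τ ^ (j : ℕ) := by group
      _ = v := by rw [hf']; group
  have hcomm : Commute c v := by
    show c * v = v * c
    calc c * v = (c * v * c⁻¹) * c := by group
      _ = v * c := by rw [hcv]
  have hvord : orderOf v = 2 := orderOf_eq_prime (by rw [sq]; exact hv.2.2) hv1
  have hcd : orderOf c ∣ r := by
    apply orderOf_dvd_of_pow_eq_one
    rw [hc, ← zpow_natCast, ← zpow_mul, mul_comm, zpow_mul, zpow_natCast, ← D.ord, pow_orderOf_eq_one, one_zpow]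
  have hco : (orderOf c).Coprime (orderOf v) := by
    rw [hvord]
    exact Nat.Coprime.coprime_dvd_left hcd ((Nat.coprime_primes D.rp Nat.prime_two).2 D.r2)
  rcases D.pp.mixed hcomm hco with h1 | h1
  · have hd : ((orderOf τ : ℕ) : ℤ) ∣ (((i : ℕ) : ℤ) - (j : ℕ)) := orderOf_dvd_iff_zpow_eq_one.2 h1
    rw [D.ord] at hd
    have hne0 : (((i : ℕ) : ℤ) - (j : ℕ)) ≠ 0 := by
      intro h0
      apply hij
      apply Fin.ext
      omega
    have hle := Int.le_of_dvd (by exact_mod_cast Int.natAbs_pos.2 hne0) (Int.dvd_natAbs.2 hd)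
    have hi := i.2
    have hj := j.2
    have hle3 : (r : ℤ) ≤ 3 := by
      refine hle.trans ?_
      omega
    have hr2 := D.rp.two_le
    have hr3 : r ≤ 3 := by exact_mod_cast hle3
    have := D.r2
    omega
  · exact absurd h1 hv1

theorem mul_mem_of_inv (D : LocData X P τ r b) {t u : M} (ht : t ∈ X) (hu : u ∈ X)
    (h1 : t * τ * t⁻¹ * τ ∈ P) (h2 : u * τ * u⁻¹ * τ ∈ P) {k : ℕ} (hk : orderOf (t * u) = 2 ^ k) : t * u ∈ P := by
  have h3 : (t * u) * τ * (t * u)⁻¹ * τ⁻¹ ∈ P := by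
    have h4 : (t * u) * τ * (t * u)⁻¹ * τ⁻¹ =
        (t * (u * τ * u⁻¹ * τ) * t⁻¹) * (τ * (t * τ * t⁻¹ * τ)⁻¹ * τ⁻¹) := by group
    rw [h4]
    exact P.mul_mem (D.conj_mem ht h2) (D.conj_mem D.τX (P.inv_mem h1))
  have hco : (orderOf (t * u)).Coprime (orderOf τ) := by
    rw [hk, D.ord]
    exact D.r_odd
  rcases D.mod_mixed (X.mul_mem ht hu) D.τX h3 hco with h | h
  · exact h
  · exact absurd h D.τ_not_mem

/-- For `r = 3`, a 2-element outside `P` inverts `τ` modulo `P`. -/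
theorem inv_mod3 (D : LocData X P τ 3 b) {w : M} (hw : w ∈ X) (hwP : w ∉ P) {k : ℕ} (hk : orderOf w = 2 ^ k) :
    w * τ * w⁻¹ * τ ∈ P := by
  obtain ⟨i, hi⟩ := D.norm w hw
  have hτ3 : τ ^ 3 = 1 := by rw [← D.ord]; exact pow_orderOf_eq_one τ
  have hcase : τ ^ i = 1 ∨ τ ^ i = τ ∨ τ ^ i = τ⁻¹ := by
    have h1 : τ ^ i = τ ^ (i % 3) := (pow_mod_orderOf τ i).symm ▸ (by rw [D.ord])
    have h2 : i % 3 = 0 ∨ i % 3 = 1 ∨ i % 3 = 2 := by omega
    rcases h2 with h2 | h2 | h2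
    · left; rw [h1, h2, pow_zero]
    · right; left; rw [h1, h2, pow_one]
    · right; right
      rw [h1, h2]
      apply eq_inv_of_mul_eq_one_left
      rw [← pow_succ]
      exact hτ3
  rcases hcase with h | h | h
  · exfalso
    rw [h] at hi
    simp only [inv_one, mul_one] at hi
    apply D.τ_not_mem
    have := D.conj_mem' hw hi
    simpa [mul_assoc] using this
  · exfalso
    rw [h] at hi
    have hco : (orderOf w).Coprime (orderOf τ) := by
      rw [hk, D.ord]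
      exact D.r_odd
    rcases D.mod_mixed hw D.τX hi hco with h1 | h1
    · exact hwP h1
    · exact D.τ_not_mem h1
  · rw [h] at hi
    simpa using hi

/-- The functional lemma. -/
theorem functional (D : LocData (Subgroup.normalizer (P : Set M)) P τ 3 b) {a z₀ : M} (haP : a ∈ P) (ha2 : a * a = 1)
    (haV : a ∉ omegaZ P) (hz₀ : z₀ ∈ omegaZ P) (h : ∀ d ∈ P, d * a * d⁻¹ = a ∨ d * a * d⁻¹ = a * z₀) : False := by
  classical
  have hτ3 : τ ^ 3 = 1 := by rw [← D.ord]; exact pow_orderOf_eq_one τ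
  have hτV := normalizer_le_omegaZ P D.τX
  -- conjugation by `τ`
  have hcube : ∀ x : M, τ * (τ * (τ * x * τ⁻¹) * τ⁻¹) * τ⁻¹ = x := by
    intro x
    have h3 : τ * τ * τ = 1 := by rw [← hτ3]; simp [pow_succ]
    calc τ * (τ * (τ * x * τ⁻¹) * τ⁻¹) * τ⁻¹ = (τ * τ * τ) * x * (τ * τ * τ)⁻¹ := by group
      _ = x := by rw [h3]; simp
  have hcP : ∀ {x : M}, x ∈ P → τ * x * τ⁻¹ ∈ P := fun hx => D.conj_mem D.τX hx
  have hcV : ∀ {x : M}, x ∈ omegaZ P → τ * x * τ⁻¹ ∈ omegaZ P :=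
    fun {x} hx => (Subgroup.mem_normalizer_iff.1 hτV x).1 hx
  have hVP := omegaZ_le P
  set a₁ := τ * a * τ⁻¹ with ha₁
  set a₂ := τ * a₁ * τ⁻¹ with ha₂
  set z₁ := τ * z₀ * τ⁻¹ with hz₁
  set z₂ := τ * z₁ * τ⁻¹ with hz₂
  have ha₁P : a₁ ∈ P := hcP haP
  have ha₂P : a₂ ∈ P := hcP ha₁P
  have hz₁V : z₁ ∈ omegaZ P := hcV hz₀
  have hz₂V : z₂ ∈ omegaZ P := hcV hz₁V
  have hτa₂ : τ * a₂ * τ⁻¹ = a := hcube a
  have hτz₂ : τ * z₂ * τ⁻¹ = z₀ := hcube z₀
  -- `z₀ ≠ 1`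
  have hz₀1 : z₀ ≠ 1 := by
    intro hz
    apply haV
    refine ⟨haP, fun x hx => ?_, ha2⟩
    have h1 := h x hx
    rw [hz, mul_one] at h1
    have h2 : x * a * x⁻¹ = a := by
      rcases h1 with h1 | h1 <;> exact h1
    calc x * a = (x * a * x⁻¹) * x := by group
      _ = a * x := by rw [h2]
  have hz₁1 : z₁ ≠ 1 := by
    intro hz
    apply hz₀1
    have : τ * z₀ * τ⁻¹ = 1 := hz
    have h2 := mul_inv_eq_one.1 this
    exact mul_left_cancel (h2.trans (mul_one τ).symm)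
  have hz₂1 : z₂ ≠ 1 := by
    intro hz
    apply hz₁1
    have : τ * z₁ * τ⁻¹ = 1 := hz
    have h2 := mul_inv_eq_one.1 this
    exact mul_left_cancel (h2.trans (mul_one τ).symm)
  have hz01 : z₀ ≠ z₁ := by
    intro he
    exact hz₀1 (D.fix_eq_one (hVP hz₀) he.symm)
  have hz12 : z₁ ≠ z₂ := by
    intro he
    exact hz₁1 (D.fix_eq_one (hVP hz₁V) he.symm)
  have hz20 : z₂ ≠ z₀ := by
    intro he
    exact hz₂1 (D.fix_eq_one (hVP hz₂V) (hτz₂.trans he.symm))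
  -- the shift
  have hshift : ∀ {x y : M}, (∀ d ∈ P, d * x * d⁻¹ = x ∨ d * x * d⁻¹ = x * y) →
      ∀ d ∈ P, d * (τ * x * τ⁻¹) * d⁻¹ = τ * x * τ⁻¹ ∨ d * (τ * x * τ⁻¹) * d⁻¹ = τ * x * τ⁻¹ * (τ * y * τ⁻¹) := by
    intro x y hxy d hd
    have hd' : τ⁻¹ * d * τ ∈ P := D.conj_mem' D.τX hd
    have hconj : d * (τ * x * τ⁻¹) * d⁻¹ = τ * ((τ⁻¹ * d * τ) * x * (τ⁻¹ * d * τ)⁻¹) * τ⁻¹ := by group
    rcases hxy _ hd' with h1 | h1
    · left
      rw [hconj, h1]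
    · right
      rw [hconj, h1]
      group
  have h₁ : ∀ d ∈ P, d * a₁ * d⁻¹ = a₁ ∨ d * a₁ * d⁻¹ = a₁ * z₁ := hshift h
  have h₂ : ∀ d ∈ P, d * a₂ * d⁻¹ = a₂ ∨ d * a₂ * d⁻¹ = a₂ * z₂ := hshift h₁
  -- pairwise commuting
  have hgen : ∀ {x y w w' : M}, x ∈ P → y ∈ P → w ∈ omegaZ P → w' ∈ omegaZ P → w ≠ w' →
      (∀ d ∈ P, d * x * d⁻¹ = x ∨ d * x * d⁻¹ = x * w) → (∀ d ∈ P, d * y * d⁻¹ = y ∨ d * y * d⁻¹ = y * w') →
      x * y = y * x := by
    intro x y w w' hx hy hw hw' hww' h1 h2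
    rcases h1 y hy with h3 | h3
    · calc x * y = y * (y⁻¹ * x * y) := by group
        _ = y * x := by
          have : y⁻¹ * x * y = x := by
            calc y⁻¹ * x * y = y⁻¹ * (y * x * y⁻¹) * y := by rw [h3]
              _ = x := by group
          rw [this]
    · rcases h2 x hx with h4 | h4
      · calc x * y = (x * y * x⁻¹) * x := by group
          _ = y * x := by rw [h4]
      · exfalso
        apply hww'
        have hw2 : w * w = 1 := hw.2.2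
        have hw'2 : w' * w' = 1 := hw'.2.2
        have hwx : x * w = w * x := omegaZ_comm hw hx
        have hw'y : y * w' = w' * y := omegaZ_comm hw' hy
        have e1 : y * x * y⁻¹ * x⁻¹ = w := by
          rw [h3]
          calc x * w * x⁻¹ = w * x * x⁻¹ := by rw [hwx]
            _ = w := by group
        have e2 : x * y * x⁻¹ * y⁻¹ = w' := by
          rw [h4]
          calc y * w' * y⁻¹ = w' * y * y⁻¹ := by rw [hw'y]
            _ = w' := by group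
        have e3 : (x * y * x⁻¹ * y⁻¹) * (y * x * y⁻¹ * x⁻¹) = 1 := by group
        rw [e1, e2] at e3
        have : w' = w⁻¹ := eq_inv_of_mul_eq_one_left e3
        rw [inv_eq_of_mul_eq_one_left hw2] at this
        exact this.symm
  have hc01 : a * a₁ = a₁ * a := hgen haP ha₁P hz₀ hz₁V hz01 h h₁
  have hc12 : a₁ * a₂ = a₂ * a₁ := hgen ha₁P ha₂P hz₁V hz₂V hz12 h₁ h₂
  have hc20 : a₂ * a = a * a₂ := hgen ha₂P haP hz₂V hz₀ hz20 h₂ h
  -- `a a₁ a₂ = 1`
  have hprod : a * a₁ * a₂ = 1 := by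
    apply D.fix_eq_one (P.mul_mem (P.mul_mem haP ha₁P) ha₂P)
    calc τ * (a * a₁ * a₂) * τ⁻¹ = (τ * a * τ⁻¹) * (τ * a₁ * τ⁻¹) * (τ * a₂ * τ⁻¹) := by group
      _ = a₁ * a₂ * a := by rw [hτa₂]
      _ = a₁ * (a₂ * a) := by group
      _ = a₁ * (a * a₂) := by rw [hc20]
      _ = (a₁ * a) * a₂ := by group
      _ = (a * a₁) * a₂ := by rw [hc01]
  have ha₁2 : a₁ * a₁ = 1 := by
    calc a₁ * a₁ = τ * (a * a) * τ⁻¹ := by rw [ha₁]; group
      _ = 1 := by rw [ha2]; simp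
  have ha₂eq : a₂ = a * a₁ := by
    have h1 : a₂ = (a * a₁)⁻¹ := eq_inv_of_mul_eq_one_right hprod
    rw [h1]
    apply inv_eq_of_mul_eq_one_left
    calc a * a₁ * (a * a₁) = a * (a₁ * a) * a₁ := by group
      _ = a * (a * a₁) * a₁ := by rw [hc01]
      _ = (a * a) * (a₁ * a₁) := by group
      _ = 1 := by rw [ha2, ha₁2, one_mul]
  -- conjugates agree
  have hiff : ∀ d ∈ P, d * a * d⁻¹ = a ↔ d * a₁ * d⁻¹ = a₁ := by
    intro d hd
    have hmul : d * a₂ * d⁻¹ = (d * a * d⁻¹) * (d * a₁ * d⁻¹) := by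
      rw [ha₂eq]; group
    have hz1c : a₂ * z₁ ≠ a₂ := fun he => hz₁1 (mul_left_cancel (he.trans (mul_one a₂).symm))
    have hz0c : a₂ * z₀ ≠ a₂ := fun he => hz₀1 (mul_left_cancel (he.trans (mul_one a₂).symm))
    constructor
    · intro h1
      rcases h₁ d hd with h2 | h2
      · exact h2
      · exfalso
        have e : a * (a₁ * z₁) = a₂ * z₁ := by
          rw [ha₂eq]; group
        rw [h1, h2, e] at hmul
        rcases h₂ d hd with h3 | h3
        · rw [h3] at hmul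
          exact hz1c hmul.symm
        · rw [h3] at hmul
          exact hz12 (mul_left_cancel hmul).symm
    · intro h1
      rcases h d hd with h2 | h2
      · exact h2
      · exfalso
        have e : a * z₀ * a₁ = a₂ * z₀ := by
          rw [ha₂eq]
          have : z₀ * a₁ = a₁ * z₀ := (omegaZ_comm hz₀ ha₁P).symm
          calc a * z₀ * a₁ = a * (z₀ * a₁) := by group
            _ = a * (a₁ * z₀) := by rw [this]
            _ = a * a₁ * z₀ := by group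
        rw [h1, h2, e] at hmul
        rcases h₂ d hd with h3 | h3
        · rw [h3] at hmul
          exact hz0c hmul.symm
        · rw [h3] at hmul
          exact hz20 (mul_left_cancel hmul)
  -- the map `d ↦ d⁻¹ τ⁻¹ d τ`
  have hψ : ∀ d ∈ P, (d⁻¹ * (τ⁻¹ * d * τ)) * a * (d⁻¹ * (τ⁻¹ * d * τ))⁻¹ = a := by
    intro d hd
    have hd' : τ⁻¹ * d * τ ∈ P := D.conj_mem' D.τX hd
    have hφ : (τ⁻¹ * d * τ) * a * (τ⁻¹ * d * τ)⁻¹ = d * a * d⁻¹ := by
      have e1 : (τ⁻¹ * d * τ) * a * (τ⁻¹ * d * τ)⁻¹ = τ⁻¹ * (d * a₁ * d⁻¹) * τ := by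
        rw [ha₁]; group
      by_cases h1 : d * a * d⁻¹ = a
      · rw [e1, (hiff d hd).1 h1, h1, ha₁]; group
      · have h2 : d * a * d⁻¹ = a * z₀ := (h d hd).resolve_left h1
        rw [h2]
        have h3 : (τ⁻¹ * d * τ) * a * (τ⁻¹ * d * τ)⁻¹ ≠ a := by
          intro h4
          apply h1
          apply (hiff d hd).2
          have h5 := e1.symm.trans h4
          calc d * a₁ * d⁻¹ = τ * (τ⁻¹ * (d * a₁ * d⁻¹) * τ) * τ⁻¹ := by group
            _ = τ * a * τ⁻¹ := by rw [h5]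
        exact (h _ hd').resolve_left h3
    calc (d⁻¹ * (τ⁻¹ * d * τ)) * a * (d⁻¹ * (τ⁻¹ * d * τ))⁻¹
        = d⁻¹ * ((τ⁻¹ * d * τ) * a * (τ⁻¹ * d * τ)⁻¹) * d := by group
      _ = d⁻¹ * (d * a * d⁻¹) * d := by rw [hφ]
      _ = a := by group
  have hle : Nat.card P ≤ Nat.card (P ⊓ Subgroup.centralizer ({a} : Set M) : Subgroup M) := by
    refine Nat.card_le_card_of_injective (fun d : P => (⟨(d : M)⁻¹ * (τ⁻¹ * d * τ), ?_, ?_⟩ :
      (P ⊓ Subgroup.centralizer ({a} : Set M) : Subgroup M))) ?_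
    · exact P.mul_mem (P.inv_mem d.2) (D.conj_mem' D.τX d.2)
    · show (d : M)⁻¹ * (τ⁻¹ * d * τ) ∈ Subgroup.centralizer ({a} : Set M)
      rw [Subgroup.mem_centralizer_singleton_iff]
      have h1 := hψ d d.2
      calc (d : M)⁻¹ * (τ⁻¹ * d * τ) * a
          = ((d : M)⁻¹ * (τ⁻¹ * d * τ) * a * ((d : M)⁻¹ * (τ⁻¹ * d * τ))⁻¹) * ((d : M)⁻¹ * (τ⁻¹ * d * τ)) := by group
        _ = a * ((d : M)⁻¹ * (τ⁻¹ * d * τ)) := by rw [h1]
    · intro d e hde
      have h1 : (d : M)⁻¹ * (τ⁻¹ * d * τ) = (e : M)⁻¹ * (τ⁻¹ * e * τ) := congrArg Subtype.val hde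
      set w : M := (e : M) * (d : M)⁻¹ with hw
      have hwP : w ∈ P := P.mul_mem e.2 (P.inv_mem d.2)
      have h2 : τ * w * τ⁻¹ = w := by
        have h3 : (e : M) * ((d : M)⁻¹ * (τ⁻¹ * d * τ)) * (τ⁻¹ * (d : M)⁻¹ * τ) = τ⁻¹ * ((e : M) * (d : M)⁻¹) * τ := by
          rw [h1]; group
        have h4 : (e : M) * (d : M)⁻¹ = τ⁻¹ * ((e : M) * (d : M)⁻¹) * τ := by
          rw [← h3]; group
        calc τ * w * τ⁻¹ = τ * (τ⁻¹ * ((e : M) * (d : M)⁻¹) * τ) * τ⁻¹ := by rw [hw, ← h4]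
          _ = w := by rw [hw]; group
      have h3 := D.fix_eq_one hwP h2
      have h4 : (e : M) = d := mul_inv_eq_one.1 h3
      exact (Subtype.ext h4).symm
  have heq := Subgroup.eq_of_le_of_card_ge (inf_le_left : P ⊓ Subgroup.centralizer ({a} : Set M) ≤ P) hle
  apply haV
  refine ⟨haP, fun x hx => ?_, ha2⟩
  have h1 : x ∈ P ⊓ Subgroup.centralizer ({a} : Set M) := by rw [heq]; exact hx
  have h2 : x * a = a * x := Subgroup.mem_centralizer_singleton_iff.1 h1.2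
  exact h2

end LocData

end Cfsg.Agent.Lib.EPPO7
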