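import Mathlib

/-!
# A transfer lemma
-/

set_option autoImplicit false
set_option linter.style.haveILetI false

namespace Cfsg.Agent.Lib.EPPO7

universe u

variable {M : Type u} [Group M] [Finite M]

open MulAction Subgroup

/-- If `N(S) = S`, `S₀` has index two in the Sylow subgroup `S`, and `M` has no subgroup of index two,
then an element of `S` outside `S₀` lies in another Sylow subgroup. -/
theorem lemmaT (hno : ∀ N : Subgroup M, N.Normal → N.index ≠ 2) (S : Sylow 2 M)
    (hN : ∀ g ∈ Subgroup.normalizer ((S : Subgroup M) : Set M), g ∈ (S : Subgroup M)) {S₀ : Subgroup M}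
    (hidx : (S₀.subgroupOf (S : Subgroup M)).index = 2) :
    ∃ x ∈ (S : Subgroup M), x ∉ S₀ ∧ ∃ S' : Sylow 2 M, S' ≠ S ∧ x ∈ (S' : Subgroup M) := by
  classical
  by_contra hcon
  push Not at hcon
  set H : Subgroup M := (S : Subgroup M) with hH
  have hmem2 : ∀ a c : H, a * c ∈ S₀.subgroupOf H ↔ (a ∈ S₀.subgroupOf H ↔ c ∈ S₀.subgroupOf H) :=
    fun a c => Subgroup.mul_mem_iff_of_index_two hidx
  -- the homomorphism to `ℤˣ`
  let φ : H →* ℤˣ := MonoidHom.mk' (fun x => if x ∈ S₀.subgroupOf H then 1 else -1) (by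
    intro a c
    by_cases ha : a ∈ S₀.subgroupOf H <;> by_cases hc : c ∈ S₀.subgroupOf H
    · have : a * c ∈ S₀.subgroupOf H := (hmem2 a c).2 (iff_of_true ha hc)
      simp [ha, hc, this]
    · have : a * c ∉ S₀.subgroupOf H := fun h => hc (((hmem2 a c).1 h).1 ha)
      simp [ha, hc, this]
    · have : a * c ∉ S₀.subgroupOf H := fun h => ha (((hmem2 a c).1 h).2 hc)
      simp [ha, hc, this]
    · have : a * c ∈ S₀.subgroupOf H := (hmem2 a c).2 (iff_of_false ha hc)
      simp [ha, hc, this])
  have hφ1 : ∀ x : H, (x : M) ∈ S₀ → φ x = 1 := by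
    intro x hx
    have : x ∈ S₀.subgroupOf H := hx
    simp [φ, this]
  have hφ2 : ∀ x : H, (x : M) ∉ S₀ → φ x = -1 := by
    intro x hx
    have : x ∉ S₀.subgroupOf H := hx
    simp [φ, this]
  -- an element outside `S₀`
  obtain ⟨y, hyH, hyS₀⟩ : ∃ y ∈ H, y ∉ S₀ := by
    by_contra hc
    push Not at hc
    have : S₀.subgroupOf H = ⊤ := by
      rw [eq_top_iff]
      intro x _
      exact hc x x.2
    rw [this, Subgroup.index_top] at hidx
    omega
  haveI : H.FiniteIndex := inferInstance
  let V : M →* ℤˣ := MonoidHom.transfer φ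
  have hVy : V y = -1 := by
    letI : Fintype (Quotient (orbitRel (zpowers y) (M ⧸ H))) := Fintype.ofFinite _
    rw [show V y = _ from MonoidHom.transfer_eq_prod_quotient_orbitRel_zpowers_quot φ y]
    let base : M ⧸ H := ((1 : M) : M ⧸ H)
    let q₀ : Quotient (orbitRel (zpowers y) (M ⧸ H)) := Quotient.mk _ base
    have hbase : ∀ z : zpowers y, z • base = base := by
      rintro ⟨z, hz⟩
      obtain ⟨i, rfl⟩ := Subgroup.mem_zpowers_iff.1 hz
      have hyi : y ^ i ∈ H := H.zpow_mem hyH i
      have h1 : (y ^ i) • base = base := by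
        show ((y ^ i * 1 : M) : M ⧸ H) = ((1 : M) : M ⧸ H)
        rw [QuotientGroup.eq]
        simpa using H.inv_mem hyi
      exact h1
    have hq₀ : q₀.out = base := by
      have h2 : (Quotient.mk _ q₀.out : Quotient (orbitRel (zpowers y) (M ⧸ H))) = Quotient.mk _ base :=
        Quotient.out_eq' q₀
      have h3 : (orbitRel (zpowers y) (M ⧸ H)) q₀.out base := Quotient.exact h2
      rw [orbitRel_apply] at h3
      obtain ⟨z, hz⟩ := h3
      rw [← hz]
      exact hbase z
    rw [Finset.prod_eq_single q₀]
    · -- the base orbit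
      have hper : Function.minimalPeriod (y • ·) q₀.out = 1 := by
        rw [hq₀, Function.minimalPeriod_eq_one_iff_isFixedPt]
        exact hbase ⟨y, Subgroup.mem_zpowers y⟩
      set g : M := q₀.out.out with hg
      have hgH : g ∈ H := by
        have h1 : ((g : M) : M ⧸ H) = base := by
          rw [hg, QuotientGroup.out_eq', hq₀]
        have h2 := QuotientGroup.eq.1 h1
        have h3 : g⁻¹ * 1 ∈ H := h2
        simpa using h3
      have hmem : g⁻¹ * y ^ Function.minimalPeriod (y • ·) q₀.out * g ∉ S₀ := by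
        rw [hper, pow_one]
        intro hin
        have h1 : (⟨g, hgH⟩ : H)⁻¹ * ⟨y, hyH⟩ * ⟨g, hgH⟩ ∈ S₀.subgroupOf H := by
          rw [Subgroup.mem_subgroupOf]
          simpa using hin
        have h2 : φ ((⟨g, hgH⟩ : H)⁻¹ * ⟨y, hyH⟩ * ⟨g, hgH⟩) = 1 := hφ1 _ h1
        have h3 : φ ⟨y, hyH⟩ = -1 := hφ2 _ hyS₀
        rw [map_mul, map_mul, map_inv, h3] at h2
        have h4 : (φ ⟨g, hgH⟩)⁻¹ * -1 * φ ⟨g, hgH⟩ = -1 := by
          rw [mul_comm, ← mul_assoc, mul_inv_cancel, one_mul]
        rw [h4] at h2
        exact absurd h2 (by decide)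
      exact hφ2 _ hmem
    · -- the other orbits
      intro q _ hq
      apply hφ1
      show q.out.out⁻¹ * y ^ Function.minimalPeriod (y • ·) q.out * q.out.out ∈ S₀
      by_contra hin
      set g : M := q.out.out with hg
      set n := Function.minimalPeriod (y • ·) q.out with hn
      have hwH : g⁻¹ * y ^ n * g ∈ H := QuotientGroup.out_conj_pow_minimalPeriod_mem H y q.out
      -- the conjugate Sylow subgroup containing `w`
      let S' : Sylow 2 M := (MulAut.conj g⁻¹) • S
      have hwS' : g⁻¹ * y ^ n * g ∈ (S' : Subgroup M) := by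
        have h1 : (S' : Subgroup M) = (S : Subgroup M).map (MulAut.conj g⁻¹).toMonoidHom := rfl
        rw [h1]
        exact ⟨y ^ n, H.pow_mem hyH n, by simp⟩
      have hS'S : S' = S := by
        by_contra hne
        exact hcon _ hwH hin S' hne hwS'
      have hgN : g⁻¹ ∈ Subgroup.normalizer ((S : Subgroup M) : Set M) := by
        have h1 : (S : Subgroup M).map (MulAut.conj g⁻¹).toMonoidHom = S := by
          have := congrArg (fun T : Sylow 2 M => (T : Subgroup M)) hS'S
          exact this
        rw [Subgroup.mem_normalizer_iff]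
        intro x
        constructor
        · intro hx
          have : g⁻¹ * x * g⁻¹⁻¹ ∈ (S : Subgroup M).map (MulAut.conj g⁻¹).toMonoidHom := ⟨x, hx, rfl⟩
          rwa [h1] at this
        · intro hx
          rw [← h1] at hx
          obtain ⟨w, hw, hwx⟩ := hx
          have : w = x := by
            have h2 : g⁻¹ * w * g⁻¹⁻¹ = g⁻¹ * x * g⁻¹⁻¹ := hwx
            exact mul_left_cancel (mul_right_cancel h2)
          rwa [← this]
      have hgS : g ∈ H := by
        have := hN _ hgN
        simpa using H.inv_mem this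
      apply hq
      have h1 : ((g : M) : M ⧸ H) = base := by
        rw [QuotientGroup.eq]
        simpa using H.inv_mem hgS
      have h2 : q.out = base := by
        rw [← h1, hg, QuotientGroup.out_eq']
      calc q = Quotient.mk _ q.out := (Quotient.out_eq' q).symm
        _ = q₀ := by rw [h2]
    · intro h
      exact absurd (Finset.mem_univ _) h
  -- the kernel has index two
  have hrange : V.range = ⊤ := by
    rw [eq_top_iff]
    intro x _
    rcases Int.units_eq_one_or x with rfl | rfl
    · exact Subgroup.one_mem _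
    · exact ⟨y, hVy⟩
  apply hno V.ker inferInstance
  rw [Subgroup.index_ker, hrange, Subgroup.card_top, Nat.card_eq_fintype_card, Fintype.card_units_int]

end Cfsg.Agent.Lib.EPPO7
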