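import Cfsg.Agent.Lib.EPPO7.Rank
import Cfsg.Agent.Lib.EPPO7.LemmaT

/-!
# The impossibility of `|Ω₁Z(P)| ≥ 16`
-/

set_option autoImplicit false
set_option linter.style.haveILetI false

namespace Cfsg.Agent.Lib.EPPO7

open Cfsg.Agent.Lib.SmallSimple.SylowBasic

universe u

variable {M : Type u} [Group M] [Finite M]

theorem three_le_card {E : Subgroup M} {x y : M} (hx : x ∈ E) (hy : y ∈ E)
    (hx1 : x ≠ 1) (hy1 : y ≠ 1) (hxy : x ≠ y) : 3 ≤ Nat.card E := by
  classical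
  haveI := Fintype.ofFinite E
  rw [Nat.card_eq_fintype_card]
  have hs : ({⟨1, E.one_mem⟩, ⟨x, hx⟩, ⟨y, hy⟩} : Finset E).card = 3 := by
    rw [Finset.card_insert_of_notMem, Finset.card_insert_of_notMem, Finset.card_singleton]
    · simpa [Subtype.ext_iff] using hxy
    · simp only [Finset.mem_insert, Finset.mem_singleton, not_or, Subtype.ext_iff]
      exact ⟨hx1.symm, hy1.symm⟩
  rw [← hs]
  exact Finset.card_le_univ _

theorem four_cases {W : Subgroup M} (hW : ∀ x ∈ W, x * x = 1) (h4 : Nat.card W = 4) {b z : M} (hb : b ∈ W) (hz : z ∈ W)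
    (hb1 : b ≠ 1) (hz1 : z ≠ 1) (hbz : b ≠ z) {c : M} (hc : c ∈ W) : c = 1 ∨ c = z ∨ c = b ∨ c = b * z := by
  classical
  by_contra hcon
  push Not at hcon
  obtain ⟨hc1, hcz, hcb, hcbz⟩ := hcon
  haveI := Fintype.ofFinite W
  have hbzm : b * z ∈ W := W.mul_mem hb hz
  have h1 : b * z ≠ 1 := by
    intro h
    apply hbz
    have hzi : z⁻¹ = z := by rw [inv_eq_iff_mul_eq_one]; exact hW z hz
    rw [← hzi]
    exact eq_inv_of_mul_eq_one_left h
  have h2 : b * z ≠ z := fun h => hb1 (by simpa using h)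
  have h3 : b * z ≠ b := fun h => hz1 (by simpa using h)
  have hs : ({⟨1, W.one_mem⟩, ⟨z, hz⟩, ⟨b, hb⟩, ⟨b * z, hbzm⟩, ⟨c, hc⟩} : Finset W).card = 5 := by
    rw [Finset.card_insert_of_notMem, Finset.card_insert_of_notMem, Finset.card_insert_of_notMem,
      Finset.card_insert_of_notMem, Finset.card_singleton]
    · simp only [Finset.mem_singleton, Subtype.ext_iff]
      exact fun h => hcbz h.symm
    · simp only [Finset.mem_insert, Finset.mem_singleton, not_or, Subtype.ext_iff]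
      exact ⟨fun h => h3 h.symm, fun h => hcb h.symm⟩
    · simp only [Finset.mem_insert, Finset.mem_singleton, not_or, Subtype.ext_iff]
      exact ⟨fun h => hbz h.symm, fun h => h2 h.symm, fun h => hcz h.symm⟩
    · simp only [Finset.mem_insert, Finset.mem_singleton, not_or, Subtype.ext_iff]
      exact ⟨hz1.symm, hb1.symm, h1.symm, hc1.symm⟩
  have := Finset.card_le_univ ({⟨1, W.one_mem⟩, ⟨z, hz⟩, ⟨b, hb⟩, ⟨b * z, hbzm⟩, ⟨c, hc⟩} : Finset W)
  rw [hs, ← Nat.card_eq_fintype_card, h4] at this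
  omega

theorem exists_index_two_between {P S : Subgroup M} (hS : IsPGroup 2 S) (hPS : P < S) :
    ∃ S₀ : Subgroup M, P ≤ S₀ ∧ S₀ ≤ S ∧ (S₀.subgroupOf S).index = 2 := by
  classical
  haveI : Fact (Nat.Prime 2) := ⟨Nat.prime_two⟩
  obtain ⟨k, hk⟩ := IsPGroup.iff_card.1 hS
  have hP2 : IsPGroup 2 (P.subgroupOf S) := hS.to_subgroup _
  obtain ⟨n, hn⟩ := IsPGroup.iff_card.1 hP2
  have hcardP : Nat.card (P.subgroupOf S) = Nat.card P :=
    Nat.card_congr (Subgroup.subgroupOfEquivOfLe hPS.le).toEquiv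
  have hlt : Nat.card P < Nat.card S := by
    apply lt_of_le_of_ne (Subgroup.card_le_of_le hPS.le)
    intro h
    exact (ne_of_lt hPS) (Subgroup.eq_of_le_of_card_ge hPS.le h.ge)
  rw [hcardP] at hn
  have hnk : n < k := by
    rw [hn, hk] at hlt
    exact (Nat.pow_lt_pow_iff_right (by norm_num)).1 hlt
  have hdvd : 2 ^ (k - 1) ∣ Nat.card S := by
    rw [hk]
    exact pow_dvd_pow _ (by omega)
  obtain ⟨K, hK, hPK⟩ := Sylow.exists_subgroup_card_pow_prime_le 2 hdvd (P.subgroupOf S)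
    (by rw [hcardP]; exact hn) (by omega)
  refine ⟨K.map S.subtype, ?_, Subgroup.map_subtype_le _, ?_⟩
  · intro x hx
    exact ⟨⟨x, hPS.le hx⟩, hPK (by rw [Subgroup.mem_subgroupOf]; exact hx), rfl⟩
  · have hK2 : (K.map S.subtype).subgroupOf S = K := by
      ext x
      simp [Subgroup.mem_subgroupOf]
    rw [hK2]
    have h1 := Subgroup.card_mul_index K
    rw [hK, hk] at h1
    have hk1 : 2 ^ k = 2 ^ (k - 1) * 2 := by
      rw [← pow_succ]
      congr 1
      omega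
    rw [hk1] at h1
    exact Nat.eq_of_mul_eq_mul_left (by positivity) h1

namespace Dat

variable {S : Sylow 2 M} {P P' : Subgroup M} {τ u τ' u' : M} {r b r' b' : ℕ}

theorem omegaZ_S_mem (D : Dat S P τ u r b) {z : M} (hz : z ∈ omegaZ (S : Subgroup M)) : z ∈ omegaZ P := by
  have hzC : z ∈ Subgroup.centralizer (omegaZ P : Set M) := by
    rw [Subgroup.mem_centralizer_iff]
    intro v hv
    exact hz.2.1 v (D.PS (omegaZ_le P hv))
  have hzP := D.toLocData.cent_omegaZ hzC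
  exact ⟨hzP, fun x hx => hz.2.1 x (D.PS hx), hz.2.2⟩

theorem P_eq_of_normalizer_eq (D : Dat S P τ u r b) (D' : Dat S P' τ' u' r' b')
    (h : Subgroup.normalizer (P : Set M) = Subgroup.normalizer (P' : Set M)) : P = P' := by
  apply le_antisymm
  · exact D'.max P (h ▸ D.PX) (h ▸ le_rfl) D.p2
  · exact D.max P' (h.symm ▸ D'.PX) (h.symm ▸ le_rfl) D'.p2

/-- The case `P'` of order 4 self-centralizing and `|V| ≥ 16` is impossible. -/
theorem not_small (D : Dat S P τ u r b) (D' : Dat S P' τ' u' r' b') (hSX : (S : Subgroup M) ≤ Subgroup.normalizer (P : Set M))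
    (h16 : 16 ≤ Nat.card (omegaZ P)) (h4 : Nat.card P' = 4) (hV' : Nat.card (omegaZ P') = 4) : False := by
  classical
  have hVP' : omegaZ P' = P' := Subgroup.eq_of_le_of_card_ge (omegaZ_le P') (by rw [h4, hV'])
  have hS1 : (S : Subgroup M) ≠ ⊥ := by
    intro h
    have h1 := D.PS
    rw [h, le_bot_iff] at h1
    exact D.p1 h1
  obtain ⟨z, hz, hz1⟩ := (Subgroup.bot_or_exists_ne_one _).resolve_left (omegaZ_ne_bot S.2 hS1)
  have hzP' : z ∈ P' := omegaZ_le P' (D'.omegaZ_S_mem hz)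
  obtain ⟨x, hxP', hx1, hxz⟩ : ∃ x ∈ P', x ≠ 1 ∧ x ≠ z := by
    by_contra hcon
    push Not at hcon
    have h2 : Nat.card P' ≤ 2 := by
      have hle : P' ≤ Subgroup.zpowers z := by
        intro y hy
        by_cases hy1 : y = 1
        · rw [hy1]; exact Subgroup.one_mem _
        · rw [hcon y hy hy1]; exact Subgroup.mem_zpowers z
      have h5 := Subgroup.card_le_of_le hle
      rw [Nat.card_zpowers, orderOf_eq_prime (by rw [sq]; exact hz.2.2) hz1] at h5
      exact h5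
    omega
  have hx2 : x * x = 1 := by
    have : x ∈ omegaZ P' := by rw [hVP']; exact hxP'
    exact this.2.2
  have hxS := D'.PS hxP'
  -- the centralizer of `x` in `S`
  have hC : ∀ s ∈ (S : Subgroup M), s * x = x * s → s ∈ P' := by
    intro s hs hsx
    have hE : (P' ⊓ Subgroup.centralizer ({s} : Set M) : Subgroup M) = P' := by
      apply eq_of_card_four h4 inf_le_left (x := x) (y := z)
      · exact ⟨hxP', Subgroup.mem_centralizer_singleton_iff.2 hsx.symm⟩
      · exact ⟨hzP', Subgroup.mem_centralizer_singleton_iff.2 (hz.2.1 s hs).symm⟩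
      · exact hx1
      · exact hz1
      · exact hxz
    apply D'.toLocData.cent_omegaZ
    rw [Subgroup.mem_centralizer_iff]
    intro v hv
    have hvP' := omegaZ_le P' hv
    rw [← hE] at hvP'
    exact (Subgroup.mem_centralizer_singleton_iff.1 hvP'.2)
  have hxN : x ∈ Subgroup.normalizer (omegaZ P : Set M) := normalizer_le_omegaZ P (hSX hxS)
  obtain ⟨R, hR, -, -, hcard⟩ := exists_comm_img (W := omegaZ P) (fun y hy => hy.2.2) hxN hx2
  set C := (omegaZ P ⊓ Subgroup.centralizer ({x} : Set M) : Subgroup M) with hCdef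
  have hCP' : C ≤ P' := by
    intro y hy
    have hyx : y * x = x * y := Subgroup.mem_centralizer_singleton_iff.1 hy.2
    exact hC y (D.PS (omegaZ_le P hy.1)) hyx
  have hcV : Nat.card (omegaZ P) ≤ Nat.card C * Nat.card C := by
    rw [← hcard]
    exact Nat.mul_le_mul_right _ (Subgroup.card_le_of_le hR)
  have hd : Nat.card C ∣ 4 := h4 ▸ Subgroup.card_dvd_of_le hCP'
  have hle4 := Nat.le_of_dvd (by norm_num) hd
  have hcC4 : Nat.card C = 4 := by
    by_contra hne
    have h3 : Nat.card C ≤ 2 := by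
      interval_cases h : Nat.card C
      · simp at hd
      · omega
      · omega
      · omega
      · omega
    have : Nat.card C * Nat.card C ≤ 2 * 2 := Nat.mul_le_mul h3 h3
    omega
  have hCeq : C = P' := Subgroup.eq_of_le_of_card_ge hCP' (by omega)
  have hxV : x ∈ omegaZ P := by
    have : x ∈ C := by rw [hCeq]; exact hxP'
    exact this.1
  have hVC : omegaZ P ≤ C := by
    intro v hv
    refine ⟨hv, Subgroup.mem_centralizer_singleton_iff.2 ?_⟩
    exact comm_of_sq (W := omegaZ P) (fun y hy => hy.2.2) hv hxV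
  have := Subgroup.card_le_of_le hVC
  omega

/-- The case `|S : P'| = 2` and `|V'| = 4` with `|V| ≥ 16`. -/
theorem uniq_aux (hIH : IHyp.{u} (Nat.card M)) (D : Dat S P τ u r b) (D' : Dat S P' τ' u' 3 b')
    (h16 : 16 ≤ Nat.card (omegaZ P)) (hV' : Nat.card (omegaZ P') = 4)
    (hSX' : (S : Subgroup M) ≤ Subgroup.normalizer (P' : Set M)) : P' = P := by
  classical
  have hSX := D.S_le_X hIH h16
  have hT : (S : Subgroup M) ⊓ Subgroup.normalizer (P : Set M) = S := inf_eq_left.2 hSX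
  have hJ : JJ (S : Subgroup M) = JJ P := by
    have := D.JJ_eq h16
    rwa [hT] at this
  have hNJ := D.normalizer_JJ hIH
  -- members of `𝒜(S)`
  have hrank : ∀ A, IsMaxEA (S : Subgroup M) A → A ≤ P ∧ omegaZ P ≤ A := by
    intro A hA
    have hA' : IsMaxEA ((S : Subgroup M) ⊓ Subgroup.normalizer (P : Set M)) A := by rwa [hT]
    have h1 := D.maxEA_le_P h16 hA'
    exact ⟨h1, D.V_le_maxEA h1 hA.2.1 (fun B hB hE => hA.2.2 B (hB.trans D.PS) hE)⟩
  by_cases hall : ∀ A, IsMaxEA (S : Subgroup M) A → A ≤ P'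
  · have hJ' : JJ (S : Subgroup M) = JJ P' := by
      unfold JJ
      congr 1
      ext A
      constructor
      · intro h
        exact ⟨hall A h, h.2.1, fun B hB hE => h.2.2 B (hB.trans D'.PS) hE⟩
      · intro h
        refine ⟨h.1.trans D'.PS, h.2.1, fun B hB hE => ?_⟩
        obtain ⟨A', hA'⟩ := exists_maxEA (S : Subgroup M)
        exact (hA'.2.2 B hB hE).trans (h.2.2 A' (hall A' hA') hA'.2.1)
    apply (D.P_eq_of_normalizer_eq D' ?_).symm
    rw [← hNJ, ← D'.normalizer_JJ hIH, ← hJ, ← hJ']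
  · exfalso
    push Not at hall
    obtain ⟨A, hA, hAP'⟩ := hall
    obtain ⟨t, htA, htP'⟩ := SetLike.not_le_iff_exists.1 hAP'
    have htS := hA.1 htA
    have htX' := hSX' htS
    have ht2 := hA.2.1 t htA
    have hm' : Nat.card (omegaZ P' ⊓ Subgroup.centralizer ({u'} : Set M) : Subgroup M) = 2 := by
      have h1 := D'.V_sq
      rw [hV'] at h1
      have h2 : Nat.card (omegaZ P' ⊓ Subgroup.centralizer ({u'} : Set M) : Subgroup M) ≤ 2 := by
        by_contra hc
        push Not at hc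
        have : 3 ^ 2 ≤ (Nat.card (omegaZ P' ⊓ Subgroup.centralizer ({u'} : Set M) : Subgroup M)) ^ 2 :=
          Nat.pow_le_pow_left hc 2
        omega
      interval_cases h : Nat.card (omegaZ P' ⊓ Subgroup.centralizer ({u'} : Set M) : Subgroup M)
      · omega
      · omega
      · rfl
    have hle := D'.card_mul_m_le hA.2.1 hA.1 (hA.1.trans hSX') htA htP'
    rw [hm'] at hle
    set A₁ : Subgroup M := (A ⊓ P') ⊔ omegaZ P' with hA₁
    have hA₁P' : A₁ ≤ P' := sup_omegaZ_le inf_le_right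
    have hA₁EA : IsEA A₁ := isEA_sup_omegaZ inf_le_right (fun x hx => hA.2.1 x hx.1)
    have hcA : Nat.card A ≤ Nat.card A₁ := by omega
    -- members of `𝒜(P')` lie in `𝒜(S)`
    have hmax₁ : ∀ A₂ : Subgroup M, A₂ ≤ P' → IsEA A₂ → Nat.card A₁ ≤ Nat.card A₂ → IsMaxEA (S : Subgroup M) A₂ := by
      intro A₂ h1 h2 h3
      exact ⟨h1.trans D'.PS, h2, fun B hB hE => (hA.2.2 B hB hE).trans (hcA.trans h3)⟩
    have hA₁max : IsMaxEA (S : Subgroup M) A₁ := hmax₁ A₁ hA₁P' hA₁EA le_rfl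
    have hVA₁ := (hrank A₁ hA₁max).2
    -- conjugates of `V` by `X'` lie in `A₁`
    have hconjV : ∀ g ∈ Subgroup.normalizer (P' : Set M), ∀ v ∈ omegaZ P, g * v * g⁻¹ ∈ A₁ := by
      intro g hg v hv
      let A₂ : Subgroup M := A₁.map (MulAut.conj g⁻¹).toMonoidHom
      have hc : Nat.card A₂ = Nat.card A₁ :=
        Nat.card_congr (Subgroup.equivMapOfInjective A₁ _ (MulAut.conj g⁻¹).injective).toEquiv.symm
      have hA₂P' : A₂ ≤ P' := by
        rintro _ ⟨a, ha, rfl⟩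
        exact (Subgroup.mem_normalizer_iff.1 (Subgroup.inv_mem _ hg) a).1 (hA₁P' ha)
      have hA₂max := hmax₁ A₂ hA₂P' (hA₁EA.map_conj _) hc.ge
      obtain ⟨a, ha, hav⟩ := (hrank A₂ hA₂max).2 hv
      have hav' : g⁻¹ * a * g = v := by simpa using hav
      rw [← hav']
      have : g * (g⁻¹ * a * g) * g⁻¹ = a := by group
      rwa [this]
    have hA₁comm : ∀ {x y : M}, x ∈ A₁ → y ∈ A₁ → x * y = y * x := fun hx hy => comm_of_sq hA₁EA hx hy
    -- the element `τ''`
    obtain ⟨d, hd, hdt⟩ := D'.t_conj htS htX' ht2 htP'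
    have hdX' := D'.PX hd
    set τ₂ := d⁻¹ * τ' * d with hτ₂
    have hτ₂X' : τ₂ ∈ Subgroup.normalizer (P' : Set M) :=
      Subgroup.mul_mem _ (Subgroup.mul_mem _ (Subgroup.inv_mem _ hdX') D'.τX) hdX'
    have hτ'3 : τ' ^ 3 = 1 := by
      rw [← D'.ord]; exact pow_orderOf_eq_one τ'
    have hτ₂3 : τ₂ * τ₂ * τ₂ = 1 := by
      have h1 : τ' * τ' * τ' = 1 := by rw [← hτ'3]; simp [pow_succ]
      calc τ₂ * τ₂ * τ₂ = d⁻¹ * (τ' * τ' * τ') * d := by rw [hτ₂]; group
        _ = 1 := by rw [h1]; group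
    have hτ₂inv : τ₂⁻¹ = τ₂ * τ₂ := by
      rw [inv_eq_iff_mul_eq_one]
      calc τ₂ * (τ₂ * τ₂) = τ₂ * τ₂ * τ₂ := by group
        _ = 1 := hτ₂3
    have htτ₂ : t * τ₂ * t⁻¹ = τ₂⁻¹ := by
      have h1 : t = d⁻¹ * u' * d := by rw [← hdt]; group
      rw [h1, hτ₂]
      calc d⁻¹ * u' * d * (d⁻¹ * τ' * d) * (d⁻¹ * u' * d)⁻¹ = d⁻¹ * (u' * τ' * u'⁻¹) * d := by group
        _ = d⁻¹ * τ'⁻¹ * d := by rw [D'.uτ]
        _ = (d⁻¹ * τ' * d)⁻¹ := by group
    have hfix : ∀ {x : M}, x ∈ P' → τ₂ * x * τ₂⁻¹ = x → x = 1 := by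
      intro x hx hfx
      have h1 : d * x * d⁻¹ ∈ P' := (Subgroup.mem_normalizer_iff.1 hdX' x).1 hx
      have h2 : τ' * (d * x * d⁻¹) * τ'⁻¹ = d * x * d⁻¹ := by
        calc τ' * (d * x * d⁻¹) * τ'⁻¹ = d * (τ₂ * x * τ₂⁻¹) * d⁻¹ := by rw [hτ₂]; group
          _ = d * x * d⁻¹ := by rw [hfx]
      have h3 := D'.toLocData.fix_eq_one h1 h2
      have h4 : d * x = d := mul_inv_eq_one.1 h3
      exact mul_left_cancel (h4.trans (mul_one d).symm)
    -- the computation
    obtain ⟨R, hR, hRmem, -, hcardR⟩ := exists_comm_img (W := omegaZ P') (fun y hy => hy.2.2)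
      (normalizer_le_omegaZ P' htX') ht2
    have hVR : omegaZ P ≤ R := by
      intro v hv
      have hvA := (hrank A hA).2 hv
      set v₁ := τ₂ * v * τ₂⁻¹ with hv₁
      set v₂ := τ₂⁻¹ * v * τ₂ with hv₂
      have hv₀A₁ : v ∈ A₁ := hVA₁ hv
      have hv₁A₁ : v₁ ∈ A₁ := hconjV τ₂ hτ₂X' v hv
      have hv₂A₁ : v₂ ∈ A₁ := by
        have := hconjV τ₂⁻¹ (Subgroup.inv_mem _ hτ₂X') v hv
        simpa [hv₂] using this
      have hτv₁ : τ₂ * v₁ * τ₂⁻¹ = v₂ := by
        rw [hv₁, hv₂]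
        calc τ₂ * (τ₂ * v * τ₂⁻¹) * τ₂⁻¹ = (τ₂ * τ₂) * v * (τ₂ * τ₂)⁻¹ := by group
          _ = τ₂⁻¹ * v * τ₂ := by rw [← hτ₂inv]; simp
      have hτv₂ : τ₂ * v₂ * τ₂⁻¹ = v := by
        rw [hv₂]; group
      have hprod : v * v₁ * v₂ = 1 := by
        apply hfix (hA₁P' (A₁.mul_mem (A₁.mul_mem hv₀A₁ hv₁A₁) hv₂A₁))
        calc τ₂ * (v * v₁ * v₂) * τ₂⁻¹ = (τ₂ * v * τ₂⁻¹) * (τ₂ * v₁ * τ₂⁻¹) * (τ₂ * v₂ * τ₂⁻¹) := by group
          _ = v₁ * v₂ * v := by rw [hτv₁, hτv₂]
          _ = v₁ * (v₂ * v) := by group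
          _ = v₁ * (v * v₂) := by rw [hA₁comm hv₂A₁ hv₀A₁]
          _ = (v₁ * v) * v₂ := by group
          _ = (v * v₁) * v₂ := by rw [hA₁comm hv₁A₁ hv₀A₁]
      have hv₂eq : v₂ = v * v₁ := by
        have h1 : v₂ = (v * v₁)⁻¹ := eq_inv_of_mul_eq_one_right hprod
        rw [h1, inv_eq_iff_mul_eq_one]
        exact hA₁EA _ (A₁.mul_mem hv₀A₁ hv₁A₁) |> fun h => h
      have htv : t * v * t⁻¹ = v := by
        have := comm_of_sq hA.2.1 htA hvA
        rw [this]; group
      have htv₁ : t * v₁ * t⁻¹ = v₂ := by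
        rw [hv₁, hv₂]
        calc t * (τ₂ * v * τ₂⁻¹) * t⁻¹ = (t * τ₂ * t⁻¹) * (t * v * t⁻¹) * (t * τ₂ * t⁻¹)⁻¹ := by group
          _ = τ₂⁻¹ * v * τ₂ := by rw [htτ₂, htv]; simp
      obtain ⟨a, ha, w, hw, hv₁eq⟩ := mem_sup_omegaZ (A := A ⊓ P') (P := P') inf_le_right hv₁A₁
      have hta : t * a * t⁻¹ = a := by
        have := comm_of_sq hA.2.1 htA ha.1
        rw [this]; group
      have hw2 := hw.2.2
      have hwA₁ : w ∈ A₁ := (le_sup_right : omegaZ P' ≤ A₁) hw
      have haA₁ : a ∈ A₁ := (le_sup_left : (A ⊓ P') ≤ A₁) ha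
      have h1 : a * (t * w * t⁻¹) = v * (a * w) := by
        calc a * (t * w * t⁻¹) = (t * a * t⁻¹) * (t * w * t⁻¹) := by rw [hta]
          _ = t * (a * w) * t⁻¹ := by group
          _ = t * v₁ * t⁻¹ := by rw [hv₁eq]
          _ = v * v₁ := by rw [htv₁, hv₂eq]
          _ = v * (a * w) := by rw [hv₁eq]
      have h2 : t * w * t⁻¹ = v * w := by
        have h3 : v * (a * w) = a * (v * w) := by
          calc v * (a * w) = (v * a) * w := by group
            _ = (a * v) * w := by rw [hA₁comm hv₀A₁ haA₁]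
            _ = a * (v * w) := by group
        rw [h3] at h1
        exact mul_left_cancel h1
      have h3 : v = t * w * t⁻¹ * w := by
        rw [h2, mul_assoc, hw2, mul_one]
      rw [h3]
      exact hRmem w hw
    have hcR : Nat.card R = 2 := by
      have h1 := D'.card_cent_V_t htS htX' ht2 htP'
      rw [h1, hm', hV'] at hcardR
      omega
    have := Subgroup.card_le_of_le hVR
    omega

end Dat

/-- `|V| ≥ 16` is impossible. -/
theorem no_large (hM : PP M) (hIH : IHyp.{u} (Nat.card M)) (hno : ∀ N : Subgroup M, N.Normal → N.index ≠ 2)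
    {S : Sylow 2 M} {P : Subgroup M} {τ u : M} {r b : ℕ} (D : Dat S P τ u r b)
    (h16 : 16 ≤ Nat.card (omegaZ P)) : False := by
  classical
  have hSX := D.S_le_X hIH h16
  have hT : (S : Subgroup M) ⊓ Subgroup.normalizer (P : Set M) = S := inf_eq_left.2 hSX
  have hJ : JJ (S : Subgroup M) = JJ P := by
    have := D.JJ_eq h16
    rwa [hT] at this
  have huniq : ∀ P', IsIMax S P' → P' = P := by
    intro P' hI
    obtain ⟨τ', u', r', b', D'⟩ := hI.exists_dat hM hIH
    rcases D'.card_V_cases with h4 | h16'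
    · have hr := D'.toLocData.r_eq_three h4
      subst hr
      by_cases hSX' : (S : Subgroup M) ≤ Subgroup.normalizer (P' : Set M)
      · exact D.uniq_aux hIH D' h16 h4 hSX'
      · exact absurd (E3 hIH D' h4 hSX') (fun h => (D.not_small D' hSX h16 h h4).elim)
    · have hJ' : JJ (S : Subgroup M) = JJ P' := by
        have := D'.JJ_eq h16'
        rwa [inf_eq_left.2 (D'.S_le_X hIH h16')] at this
      apply (D.P_eq_of_normalizer_eq D' ?_).symm
      rw [← D.normalizer_JJ hIH, ← D'.normalizer_JJ hIH, ← hJ, ← hJ']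
  have hPS : P < (S : Subgroup M) := lt_of_lt_of_le D.PT inf_le_left
  obtain ⟨S₀, hPS₀, -, hidx⟩ := exists_index_two_between S.2 hPS
  obtain ⟨x, hxS, hxS₀, S', hS', hxS'⟩ := lemmaT hno S (fun g hg => D.normalizer_S hIH h16 hg) hidx
  have hx1 : x ≠ 1 := by
    rintro rfl
    exact hxS₀ S₀.one_mem
  obtain ⟨P', hI, hxP'⟩ := exists_IMax hS' hxS hxS' hx1
  rw [huniq P' hI] at hxP'
  exact hxS₀ (hPS₀ hxP')

end Cfsg.Agent.Lib.EPPO7
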