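import Cfsg.Agent.Lib.EPPO7.Dat2

/-!
# The case `|Ω₁Z(P)| = 4` with `N_S(P) < S`
-/

set_option autoImplicit false
set_option linter.style.haveILetI false

namespace Cfsg.Agent.Lib.EPPO7

open Cfsg.Agent.Lib.SmallSimple.SylowBasic

universe u

variable {M : Type u} [Group M] [Finite M]

namespace Dat

variable {S : Sylow 2 M} {P : Subgroup M} {τ u : M} {r b : ℕ}

theorem u2 (D : Dat S P τ u r b) : u * u = 1 := by
  rw [← sq, ← D.uord]
  exact pow_orderOf_eq_one u

theorem uinv (D : Dat S P τ u r b) : u⁻¹ = u := by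
  rw [inv_eq_iff_mul_eq_one]; exact D.u2

theorem two_of_mem (_D : Dat S P τ u r b) {x : M} (hx : x ∈ (S : Subgroup M)) : ∃ k : ℕ, orderOf x = 2 ^ k :=
  orderOf_of_mem_two S.2 hx

theorem t_mul_u (D : Dat S P τ u r b) {t : M} (hS : t ∈ (S : Subgroup M)) (hX : t ∈ Subgroup.normalizer (P : Set M))
    (ht2 : t * t = 1) (htP : t ∉ P) : t * u ∈ P := by
  obtain ⟨k, hk⟩ := D.two_of_mem ((S : Subgroup M).mul_mem hS D.uS)
  exact D.toLocData.F3 hX D.uX ht2 D.u2 htP D.uP hk

theorem t_conj (D : Dat S P τ u r b) {t : M} (hS : t ∈ (S : Subgroup M)) (hX : t ∈ Subgroup.normalizer (P : Set M))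
    (ht2 : t * t = 1) (htP : t ∉ P) : ∃ d ∈ P, d * t * d⁻¹ = u :=
  D.toLocData.F4 hX ht2 htP D.u2 D.uτ (D.t_mul_u hS hX ht2 htP)

theorem P_norm_V (_D : Dat S P τ u r b) {d : M} (hd : d ∈ P) : d ∈ Subgroup.normalizer (omegaZ P : Set M) :=
  normalizer_le_omegaZ P (Subgroup.le_normalizer hd)

theorem τ_norm_V (D : Dat S P τ u r b) : τ ∈ Subgroup.normalizer (omegaZ P : Set M) :=
  normalizer_le_omegaZ P D.τX

theorem V_sq (D : Dat S P τ u r b) :
    (Nat.card (omegaZ P ⊓ Subgroup.centralizer ({u} : Set M) : Subgroup M)) ^ 2 = Nat.card (omegaZ P) := by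
  apply le_antisymm
  · exact D.toLocData.cent_card (omegaZ_le P) D.τ_norm_V D.u2 D.uτ
  · obtain ⟨R, hR, -, -, hcard⟩ := exists_comm_img (W := omegaZ P) (fun x hx => hx.2.2)
      (normalizer_le_omegaZ P D.uX) D.u2
    rw [← hcard, sq]
    exact Nat.mul_le_mul_right _ (Subgroup.card_le_of_le hR)

theorem card_cent_V_t (D : Dat S P τ u r b) {t : M} (hS : t ∈ (S : Subgroup M))
    (hX : t ∈ Subgroup.normalizer (P : Set M)) (ht2 : t * t = 1) (htP : t ∉ P) :
    Nat.card (omegaZ P ⊓ Subgroup.centralizer ({t} : Set M) : Subgroup M)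
      = Nat.card (omegaZ P ⊓ Subgroup.centralizer ({u} : Set M) : Subgroup M) := by
  obtain ⟨d, hd, hdt⟩ := D.t_conj hS hX ht2 htP
  exact LocData.card_cent_conj (D.P_norm_V hd) hdt

theorem V_sq_t (D : Dat S P τ u r b) {t : M} (hS : t ∈ (S : Subgroup M))
    (hX : t ∈ Subgroup.normalizer (P : Set M)) (ht2 : t * t = 1) (htP : t ∉ P) :
    (Nat.card (omegaZ P ⊓ Subgroup.centralizer ({t} : Set M) : Subgroup M)) ^ 2 = Nat.card (omegaZ P) := by
  rw [D.card_cent_V_t hS hX ht2 htP, D.V_sq]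

theorem P_cent_t (D : Dat S P τ u r b) {t : M} (hS : t ∈ (S : Subgroup M))
    (hX : t ∈ Subgroup.normalizer (P : Set M)) (ht2 : t * t = 1) (htP : t ∉ P) :
    (Nat.card (P ⊓ Subgroup.centralizer ({t} : Set M) : Subgroup M)) ^ 2 ≤ Nat.card P := by
  obtain ⟨d, hd, hdt⟩ := D.t_conj hS hX ht2 htP
  rw [LocData.card_cent_conj (Q := P) (Subgroup.le_normalizer hd) hdt]
  exact D.toLocData.cent_card le_rfl D.τX D.u2 D.uτ

theorem card_V_cases (D : Dat S P τ u r b) : Nat.card (omegaZ P) = 4 ∨ 16 ≤ Nat.card (omegaZ P) := by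
  have h1 := D.V_sq
  have hV2 : IsPGroup 2 (omegaZ P) := IsPGroup.to_le D.p2 (omegaZ_le P)
  obtain ⟨n, hn⟩ := IsPGroup.iff_card.1 hV2
  have hd : Nat.card (omegaZ P ⊓ Subgroup.centralizer ({u} : Set M) : Subgroup M) ∣ 2 ^ n := by
    rw [← hn]
    exact Subgroup.card_dvd_of_le inf_le_left
  obtain ⟨k, -, hk⟩ := (Nat.dvd_prime_pow Nat.prime_two).1 hd
  rw [hk] at h1
  have hV1 : 1 < Nat.card (omegaZ P) := (Subgroup.one_lt_card_iff_ne_bot _).2 (omegaZ_ne_bot D.p2 D.p1)
  have hk0 : k ≠ 0 := by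
    rintro rfl
    rw [← h1] at hV1
    simp at hV1
  rcases Nat.lt_or_ge k 2 with h2 | h2
  · left
    have : k = 1 := by omega
    rw [this] at h1
    rw [← h1]; norm_num
  · right
    rw [← h1]
    calc 16 = (2 ^ 2) ^ 2 := by norm_num
      _ ≤ (2 ^ k) ^ 2 := Nat.pow_le_pow_left (Nat.pow_le_pow_right (by norm_num) h2) 2

/-- `|T : P| = 2` when `r = 3`. -/
theorem card_T (D : Dat S P τ u 3 b) :
    Nat.card ((S : Subgroup M) ⊓ Subgroup.normalizer (P : Set M) : Subgroup M) = 2 * Nat.card P := by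
  set T := (S : Subgroup M) ⊓ Subgroup.normalizer (P : Set M) with hT
  have hT2 : IsPGroup 2 T := IsPGroup.to_le S.2 inf_le_left
  have hinf : T ⊓ P = P := inf_eq_right.2 D.PT.le
  have hle : Nat.card T ≤ 2 * Nat.card P := by
    have := card_le_two_mul (A := T) (P := P) (t := u) (fun s hs hsP => by
      rw [hinf]
      obtain ⟨k, hk⟩ := D.two_of_mem hs.1
      obtain ⟨l, hl⟩ := D.two_of_mem ((S : Subgroup M).mul_mem hs.1 D.uS)
      exact D.toLocData.mul_mem_of_inv hs.2 D.uX (D.toLocData.inv_mod3 hs.2 hsP hk)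
        (D.toLocData.inv_mod D.uX D.u2 D.uP) hl)
    rwa [hinf] at this
  obtain ⟨c, hc⟩ := Subgroup.card_dvd_of_le D.PT.le
  have hpos : 0 < Nat.card P := Nat.card_pos
  have hc2 : c ≤ 2 := by
    by_contra hcon
    push Not at hcon
    rw [hc] at hle
    nlinarith
  have hc1 : c ≠ 1 := by
    rintro rfl
    rw [mul_one] at hc
    exact absurd (Subgroup.eq_of_le_of_card_ge D.PT.le hc.le) (ne_of_lt D.PT)
  have hc0 : c ≠ 0 := by
    rintro rfl
    rw [mul_zero] at hc
    exact (Nat.card_pos (α := T)).ne' hc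
  have : c = 2 := by omega
  rw [hc, this, mul_comm]

end Dat

/-- The case `N_S(P) < S`. -/
theorem E3 (hIH : IHyp.{u} (Nat.card M)) {S : Sylow 2 M} {P : Subgroup M} {τ u : M} {r b : ℕ}
    (D : Dat S P τ u r b) (hV : Nat.card (omegaZ P) = 4)
    (hT : ¬ (S : Subgroup M) ≤ Subgroup.normalizer (P : Set M)) : Nat.card P = 4 := by
  classical
  haveI : Fact (Nat.Prime 2) := ⟨Nat.prime_two⟩
  have hr : r = 3 := D.toLocData.r_eq_three hV
  subst hr
  set X := Subgroup.normalizer (P : Set M) with hX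
  set T := (S : Subgroup M) ⊓ X with hTdef
  have hcT := D.card_T
  have hTS : T < (S : Subgroup M) :=
    lt_of_le_of_ne inf_le_left (fun h => hT (h ▸ inf_le_right))
  obtain ⟨y, hyS, hyT, hyN⟩ := exists_mem_normalizer_not_mem S.2 hTS
  have hyX : y ∉ X := fun h => hyT ⟨hyS, h⟩
  let Py : Subgroup M := P.map (MulAut.conj y).toMonoidHom
  have hmemPy : ∀ {x : M}, x ∈ Py ↔ y⁻¹ * x * y ∈ P := by
    intro x
    constructor
    · rintro ⟨p, hp, rfl⟩
      simpa [mul_assoc] using hp
    · intro hx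
      exact ⟨_, hx, by simp [mul_assoc]⟩
  have hPyT : Py ≤ T := by
    rintro _ ⟨p, hp, rfl⟩
    exact (Subgroup.mem_normalizer_iff.1 hyN p).1 (D.PT.le hp)
  have hcPy : Nat.card Py = Nat.card P :=
    Nat.card_congr (Subgroup.equivMapOfInjective P _ (MulAut.conj y).injective).toEquiv.symm
  have hPyX : Py ≤ X := hPyT.trans inf_le_right
  set C := Py ⊓ P with hC
  have hcC : Nat.card P ≤ 2 * Nat.card C := by
    have h1 := Cfsg.Agent.Lib.Solvable.WielandtHall.card_sup_mul_card_inf_of_le_normalizer hPyX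
    have h2 : Nat.card (Py ⊔ P : Subgroup M) ≤ Nat.card T := Subgroup.card_le_of_le (sup_le hPyT D.PT.le)
    rw [hcPy] at h1
    have hpos : 0 < Nat.card P := Nat.card_pos
    have h3 : Nat.card P * Nat.card P ≤ (2 * Nat.card P) * Nat.card C := by
      rw [← h1, ← hcT]
      exact Nat.mul_le_mul_right _ h2
    have h4 : Nat.card P * Nat.card P ≤ Nat.card P * (2 * Nat.card C) := by
      calc Nat.card P * Nat.card P ≤ (2 * Nat.card P) * Nat.card C := h3
        _ = Nat.card P * (2 * Nat.card C) := by ring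
    exact Nat.le_of_mul_le_mul_left h4 hpos
  have hVP : omegaZ P ≤ P := omegaZ_le P
  have hge4 : 4 ≤ Nat.card P := by
    rw [← hV]
    exact Subgroup.card_le_of_le hVP
  by_cases hcase : ∃ z ∈ omegaZ P, y * z * y⁻¹ ∉ P
  · -- case (a)
    obtain ⟨z, hz, hzP⟩ := hcase
    set t := y * z * y⁻¹ with ht
    have htPy : t ∈ Py := hmemPy.2 (by simpa [ht, mul_assoc] using hVP hz)
    have htT := hPyT htPy
    have ht2 : t * t = 1 := by
      calc t * t = y * (z * z) * y⁻¹ := by rw [ht]; group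
        _ = 1 := by rw [hz.2.2]; simp
    have hCle : C ≤ P ⊓ Subgroup.centralizer ({t} : Set M) := by
      intro c hc
      refine ⟨hc.2, Subgroup.mem_centralizer_singleton_iff.2 ?_⟩
      have hc' := hmemPy.1 hc.1
      have h1 := omegaZ_comm hz hc'
      have h2 : y * ((y⁻¹ * c * y) * z) * y⁻¹ = y * (z * (y⁻¹ * c * y)) * y⁻¹ := by rw [h1]
      calc c * t = y * ((y⁻¹ * c * y) * z) * y⁻¹ := by rw [ht]; group
        _ = y * (z * (y⁻¹ * c * y)) * y⁻¹ := h2
        _ = t * c := by rw [ht]; group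
    have h3 := D.P_cent_t htT.1 htT.2 ht2 hzP
    have h4 : Nat.card C ≤ Nat.card (P ⊓ Subgroup.centralizer ({t} : Set M) : Subgroup M) :=
      Subgroup.card_le_of_le hCle
    have h5 : Nat.card C * Nat.card C ≤ Nat.card P := by
      calc Nat.card C * Nat.card C ≤ (Nat.card (P ⊓ Subgroup.centralizer ({t} : Set M) : Subgroup M)) ^ 2 := by
            rw [sq]; exact Nat.mul_le_mul h4 h4
        _ ≤ Nat.card P := h3
    have hCpos : 0 < Nat.card C := Nat.card_pos
    have h6 : Nat.card C ≤ 2 := by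
      have h7 : Nat.card C * Nat.card C ≤ 2 * Nat.card C := h5.trans hcC
      exact Nat.le_of_mul_le_mul_right h7 hCpos
    omega
  · -- case (b)
    exfalso
    push Not at hcase
    let Vy : Subgroup M := (omegaZ P).map (MulAut.conj y).toMonoidHom
    have hcVy : Nat.card Vy = Nat.card (omegaZ P) :=
      Nat.card_congr (Subgroup.equivMapOfInjective _ _ (MulAut.conj y).injective).toEquiv.symm
    have hVyne : ¬ Vy ≤ omegaZ P := by
      intro hle
      have heq : Vy = omegaZ P := Subgroup.eq_of_le_of_card_ge hle (by rw [hcVy])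
      have hN := D.toLocData.normalizer_eq hIH hVP (omegaZ_ne_bot D.p2 D.p1) (normalizer_le_omegaZ P)
      apply hyX
      rw [hX, ← hN, Subgroup.mem_normalizer_iff]
      intro x
      constructor
      · intro hx
        rw [← heq]
        exact ⟨x, hx, rfl⟩
      · intro hx
        rw [← heq] at hx
        obtain ⟨w, hw, hwx⟩ := hx
        have : w = x := by
          have h1 : y * w * y⁻¹ = y * x * y⁻¹ := by simpa using hwx
          have h2 := mul_right_cancel h1
          exact mul_left_cancel h2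
        rwa [← this]
    obtain ⟨a, haVy, haV⟩ := SetLike.not_le_iff_exists.1 hVyne
    obtain ⟨z, hz, hza⟩ := haVy
    have hza' : a = y * z * y⁻¹ := by simpa using hza.symm
    have haP : a ∈ P := hza' ▸ hcase z hz
    have ha2 : a * a = 1 := by
      calc a * a = y * (z * z) * y⁻¹ := by rw [hza']; group
        _ = 1 := by rw [hz.2.2]; simp
    have haPy : a ∈ Py := hmemPy.2 (by simpa [hza', mul_assoc] using hVP hz)
    have hacomm : ∀ x ∈ Py, x * a = a * x := by
      intro x hx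
      have hx' := hmemPy.1 hx
      have h1 := omegaZ_comm hz hx'
      have h2 : y * ((y⁻¹ * x * y) * z) * y⁻¹ = y * (z * (y⁻¹ * x * y)) * y⁻¹ := by rw [h1]
      calc x * a = y * ((y⁻¹ * x * y) * z) * y⁻¹ := by rw [hza']; group
        _ = y * (z * (y⁻¹ * x * y)) * y⁻¹ := h2
        _ = a * x := by rw [hza']; group
    -- `T` normalizes `Py`
    have hTPy : ∀ {d x : M}, d ∈ T → x ∈ Py → d * x * d⁻¹ ∈ Py := by
      intro d x hd hx
      have hx' := hmemPy.1 hx
      have hd' : y⁻¹ * d * y ∈ T := by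
        have := (Subgroup.mem_normalizer_iff.1 (Subgroup.inv_mem _ hyN) d).1 hd
        simpa using this
      have h1 := (Subgroup.mem_normalizer_iff.1 hd'.2 _).1 hx'
      apply hmemPy.2
      have e : y⁻¹ * (d * x * d⁻¹) * y = (y⁻¹ * d * y) * (y⁻¹ * x * y) * (y⁻¹ * d * y)⁻¹ := by group
      rw [e]
      exact h1
    -- the centralizer of `a` in `P`
    set E := P ⊓ Subgroup.centralizer ({a} : Set M) with hE
    have hCE : C ≤ E := by
      intro c hc
      exact ⟨hc.2, Subgroup.mem_centralizer_singleton_iff.2 (hacomm c hc.1)⟩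
    obtain ⟨d₀, hd₀P, hd₀⟩ : ∃ d₀ ∈ P, d₀ * a ≠ a * d₀ := by
      by_contra hcon
      push Not at hcon
      exact haV ⟨haP, hcon, ha2⟩
    have hd₀E : d₀ ∉ E := fun h => hd₀ (Subgroup.mem_centralizer_singleton_iff.1 h.2)
    have hEidx : (E.subgroupOf P).index = 2 := by
      have h1 : E ≤ P := inf_le_left
      have h2 := Subgroup.card_mul_index (E.subgroupOf P)
      have h3 : Nat.card (E.subgroupOf P) = Nat.card E :=
        Nat.card_congr (Subgroup.subgroupOfEquivOfLe h1).toEquiv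
      rw [h3] at h2
      have h4 : Nat.card C ≤ Nat.card E := Subgroup.card_le_of_le hCE
      have hEpos : 0 < Nat.card E := Nat.card_pos
      set i := (E.subgroupOf P).index with hi
      have hi2 : i ≤ 2 := by
        by_contra hcon
        push Not at hcon
        have h5 : Nat.card E * 3 ≤ Nat.card E * i := Nat.mul_le_mul_left _ hcon
        omega
      have hi1 : i ≠ 1 := by
        intro h6
        rw [h6, mul_one] at h2
        have := Subgroup.eq_of_le_of_card_ge h1 h2.ge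
        exact hd₀E (this ▸ hd₀P)
      have hi0 : i ≠ 0 := by
        intro h6
        rw [h6, mul_zero] at h2
        exact (Nat.card_pos (α := P)).ne' h2.symm
      omega
    have hmemE : ∀ {d e : M} (hd : d ∈ P) (he : e ∈ P), d * e ∈ E ↔ (d ∈ E ↔ e ∈ E) := by
      intro d e hd he
      have h1 := Subgroup.mul_mem_iff_of_index_two hEidx (a := ⟨d, hd⟩) (b := ⟨e, he⟩)
      simpa [Subgroup.mem_subgroupOf] using h1
    have hconjE : ∀ {d : M}, d ∈ E → d * a * d⁻¹ = a := by
      intro d hd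
      have := Subgroup.mem_centralizer_singleton_iff.1 hd.2
      rw [this]; group
    set a' := d₀ * a * d₀⁻¹ with ha'
    have hconjE' : ∀ {d : M}, d ∈ P → d ∉ E → d * a * d⁻¹ = a' := by
      intro d hd hdE
      have h1 : d₀⁻¹ * d ∈ E := by
        rw [hmemE (P.inv_mem hd₀P) hd]
        constructor
        · intro h
          exact absurd (by simpa using E.inv_mem h) hd₀E
        · intro h
          exact absurd h hdE
      have h2 := hconjE h1
      calc d * a * d⁻¹ = d₀ * ((d₀⁻¹ * d) * a * (d₀⁻¹ * d)⁻¹) * d₀⁻¹ := by group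
        _ = a' := by rw [h2]
    have ha'Py : a' ∈ Py := hTPy (D.PT.le hd₀P) haPy
    have haa' : a' * a = a * a' := hacomm a' ha'Py
    have ha'P : a' ∈ P := (Subgroup.mem_normalizer_iff.1 (Subgroup.le_normalizer hd₀P) a).1 haP
    set z₀ := a * a' with hz₀
    have ha'2 : a' * a' = 1 := by
      calc a' * a' = d₀ * (a * a) * d₀⁻¹ := by rw [ha']; group
        _ = 1 := by rw [ha2]; simp
    have hz₀2 : z₀ * z₀ = 1 := by
      calc z₀ * z₀ = a * (a' * a) * a' := by rw [hz₀]; group
        _ = a * (a * a') * a' := by rw [haa']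
        _ = (a * a) * (a' * a') := by group
        _ = 1 := by rw [ha2, ha'2, one_mul]
    have hz₀P : z₀ ∈ P := P.mul_mem haP ha'P
    have haz : a * z₀ = a' := by
      rw [hz₀, ← mul_assoc, ha2, one_mul]
    have hz₀c : ∀ x ∈ P, x * z₀ = z₀ * x := by
      intro d hd
      have h1 : d * z₀ * d⁻¹ = z₀ := by
        have e : d * z₀ * d⁻¹ = (d * a * d⁻¹) * ((d * d₀) * a * (d * d₀)⁻¹) * (d₀ * a⁻¹ * d₀⁻¹ * a') := by
          have : a' * a' = 1 := ha'2
          have hainv : a⁻¹ = a := by rw [inv_eq_iff_mul_eq_one]; exact ha2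
          rw [hz₀]
          have h2 : d₀ * a⁻¹ * d₀⁻¹ * a' = 1 := by
            rw [hainv, ← ha', ha'2]
          rw [h2, mul_one, ha']
          group
        have hainv : a⁻¹ = a := by rw [inv_eq_iff_mul_eq_one]; exact ha2
        have h2 : d₀ * a⁻¹ * d₀⁻¹ * a' = 1 := by
          rw [hainv, ← ha', ha'2]
        rw [e, h2, mul_one]
        by_cases hdE : d ∈ E
        · have h3 : d * d₀ ∉ E := by
            rw [hmemE hd hd₀P]
            intro h
            exact hd₀E (h.1 hdE)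
          rw [hconjE hdE, hconjE' (P.mul_mem hd hd₀P) h3]
        · have h3 : d * d₀ ∈ E := by
            rw [hmemE hd hd₀P]
            exact ⟨fun h => absurd h hdE, fun h => absurd h hd₀E⟩
          rw [hconjE' hd hdE, hconjE h3, haa']
      calc d * z₀ = (d * z₀ * d⁻¹) * d := by group
        _ = z₀ * d := by rw [h1]
    have hz₀V : z₀ ∈ omegaZ P := ⟨hz₀P, hz₀c, hz₀2⟩
    refine D.toLocData.functional haP ha2 haV hz₀V (fun d hd => ?_)
    by_cases hdE : d ∈ E
    · left; exact hconjE hdE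
    · right
      rw [haz]
      exact hconjE' hd hdE

end Cfsg.Agent.Lib.EPPO7
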