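import Cfsg.Agent.Lib.EPPO7.E1

/-!
# The case `|Ω₁Z(P)| = 4` with `N_S(P) = S`
-/

set_option autoImplicit false
set_option linter.style.haveILetI false

namespace Cfsg.Agent.Lib.EPPO7

open Cfsg.Agent.Lib.SmallSimple.SylowBasic

universe u

variable {M : Type u} [Group M] [Finite M]

theorem exists_third {W : Subgroup M} (h4 : 3 ≤ Nat.card W) {z : M} (hz2 : z * z = 1) :
    ∃ a ∈ W, a ≠ 1 ∧ a ≠ z := by
  classical
  by_contra hcon
  push Not at hcon
  have hle : W ≤ Subgroup.zpowers z := by
    intro y hy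
    by_cases hy1 : y = 1
    · rw [hy1]; exact Subgroup.one_mem _
    · rw [hcon y hy hy1]; exact Subgroup.mem_zpowers z
  have h5 := Subgroup.card_le_of_le hle
  rw [Nat.card_zpowers] at h5
  have h6 : orderOf z ∣ 2 := orderOf_dvd_of_pow_eq_one (by rw [sq]; exact hz2)
  have := Nat.le_of_dvd (by norm_num) h6
  omega

namespace Dat

variable {S : Sylow 2 M} {P P' : Subgroup M} {τ u τ' u' : M} {r b r' b' : ℕ}

/-- If `P'` has order 4 and `|V'| = 4`, the centralizer in `S` of a noncentral element of `P'` is `P'`. -/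
theorem cent_small (D' : Dat S P' τ' u' r' b') (h4 : Nat.card P' = 4) {z x : M} (hz : z ∈ omegaZ (S : Subgroup M))
    (hz1 : z ≠ 1) (hxP' : x ∈ P') (hx1 : x ≠ 1) (hxz : x ≠ z) {s : M} (hs : s ∈ (S : Subgroup M))
    (hsx : s * x = x * s) : s ∈ P' := by
  have hzP' : z ∈ P' := omegaZ_le P' (D'.omegaZ_S_mem hz)
  have hE : (P' ⊓ Subgroup.centralizer ({s} : Set M) : Subgroup M) = P' := by
    apply eq_of_card_four h4 inf_le_left (x := x) (y := z)
    · exact ⟨hxP', Subgroup.mem_centralizer_singleton_iff.2 hsx.symm⟩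
    · exact ⟨hzP', Subgroup.mem_centralizer_singleton_iff.2 (hz.2.1 s hs).symm⟩
    · exact hx1
    · exact hz1
    · exact hxz
  apply D'.toLocData.cent_omegaZ
  rw [Subgroup.mem_centralizer_iff]
  intro v hv
  have hvP' := omegaZ_le P' hv
  rw [← hE] at hvP'
  exact (Subgroup.mem_centralizer_singleton_iff.1 hvP'.2)

end Dat

/-- The case `N_S(P) = S`. -/
theorem E4 (hM : PP M) (hIH : IHyp.{u} (Nat.card M)) (hno : ∀ N : Subgroup M, N.Normal → N.index ≠ 2)
    {S : Sylow 2 M} {P : Subgroup M} {τ u : M} {r b : ℕ} (D : Dat S P τ u r b)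
    (hV : Nat.card (omegaZ P) = 4) (hSX : (S : Subgroup M) ≤ Subgroup.normalizer (P : Set M)) :
    Nat.card P = 4 := by
  classical
  haveI : Fact (Nat.Prime 2) := ⟨Nat.prime_two⟩
  have hr := D.toLocData.r_eq_three hV
  subst hr
  have hT : (S : Subgroup M) ⊓ Subgroup.normalizer (P : Set M) = S := inf_eq_left.2 hSX
  have hcS : Nat.card (S : Subgroup M) = 2 * Nat.card P := by
    have := D.card_T
    rwa [hT] at this
  have hPS := D.PS
  have hVP := omegaZ_le P
  have hge4 : 4 ≤ Nat.card P := by
    rw [← hV]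
    exact Subgroup.card_le_of_le hVP
  have hidx : (P.subgroupOf (S : Subgroup M)).index = 2 := by
    have h1 := Subgroup.card_mul_index (P.subgroupOf (S : Subgroup M))
    have h2 : Nat.card (P.subgroupOf (S : Subgroup M)) = Nat.card P :=
      Nat.card_congr (Subgroup.subgroupOfEquivOfLe hPS).toEquiv
    rw [h2, hcS, mul_comm 2] at h1
    exact Nat.eq_of_mul_eq_mul_left Nat.card_pos h1
  have hS1 : (S : Subgroup M) ≠ ⊥ := by
    intro h
    rw [h, le_bot_iff] at hPS
    exact D.p1 hPS
  obtain ⟨z, hz, hz1⟩ := (Subgroup.bot_or_exists_ne_one _).resolve_left (omegaZ_ne_bot S.2 hS1)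
  have hzV := D.omegaZ_S_mem hz
  have hz2 := hz.2.2
  have hzord : orderOf z = 2 ^ 1 := by
    rw [pow_one]
    exact orderOf_eq_prime (by rw [sq]; exact hz2) hz1
  -- the centralizer in `V` of an involution outside `P`
  have hC₂ : ∀ {t c : M}, t ∈ (S : Subgroup M) → t * t = 1 → t ∉ P → c ∈ omegaZ P → c * t = t * c → c = 1 ∨ c = z := by
    intro t c htS ht2 htP hc hct
    by_contra hcon
    push Not at hcon
    have h1 := D.V_sq_t htS (hSX htS) ht2 htP
    rw [hV] at h1
    have h2 : c ∈ (omegaZ P ⊓ Subgroup.centralizer ({t} : Set M) : Subgroup M) :=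
      ⟨hc, Subgroup.mem_centralizer_singleton_iff.2 hct⟩
    have h3 : z ∈ (omegaZ P ⊓ Subgroup.centralizer ({t} : Set M) : Subgroup M) :=
      ⟨hzV, Subgroup.mem_centralizer_singleton_iff.2 (hz.2.1 t htS).symm⟩
    have h4 := three_le_card h2 h3 hcon.1 hz1 hcon.2
    have : 3 ^ 2 ≤ (Nat.card (omegaZ P ⊓ Subgroup.centralizer ({t} : Set M) : Subgroup M)) ^ 2 :=
      Nat.pow_le_pow_left h4 2
    omega
  -- `N(S) = S`
  have hNS : ∀ g ∈ Subgroup.normalizer ((S : Subgroup M) : Set M), g ∈ (S : Subgroup M) := by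
    intro g hg
    have h1 := omegaZ_conj hg hz
    have h2 : g * z * g⁻¹ = z := by
      have h3 := hC₂ D.uS D.u2 D.uP (D.omegaZ_S_mem h1) (h1.2.1 u D.uS).symm
      rcases h3 with h3 | h3
      · exfalso
        apply hz1
        have h4 := mul_inv_eq_one.1 h3
        exact mul_left_cancel (h4.trans (mul_one g).symm)
      · exact h3
    have hcomm : Commute z g := by
      show z * g = g * z
      calc z * g = (g * z * g⁻¹) * g := by rw [h2]
        _ = g * z := by group
    obtain ⟨j, hj⟩ := D.pp.two_of_commute hcomm hz1 hzord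
    have hZ2 : IsPGroup 2 (Subgroup.zpowers g) := by
      rw [IsPGroup.iff_card, Nat.card_zpowers, hj]
      exact ⟨j, rfl⟩
    have hQ := IsPGroup.to_sup_of_normal_right' hZ2 S.2 ((Subgroup.zpowers_le).2 hg)
    have heq := S.3 hQ le_sup_right
    rw [← heq]
    exact (le_sup_left : Subgroup.zpowers g ≤ _) (Subgroup.mem_zpowers g)
  -- Lemma T
  obtain ⟨x, hxS, hxP, S', hS', hxS'⟩ := lemmaT hno S hNS hidx
  have hx1 : x ≠ 1 := by
    rintro rfl
    exact hxP P.one_mem
  obtain ⟨P', hI, hxP'⟩ := exists_IMax hS' hxS hxS' hx1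
  obtain ⟨τ', u', r', b', D'⟩ := hI.exists_dat hM hIH
  have hV' : Nat.card (omegaZ P') = 4 :=
    D'.card_V_cases.resolve_right (fun h => no_large hM hIH hno D' h)
  have hr' := D'.toLocData.r_eq_three hV'
  subst hr'
  have hzV' := D'.omegaZ_S_mem hz
  have hzP' := omegaZ_le P' hzV'
  obtain ⟨a, haV, ha1, haz⟩ := exists_third (W := omegaZ P) (by omega) hz2
  have haP := hVP haV
  have ha2 := haV.2.2
  have haS := hPS haP
  by_cases hSX' : (S : Subgroup M) ≤ Subgroup.normalizer (P' : Set M)
  · have hT' : (S : Subgroup M) ⊓ Subgroup.normalizer (P' : Set M) = S := inf_eq_left.2 hSX'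
    have hcS' : Nat.card (S : Subgroup M) = 2 * Nat.card P' := by
      have := D'.card_T
      rwa [hT'] at this
    have hcP : Nat.card P' = Nat.card P := by omega
    by_cases haP' : a ∈ P'
    · exfalso
      have hVP' : omegaZ P ≤ P' := by
        have hE : (omegaZ P ⊓ P' : Subgroup M) = omegaZ P :=
          eq_of_card_four hV inf_le_left (x := a) (y := z) ⟨haV, haP'⟩ ⟨hzV, hzP'⟩ ha1 hz1 haz
        rw [← hE]
        exact inf_le_right
      have hV'P : omegaZ P' ≤ P := by
        intro v hv
        apply D.toLocData.cent_omegaZ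
        rw [Subgroup.mem_centralizer_iff]
        intro w hw
        exact (omegaZ_comm hv (hVP' hw))
      have hne : ¬ omegaZ P' ≤ omegaZ P := by
        intro hle
        have heq : omegaZ P' = omegaZ P := Subgroup.eq_of_le_of_card_ge hle (by rw [hV, hV'])
        have h1 := D.toLocData.normalizer_eq hIH hVP (omegaZ_ne_bot D.p2 D.p1) (normalizer_le_omegaZ P)
        have h2 := D'.toLocData.normalizer_eq hIH (omegaZ_le P') (omegaZ_ne_bot D'.p2 D'.p1) (normalizer_le_omegaZ P')
        have h3 : Subgroup.normalizer (P : Set M) = Subgroup.normalizer (P' : Set M) := by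
          rw [← h1, ← h2, heq]
        have h4 := D.P_eq_of_normalizer_eq D' h3
        rw [← h4] at hxP'
        exact hxP hxP'
      obtain ⟨c, hcV', hcV⟩ := SetLike.not_le_iff_exists.1 hne
      have hc1 : c ≠ 1 := by
        rintro rfl
        exact hcV (omegaZ P).one_mem
      have hcz : c ≠ z := by
        rintro rfl
        exact hcV hzV
      refine D.toLocData.functional (hV'P hcV') hcV'.2.2 hcV hzV (fun d hd => ?_)
      have hdS := hPS hd
      have hcc : d * c * d⁻¹ ∈ omegaZ P' := omegaZ_conj (hSX' hdS) hcV'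
      rcases four_cases (W := omegaZ P') (fun y hy => hy.2.2) hV' hcV' hzV' hc1 hz1 hcz hcc with h | h | h | h
      · exfalso
        apply hc1
        have h4 := mul_inv_eq_one.1 h
        exact mul_left_cancel (h4.trans (mul_one d).symm)
      · exfalso
        apply hcz
        have h4 : c = d⁻¹ * z * d := by rw [← h]; group
        rw [h4]
        have h5 := hz.2.1 d hdS
        calc d⁻¹ * z * d = d⁻¹ * (z * d) := by group
          _ = d⁻¹ * (d * z) := by rw [h5]
          _ = z := by group
      · left; exact h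
      · right; exact h
    · -- `a ∉ P'`
      have h1 := D'.P_cent_t haS (hSX' haS) ha2 haP'
      have hPX' : P ≤ Subgroup.normalizer (P' : Set M) := hPS.trans hSX'
      have hsup := Cfsg.Agent.Lib.Solvable.WielandtHall.card_sup_mul_card_inf_of_le_normalizer hPX'
      have h2 : Nat.card (P ⊔ P' : Subgroup M) ≤ Nat.card (S : Subgroup M) :=
        Subgroup.card_le_of_le (sup_le hPS D'.PS)
      set H := (P ⊓ P' : Subgroup M) with hH
      have hHle : H ≤ P' ⊓ Subgroup.centralizer ({a} : Set M) := by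
        intro y hy
        exact ⟨hy.2, Subgroup.mem_centralizer_singleton_iff.2 (omegaZ_comm haV hy.1)⟩
      have h3 := Subgroup.card_le_of_le hHle
      have hPpos : 0 < Nat.card P := Nat.card_pos
      have hHpos : 0 < Nat.card H := Nat.card_pos
      have h4 : Nat.card P ≤ 2 * Nat.card H := by
        have h5 : Nat.card P * Nat.card P ≤ Nat.card P * (2 * Nat.card H) := by
          calc Nat.card P * Nat.card P = Nat.card (P ⊔ P' : Subgroup M) * Nat.card H := by
                rw [hsup, hcP]
            _ ≤ (2 * Nat.card P) * Nat.card H := by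
                apply Nat.mul_le_mul_right
                rw [← hcS]; exact h2
            _ = Nat.card P * (2 * Nat.card H) := by ring
        exact Nat.le_of_mul_le_mul_left h5 hPpos
      have h5 : Nat.card H * Nat.card H ≤ Nat.card P := by
        calc Nat.card H * Nat.card H ≤ (Nat.card (P' ⊓ Subgroup.centralizer ({a} : Set M) : Subgroup M)) ^ 2 := by
              rw [sq]; exact Nat.mul_le_mul h3 h3
          _ ≤ Nat.card P' := h1
          _ = Nat.card P := hcP
      have h6 : Nat.card H ≤ 2 := by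
        have h7 : Nat.card H * Nat.card H ≤ 2 * Nat.card H := h5.trans h4
        exact Nat.le_of_mul_le_mul_right h7 hHpos
      omega
  · -- `P'` has order 4
    have hc4 := E3 hIH D' hV' hSX'
    have hVP'eq : omegaZ P' = P' := Subgroup.eq_of_le_of_card_ge (omegaZ_le P') (by rw [hc4, hV'])
    have hx2 : x * x = 1 := by
      have : x ∈ omegaZ P' := by rw [hVP'eq]; exact hxP'
      exact this.2.2
    have hxz : x ≠ z := by
      rintro rfl
      exact hxP (hVP hzV)
    have hxi : x⁻¹ = x := by rw [inv_eq_iff_mul_eq_one]; exact hx2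
    have hCx : ∀ {s : M}, s ∈ (S : Subgroup M) → s * x = x * s → s ∈ P' :=
      fun hs hsx => D'.cent_small hc4 hz hz1 hxP' hx1 hxz hs hsx
    have hPP' : ∀ {y : M}, y ∈ P → y ∈ P' → y = 1 ∨ y = z := by
      intro y hy hy'
      by_contra hcon
      push Not at hcon
      have hE := eq_of_card_four (P := P') (E := P ⊓ P') hc4 inf_le_right (x := y) (y := z) ⟨hy, hy'⟩ ⟨hVP hzV, hzP'⟩
        hcon.1 hz1 hcon.2
      have : x ∈ P ⊓ P' := by rw [hE]; exact hxP'
      exact hxP this.1
    by_contra hne
    -- `|P| ≥ 8`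
    have hge8 : 8 ≤ Nat.card P := by
      obtain ⟨n, hn⟩ := IsPGroup.iff_card.1 D.p2
      rw [hn] at hne hge4 ⊢
      rcases Nat.lt_or_ge n 3 with h | h
      · interval_cases n <;> simp_all
      · calc 8 = 2 ^ 3 := by norm_num
          _ ≤ 2 ^ n := Nat.pow_le_pow_right (by norm_num) h
    have hxV : x ∉ omegaZ P := fun h => hxP (hVP h)
    have hZle : Subgroup.zpowers x ≤ Subgroup.normalizer (omegaZ P : Set M) :=
      (Subgroup.zpowers_le).2 (normalizer_le_omegaZ P (hSX hxS))
    set Q : Subgroup M := omegaZ P ⊔ Subgroup.zpowers x with hQ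
    have hcQ : Nat.card Q ≤ 8 := by
      have h1 := Cfsg.Agent.Lib.Solvable.WielandtHall.card_sup_mul_card_inf_of_le_normalizer hZle
      rw [Nat.card_zpowers, orderOf_eq_prime (by rw [sq]; exact hx2) hx1, hV, sup_comm] at h1
      have h2 : 0 < Nat.card (Subgroup.zpowers x ⊓ omegaZ P : Subgroup M) := Nat.card_pos
      have h3 : Nat.card Q * 1 ≤ Nat.card Q * Nat.card (Subgroup.zpowers x ⊓ omegaZ P : Subgroup M) :=
        Nat.mul_le_mul_left _ h2
      rw [hQ] at h3 ⊢
      omega
    have hQS : Q ≤ (S : Subgroup M) := sup_le (hVP.trans hPS) ((Subgroup.zpowers_le).2 hxS)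
    have hQlt : Q < (S : Subgroup M) := by
      refine lt_of_le_of_ne hQS ?_
      intro h
      rw [h] at hcQ
      omega
    have hxQ : x ∈ Q := (le_sup_right : Subgroup.zpowers x ≤ Q) (Subgroup.mem_zpowers x)
    have hVQ : omegaZ P ≤ Q := le_sup_left
    obtain ⟨d', hd'S, hd'Q, hd'N⟩ := exists_mem_normalizer_not_mem S.2 hQlt
    obtain ⟨d, hdP, hdQ, hdN⟩ : ∃ d ∈ P, d ∉ Q ∧ d ∈ Subgroup.normalizer (Q : Set M) := by
      by_cases hd'P : d' ∈ P
      · exact ⟨d', hd'P, hd'Q, hd'N⟩
      · refine ⟨d' * x, ?_, ?_, ?_⟩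
        · have h1 := (Subgroup.mul_mem_iff_of_index_two hidx (a := ⟨d', hd'S⟩) (b := ⟨x, hxS⟩)).2
            (iff_of_false (by simpa [Subgroup.mem_subgroupOf] using hd'P) (by simpa [Subgroup.mem_subgroupOf] using hxP))
          simpa [Subgroup.mem_subgroupOf] using h1
        · intro h
          apply hd'Q
          have : d' = d' * x * x⁻¹ := by group
          rw [this]
          exact Q.mul_mem h (Q.inv_mem hxQ)
        · exact Subgroup.mul_mem _ hd'N (Subgroup.le_normalizer hxQ)
    have hdV : d ∉ omegaZ P := fun h => hdQ (hVQ h)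
    set y := d * x * d⁻¹ with hy
    have hyQ : y ∈ Q := (Subgroup.mem_normalizer_iff.1 hdN x).1 hxQ
    have hyP : y ∉ P := by
      intro h
      apply hxP
      have h1 := (Subgroup.mem_normalizer_iff.1 (Subgroup.le_normalizer hdP) x).2 h
      exact h1
    have hy2 : y * y = 1 := by
      calc y * y = d * (x * x) * d⁻¹ := by rw [hy]; group
        _ = 1 := by rw [hx2]; simp
    -- the form of `y`
    have hyform : y = x ∨ y = z * x := by
      have h1 := Subgroup.coe_mul_of_right_le_normalizer_left (omegaZ P) (Subgroup.zpowers x) hZle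
      have h2 : y ∈ ((omegaZ P ⊔ Subgroup.zpowers x : Subgroup M) : Set M) := hyQ
      rw [h1, Set.mem_mul] at h2
      obtain ⟨v, hv, w, hw, hvw⟩ := h2
      have hv' : v ∈ omegaZ P := hv
      have hw' : w ∈ Subgroup.zpowers x := hw
      obtain ⟨n, rfl⟩ := mem_powers_iff_mem_zpowers.2 hw'
      replace hvw : v * x ^ n = y := hvw
      have hxn : x ^ n = 1 ∨ x ^ n = x := by
        rcases Nat.even_or_odd' n with ⟨m, hm | hm⟩
        · left
          rw [hm, pow_mul, sq, hx2, one_pow]
        · right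
          rw [hm, pow_succ, pow_mul, sq, hx2, one_pow, one_mul]
      rcases hxn with hxn | hxn
      · exfalso
        rw [hxn, mul_one] at hvw
        apply hyP
        rw [← hvw]
        exact hVP hv'
      · rw [hxn] at hvw
        have hv2 := hv'.2.2
        have hvi : v⁻¹ = v := by rw [inv_eq_iff_mul_eq_one]; exact hv2
        have h3 : (v * x) * (v * x) = 1 := by rw [hvw]; exact hy2
        have h4 : v * x = x * v := by
          have h5 : v * x = (v * x)⁻¹ := (inv_eq_of_mul_eq_one_left h3).symm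
          rw [mul_inv_rev, hvi, hxi] at h5
          exact h5
        rcases hC₂ hxS hx2 hxP hv' h4 with h5 | h5
        · left
          rw [← hvw, h5, one_mul]
        · right
          rw [← hvw, h5]
    -- conjugation by `a`
    have hai : a⁻¹ = a := by rw [inv_eq_iff_mul_eq_one]; exact ha2
    have hax : a * x * a⁻¹ = z * x := by
      set c := a * (x * a * x⁻¹) with hc
      have hxa : x * a * x⁻¹ ∈ omegaZ P :=
        (Subgroup.mem_normalizer_iff.1 (normalizer_le_omegaZ P (hSX hxS)) a).1 haV
      have hcV : c ∈ omegaZ P := (omegaZ P).mul_mem haV hxa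
      have hcx : c * x = x * c := by
        have hcomm : a * (x * a * x⁻¹) = (x * a * x⁻¹) * a :=
          comm_of_sq (W := omegaZ P) (fun y hy => hy.2.2) haV hxa
        have h1 : x * c * x⁻¹ = c := by
          calc x * c * x⁻¹ = (x * a * x⁻¹) * ((x * x) * a * (x * x)⁻¹) := by rw [hc]; group
            _ = (x * a * x⁻¹) * a := by rw [hx2]; simp
            _ = c := hcomm.symm
        calc c * x = (x * c * x⁻¹) * x := by rw [h1]
          _ = x * c := by group
      have hc1 : c ≠ 1 := by
        intro h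
        have h1 : x * a * x⁻¹ = a := by
          have h2 := eq_inv_of_mul_eq_one_right h
          rw [h2, hai]
        have h3 : a * x = x * a := by
          calc a * x = (x * a * x⁻¹) * x := by rw [h1]
            _ = x * a := by group
        rcases hC₂ hxS hx2 hxP haV h3 with h4 | h4
        · exact ha1 h4
        · exact haz h4
      have hcz : c = z := (hC₂ hxS hx2 hxP hcV hcx).resolve_left hc1
      rw [← hcz, hc, hai, hxi]
      calc a * x * a = a * x * a * (x * x) := by rw [hx2, mul_one]
        _ = a * (x * a * x) * x := by group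
    have hdS := hPS hdP
    rcases hyform with h | h
    · have hdx : d * x = x * d := by
        calc d * x = (d * x * d⁻¹) * d := by group
          _ = x * d := by rw [← hy, h]
      rcases hPP' hdP (hCx hdS hdx) with h1 | h1
      · apply hdV
        rw [h1]
        exact (omegaZ P).one_mem
      · apply hdV
        rw [h1]
        exact hzV
    · have hel : (a⁻¹ * d) * x = x * (a⁻¹ * d) := by
        have h1 : d * x * d⁻¹ = a * x * a⁻¹ := by rw [← hy, h, hax]
        have h2 : (a⁻¹ * d) * x * (a⁻¹ * d)⁻¹ = x := by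
          calc (a⁻¹ * d) * x * (a⁻¹ * d)⁻¹ = a⁻¹ * (d * x * d⁻¹) * a := by group
            _ = a⁻¹ * (a * x * a⁻¹) * a := by rw [h1]
            _ = x := by group
        calc (a⁻¹ * d) * x = ((a⁻¹ * d) * x * (a⁻¹ * d)⁻¹) * (a⁻¹ * d) := by group
          _ = x * (a⁻¹ * d) := by rw [h2]
      have hmemP : a⁻¹ * d ∈ P := P.mul_mem (P.inv_mem haP) hdP
      have hmemV : a⁻¹ * d ∈ omegaZ P := by
        rcases hPP' hmemP (hCx (hPS hmemP) hel) with h1 | h1
        · rw [h1]; exact (omegaZ P).one_mem
        · rw [h1]; exact hzV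
      apply hdV
      have : d = a * (a⁻¹ * d) := by group
      rw [this]
      exact (omegaZ P).mul_mem haV hmemV

/-- Every intersection-maximal subgroup has order four, and is its own centralizer. -/
theorem IsIMax.card_eq_four (hM : PP M) (hIH : IHyp.{u} (Nat.card M)) (hno : ∀ N : Subgroup M, N.Normal → N.index ≠ 2)
    {S : Sylow 2 M} {P : Subgroup M} (hI : IsIMax S P) :
    Nat.card P = 4 ∧ omegaZ P = P ∧ Subgroup.centralizer (P : Set M) ≤ P ∧ P < (S : Subgroup M) := by
  obtain ⟨τ, u, r, b, D⟩ := hI.exists_dat hM hIH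
  have hV : Nat.card (omegaZ P) = 4 := D.card_V_cases.resolve_right (fun h => no_large hM hIH hno D h)
  have h4 : Nat.card P = 4 := by
    by_cases hSX : (S : Subgroup M) ≤ Subgroup.normalizer (P : Set M)
    · exact E4 hM hIH hno D hV hSX
    · exact E3 hIH D hV hSX
  have hVP : omegaZ P = P := Subgroup.eq_of_le_of_card_ge (omegaZ_le P) (by rw [h4, hV])
  refine ⟨h4, hVP, ?_, lt_of_lt_of_le D.PT inf_le_left⟩
  have := D.toLocData.cent_omegaZ
  rwa [hVP] at this

end Cfsg.Agent.Lib.EPPO7
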