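import Cfsg.Agent.Lib.EPPO7.Struct

/-!
# Local analysis: `X` with largest normal 2-subgroup `P`
-/

set_option autoImplicit false
set_option linter.style.haveILetI false

namespace Cfsg.Agent.Lib.EPPO7

universe u

variable {M : Type u} [Group M] [Finite M]

/-- The normal subgroup `P⟨τ⟩`. -/
def KK (P : Subgroup M) (τ : M) : Subgroup M := P ⊔ Subgroup.zpowers τ

namespace LocData

variable {X P : Subgroup M} {τ : M} {r b : ℕ}

theorem conj_mem (D : LocData X P τ r b) {g p : M} (hg : g ∈ X) (hp : p ∈ P) : g * p * g⁻¹ ∈ P :=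
  (Subgroup.mem_normalizer_iff.1 (D.Xn hg) p).1 hp

theorem conj_mem' (D : LocData X P τ r b) {g p : M} (hg : g ∈ X) (hp : p ∈ P) : g⁻¹ * p * g ∈ P := by
  have := D.conj_mem (X.inv_mem hg) hp
  simpa using this

theorem r_odd (D : LocData X P τ r b) {k : ℕ} : (2 ^ k).Coprime r :=
  coprime_two_pow_of_odd_prime D.rp D.r2

theorem τ_not_mem (D : LocData X P τ r b) : τ ∉ P := by
  intro h
  obtain ⟨k, hk⟩ := orderOf_of_mem_two D.p2 h
  rw [D.ord] at hk
  have := D.rp.dvd_of_dvd_pow (show r ∣ 2 ^ k by rw [hk])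
  exact D.r2 ((Nat.prime_dvd_prime_iff_eq D.rp Nat.prime_two).1 this)

theorem τ_ne_one (D : LocData X P τ r b) : τ ≠ 1 := by
  intro h
  apply D.τ_not_mem
  rw [h]
  exact P.one_mem

theorem zpow_mem_iff (D : LocData X P τ r b) (z : ℤ) : τ ^ z ∈ P ↔ (r : ℤ) ∣ z := by
  constructor
  · intro h
    obtain ⟨k, hk⟩ := orderOf_of_mem_two D.p2 h
    have h1 : τ ^ (z * (2 ^ k : ℕ)) = 1 := by
      rw [zpow_mul, zpow_natCast, ← hk, pow_orderOf_eq_one]
    have h2 : ((r : ℤ)) ∣ z * (2 ^ k : ℕ) := by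
      rw [← D.ord]
      exact orderOf_dvd_iff_zpow_eq_one.2 h1
    rcases (Nat.prime_iff_prime_int.1 D.rp).dvd_or_dvd h2 with h3 | h3
    · exact h3
    · exfalso
      have h4 : r ∣ 2 ^ k := Int.natCast_dvd_natCast.1 h3
      have := D.rp.dvd_of_dvd_pow h4
      exact D.r2 ((Nat.prime_dvd_prime_iff_eq D.rp Nat.prime_two).1 this)
  · intro h
    rw [← D.ord] at h
    rw [orderOf_dvd_iff_zpow_eq_one.1 h]
    exact P.one_mem

theorem pow_mul_mod (D : LocData X P τ r b) {t p : M} (ht : t ∈ X) (hp : p ∈ P) (n : ℕ) :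
    ∃ p' ∈ P, (p * t) ^ n = p' * t ^ n := by
  induction n with
  | zero => exact ⟨1, P.one_mem, by simp⟩
  | succ n ih =>
    obtain ⟨p', hp', h⟩ := ih
    refine ⟨p' * (t ^ n * p * (t ^ n)⁻¹), P.mul_mem hp' (D.conj_mem (X.pow_mem ht n) hp), ?_⟩
    rw [pow_succ, h, pow_succ]
    group

theorem zpowers_le (D : LocData X P τ r b) : Subgroup.zpowers τ ≤ Subgroup.normalizer (P : Set M) :=
  (Subgroup.zpowers_le).2 (D.Xn D.τX)

theorem mem_KK (D : LocData X P τ r b) {x : M} :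
    x ∈ KK P τ ↔ ∃ p ∈ P, ∃ i : ℕ, x = p * τ ^ i := by
  have h := Subgroup.coe_mul_of_right_le_normalizer_left P (Subgroup.zpowers τ) D.zpowers_le
  have h2 : x ∈ KK P τ ↔ x ∈ ((P ⊔ Subgroup.zpowers τ : Subgroup M) : Set M) := Iff.rfl
  rw [h2, h, Set.mem_mul]
  constructor
  · rintro ⟨p, hp, z, hz, rfl⟩
    obtain ⟨i, rfl⟩ := mem_powers_iff_mem_zpowers.2 (show z ∈ Subgroup.zpowers τ from hz)
    exact ⟨p, hp, i, rfl⟩
  · rintro ⟨p, hp, i, rfl⟩
    exact ⟨p, hp, τ ^ i, Subgroup.npow_mem_zpowers τ i, rfl⟩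

theorem mem_KK' (D : LocData X P τ r b) {x : M} :
    x ∈ KK P τ ↔ ∃ i : ℕ, ∃ p ∈ P, x = τ ^ i * p := by
  rw [D.mem_KK]
  constructor
  · rintro ⟨p, hp, i, rfl⟩
    refine ⟨i, (τ ^ i)⁻¹ * p * τ ^ i, D.conj_mem' (X.pow_mem D.τX i) hp, by group⟩
  · rintro ⟨i, p, hp, rfl⟩
    refine ⟨τ ^ i * p * (τ ^ i)⁻¹, D.conj_mem (X.pow_mem D.τX i) hp, i, by group⟩

theorem P_le_KK (_D : LocData X P τ r b) : P ≤ KK P τ := le_sup_left

theorem τ_mem_KK (_D : LocData X P τ r b) : τ ∈ KK P τ :=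
  (le_sup_right : Subgroup.zpowers τ ≤ KK P τ) (Subgroup.mem_zpowers τ)

theorem KK_le (D : LocData X P τ r b) : KK P τ ≤ X :=
  sup_le D.PX ((Subgroup.zpowers_le).2 D.τX)

theorem conj_τ_mem (D : LocData X P τ r b) {g : M} (hg : g ∈ X) : g * τ * g⁻¹ ∈ KK P τ := by
  obtain ⟨i, hi⟩ := D.norm g hg
  rw [D.mem_KK]
  exact ⟨_, hi, i, by group⟩

theorem KK_conj (D : LocData X P τ r b) {g x : M} (hg : g ∈ X) (hx : x ∈ KK P τ) : g * x * g⁻¹ ∈ KK P τ := by
  obtain ⟨p, hp, i, rfl⟩ := D.mem_KK.1 hx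
  have h : g * (p * τ ^ i) * g⁻¹ = (g * p * g⁻¹) * (g * τ * g⁻¹) ^ i := by
    rw [conj_pow]
    group
  rw [h]
  exact (KK P τ).mul_mem (D.P_le_KK (D.conj_mem hg hp)) ((KK P τ).pow_mem (D.conj_τ_mem hg) i)

theorem card_KK (D : LocData X P τ r b) : Nat.card (KK P τ) = Nat.card P * r := by
  have h1 := Cfsg.Agent.Lib.Solvable.WielandtHall.card_sup_mul_card_inf_of_le_normalizer
    (Y := Subgroup.zpowers τ) (D := P) D.zpowers_le
  obtain ⟨n, hn⟩ := IsPGroup.iff_card.1 D.p2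
  have hinf : Subgroup.zpowers τ ⊓ P = ⊥ := by
    apply Subgroup.inf_eq_bot_of_coprime
    rw [Nat.card_zpowers, hn, D.ord]
    exact D.r_odd.symm
  rw [hinf, Subgroup.card_bot, mul_one, Nat.card_zpowers, D.ord, sup_comm] at h1
  rw [show KK P τ = P ⊔ Subgroup.zpowers τ from rfl, h1, mul_comm]

/-- Every element of `K` outside `P` has order `r`. -/
theorem orderOf_of_mem_KK (D : LocData X P τ r b) {x : M} (hx : x ∈ KK P τ) (hxP : x ∉ P) :
    orderOf x = r := by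
  obtain ⟨p, hp, i, rfl⟩ := D.mem_KK.1 hx
  have hrpow : (p * τ ^ i) ^ r ∈ P := by
    obtain ⟨p', hp', h⟩ := D.pow_mul_mod (X.pow_mem D.τX i) hp r
    rw [h, ← pow_mul, mul_comm i r, pow_mul, ← D.ord, pow_orderOf_eq_one, one_pow, mul_one]
    exact hp'
  set x := p * τ ^ i with hxdef
  have hx1 : x ≠ 1 := by
    intro h
    apply hxP
    rw [h]
    exact P.one_mem
  have hrd : r ∣ orderOf x := by
    by_contra hnd
    have hco : r.Coprime (orderOf x) := (Nat.Prime.coprime_iff_not_dvd D.rp).2 hnd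
    have hord1 : 1 < orderOf x := by
      have : orderOf x ≠ 1 := fun h => hx1 (orderOf_eq_one_iff.1 h)
      have h0 : 0 < orderOf x := orderOf_pos x
      omega
    obtain ⟨m, -, hm⟩ := Nat.exists_mul_mod_eq_one_of_coprime hco hord1
    have hxm : x = (x ^ r) ^ m := by
      rw [← pow_mul, ← pow_mod_orderOf x (r * m), hm, pow_one]
    apply hxP
    rw [hxm]
    exact P.pow_mem hrpow m
  rcases D.pp.dichotomy hx1 with ⟨k, -, hk⟩ | ⟨hq, -, -⟩
  · rw [hk] at hrd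
    exact absurd ((Nat.prime_dvd_prime_iff_eq D.rp Nat.prime_two).1 (D.rp.dvd_of_dvd_pow hrd)) D.r2
  · exact ((Nat.prime_dvd_prime_iff_eq D.rp hq).1 hrd).symm

theorem two_mem_of_mem_KK (D : LocData X P τ r b) {x : M} (hx : x ∈ KK P τ) {k : ℕ}
    (hk : orderOf x = 2 ^ k) : x ∈ P := by
  by_contra hxP
  rw [D.orderOf_of_mem_KK hx hxP] at hk
  have := D.rp.dvd_of_dvd_pow (show r ∣ 2 ^ k by rw [hk])
  exact D.r2 ((Nat.prime_dvd_prime_iff_eq D.rp Nat.prime_two).1 this)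

/-- Elements commuting modulo `P` with coprime orders. -/
theorem mod_mixed (D : LocData X P τ r b) {a c : M} (ha : a ∈ X) (hc : c ∈ X)
    (hcomm : a * c * a⁻¹ * c⁻¹ ∈ P) (hco : (orderOf a).Coprime (orderOf c)) : a ∈ P ∨ c ∈ P := by
  classical
  haveI : (P.subgroupOf X).Normal := (Subgroup.normal_subgroupOf_iff_le_normalizer D.PX).2 D.Xn
  have hY : PP (X ⧸ P.subgroupOf X) := (D.pp.subgroup X).of_surjective
    (QuotientGroup.mk' (P.subgroupOf X)) (QuotientGroup.mk'_surjective _)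
  let f := QuotientGroup.mk' (P.subgroupOf X)
  let a' : X := ⟨a, ha⟩
  let c' : X := ⟨c, hc⟩
  have hcomm' : Commute (f a') (f c') := by
    have h1 : f (a' * c' * a'⁻¹ * c'⁻¹) = 1 := by
      apply (QuotientGroup.eq_one_iff _).2
      rw [Subgroup.mem_subgroupOf]
      simpa [a', c'] using hcomm
    have h2 : f a' * f c' * (f a')⁻¹ * (f c')⁻¹ = 1 := by simpa using h1
    show f a' * f c' = f c' * f a'
    calc f a' * f c' = (f a' * f c' * (f a')⁻¹ * (f c')⁻¹) * (f c' * f a') := by group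
      _ = f c' * f a' := by rw [h2, one_mul]
  have hco' : (orderOf (f a')).Coprime (orderOf (f c')) := by
    apply Nat.Coprime.coprime_dvd_left (orderOf_map_dvd f a')
    apply Nat.Coprime.coprime_dvd_right (orderOf_map_dvd f c')
    rw [show orderOf a' = orderOf a from Subgroup.orderOf_mk a ha,
      show orderOf c' = orderOf c from Subgroup.orderOf_mk c hc]
    exact hco
  rcases hY.mixed hcomm' hco' with h | h
  · left
    have := (QuotientGroup.eq_one_iff a').1 h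
    rwa [Subgroup.mem_subgroupOf] at this
  · right
    have := (QuotientGroup.eq_one_iff c').1 h
    rwa [Subgroup.mem_subgroupOf] at this

/-- Conjugacy of the subgroups of order `r` of `K`, by elements of `P`. -/
theorem sylow_conj (D : LocData X P τ r b) {y : M} (hy : y ∈ KK P τ) (hyP : y ∉ P) :
    ∃ d ∈ P, ∃ j : ℕ, d * y * d⁻¹ = τ ^ j := by
  classical
  haveI : Fact r.Prime := ⟨D.rp⟩
  obtain ⟨n, hn⟩ := IsPGroup.iff_card.1 D.p2
  have hyord : orderOf y = r := D.orderOf_of_mem_KK hy hyP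
  have hfact : (Nat.card (KK P τ)).factorization r = 1 := by
    rw [D.card_KK, hn]
    have hco : (2 ^ n).Coprime r := D.r_odd
    rw [Nat.factorization_mul (by positivity) D.rp.ne_zero, Finsupp.add_apply,
      D.rp.factorization_self]
    have : (2 ^ n).factorization r = 0 :=
      Nat.factorization_eq_zero_of_not_dvd (fun h => by
        have := Nat.Coprime.eq_one_of_dvd hco.symm h
        exact D.rp.ne_one this)
    rw [this, zero_add]
  let A : Subgroup (KK P τ) := (Subgroup.zpowers y).subgroupOf (KK P τ)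
  let B : Subgroup (KK P τ) := (Subgroup.zpowers τ).subgroupOf (KK P τ)
  have hyle : Subgroup.zpowers y ≤ KK P τ := (Subgroup.zpowers_le).2 hy
  have hτle : Subgroup.zpowers τ ≤ KK P τ := (Subgroup.zpowers_le).2 D.τ_mem_KK
  have hcardA : Nat.card A = r ^ (Nat.card (KK P τ)).factorization r := by
    rw [hfact, pow_one]
    have : Nat.card A = Nat.card (Subgroup.zpowers y) :=
      Nat.card_congr (Subgroup.subgroupOfEquivOfLe hyle).toEquiv
    rw [this, Nat.card_zpowers, hyord]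
  have hcardB : Nat.card B = r ^ (Nat.card (KK P τ)).factorization r := by
    rw [hfact, pow_one]
    have : Nat.card B = Nat.card (Subgroup.zpowers τ) :=
      Nat.card_congr (Subgroup.subgroupOfEquivOfLe hτle).toEquiv
    rw [this, Nat.card_zpowers, D.ord]
  let SA : Sylow r (KK P τ) := Sylow.ofCard A hcardA
  let SB : Sylow r (KK P τ) := Sylow.ofCard B hcardB
  obtain ⟨g, hg⟩ := MulAction.exists_smul_eq (KK P τ) SA SB
  have hyA : (⟨y, hy⟩ : KK P τ) ∈ (SA : Subgroup (KK P τ)) := by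
    show (⟨y, hy⟩ : KK P τ) ∈ A
    rw [Subgroup.mem_subgroupOf]
    exact Subgroup.mem_zpowers y
  have hmem : g * (⟨y, hy⟩ : KK P τ) * g⁻¹ ∈ (SB : Subgroup (KK P τ)) := by
    rw [← hg, Sylow.coe_subgroup_smul]
    exact ⟨_, hyA, rfl⟩
  have hmem2 : (g : M) * y * (g : M)⁻¹ ∈ Subgroup.zpowers τ := by
    have : g * (⟨y, hy⟩ : KK P τ) * g⁻¹ ∈ B := hmem
    rw [Subgroup.mem_subgroupOf] at this
    simpa using this
  obtain ⟨j, hj⟩ := mem_powers_iff_mem_zpowers.2 hmem2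
  obtain ⟨i, d, hd, hgd⟩ := D.mem_KK'.1 g.2
  refine ⟨d, hd, j, ?_⟩
  have h3 : (τ ^ i * d) * y * (τ ^ i * d)⁻¹ = τ ^ j := by
    rw [← hgd]
    exact hj.symm
  calc d * y * d⁻¹ = (τ ^ i)⁻¹ * ((τ ^ i * d) * y * (τ ^ i * d)⁻¹) * τ ^ i := by group
    _ = (τ ^ i)⁻¹ * τ ^ j * τ ^ i := by rw [h3]
    _ = τ ^ j := by
      rw [mul_assoc, (Commute.pow_pow_self τ j i).eq]
      group

/-- An involution of `X` outside `P` inverts `τ` modulo `P`. -/
theorem inv_mod (D : LocData X P τ r b) {t : M} (ht : t ∈ X) (ht2 : t * t = 1) (htP : t ∉ P) :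
    t * τ * t⁻¹ * τ ∈ P := by
  obtain ⟨i, hi⟩ := D.norm t ht
  set c := t * τ * t⁻¹ * (τ ^ i)⁻¹ with hc
  have hcong : t * τ * t⁻¹ = c * τ ^ i := by rw [hc]; group
  have htinv : t⁻¹ = t := by
    rw [inv_eq_iff_mul_eq_one]; exact ht2
  obtain ⟨c', hc', hpow⟩ := D.pow_mul_mod (X.pow_mem D.τX i) hi i
  have hτ : τ = (t * c * t⁻¹) * (c' * τ ^ (i * i)) := by
    have h1 : t * (t * τ * t⁻¹) * t⁻¹ = τ := by
      calc t * (t * τ * t⁻¹) * t⁻¹ = (t * t) * τ * (t * t)⁻¹ := by group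
        _ = τ := by rw [ht2]; simp
    have h2 : t * (c * τ ^ i) * t⁻¹ = (t * c * t⁻¹) * (t * τ * t⁻¹) ^ i := by
      rw [conj_pow]; group
    rw [hcong, h2, hcong, hpow, ← pow_mul] at h1
    exact h1.symm
  have hmem : τ ^ (1 - ((i : ℤ) * i)) ∈ P := by
    have h3 : τ ^ (1 - ((i : ℤ) * i)) = (t * c * t⁻¹) * c' := by
      have h4 : τ ^ (1 - ((i : ℤ) * i)) = τ * (τ ^ (i * i))⁻¹ := by
        rw [zpow_sub, zpow_one]
        norm_cast
      rw [h4]
      nth_rewrite 1 [hτ]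
      group
    rw [h3]
    exact P.mul_mem (D.conj_mem ht hi) hc'
  have hdvd := (D.zpow_mem_iff _).1 hmem
  haveI : Fact r.Prime := ⟨D.rp⟩
  have hz : ((i : ZMod r) - 1) * ((i : ZMod r) + 1) = 0 := by
    have h5 := (ZMod.intCast_zmod_eq_zero_iff_dvd _ r).2 hdvd
    push_cast at h5
    linear_combination -h5
  rcases mul_eq_zero.1 hz with h6 | h6
  · -- `i ≡ 1`: centralizes mod `P`, contradiction
    exfalso
    have h7 : (r : ℤ) ∣ (i : ℤ) - 1 := by
      rw [← ZMod.intCast_zmod_eq_zero_iff_dvd]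
      push_cast
      exact h6
    have h8 : τ ^ ((i : ℤ) - 1) = 1 := by
      rw [← D.ord] at h7
      exact orderOf_dvd_iff_zpow_eq_one.1 h7
    have h9 : τ ^ i = τ := by
      have : τ ^ ((i : ℤ) - 1) = τ ^ i * τ⁻¹ := by
        rw [zpow_sub, zpow_one]; norm_cast
      rw [this] at h8
      exact mul_inv_eq_one.1 h8
    have h10 : t * τ * t⁻¹ * τ⁻¹ ∈ P := by
      rw [hcong, h9]
      simpa [hc, h9] using hi
    have hco : (orderOf t).Coprime (orderOf τ) := by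
      have h11 : orderOf t ∣ 2 := orderOf_dvd_of_pow_eq_one (by rw [sq]; exact ht2)
      rw [D.ord]
      exact Nat.Coprime.coprime_dvd_left h11 ((Nat.coprime_primes Nat.prime_two D.rp).2 (Ne.symm D.r2))
    rcases D.mod_mixed ht D.τX h10 hco with h | h
    · exact htP h
    · exact D.τ_not_mem h
  · have h7 : (r : ℤ) ∣ (i : ℤ) + 1 := by
      rw [← ZMod.intCast_zmod_eq_zero_iff_dvd]
      push_cast
      exact h6
    have h8 : τ ^ ((i : ℤ) + 1) = 1 := by
      rw [← D.ord] at h7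
      exact orderOf_dvd_iff_zpow_eq_one.1 h7
    have h9 : (τ ^ i)⁻¹ = τ := by
      have : τ ^ ((i : ℤ) + 1) = τ ^ i * τ := by
        rw [zpow_add, zpow_one]; norm_cast
      rw [this] at h8
      exact inv_eq_of_mul_eq_one_right h8
    rw [hc, h9] at hi
    exact hi

end LocData

end Cfsg.Agent.Lib.EPPO7
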