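import Cfsg.Agent.Lib.EPPO7.Loc
import Cfsg.Agent.Lib.Core.Basic

/-!
# Local analysis, continued
-/

set_option autoImplicit false
set_option linter.style.haveILetI false

namespace Cfsg.Agent.Lib.EPPO7

universe u

variable {M : Type u} [Group M] [Finite M]

/-- Two subgroups of `Q` meeting trivially. -/
theorem card_mul_le_of_inf_eq_bot {Q A B : Subgroup M} (hA : A ≤ Q) (hB : B ≤ Q) (h : A ⊓ B = ⊥) :
    Nat.card A * Nat.card B ≤ Nat.card Q := by
  classical
  rw [← Nat.card_prod]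
  refine Nat.card_le_card_of_injective (fun x : A × B => (⟨(x.1 : M) * x.2, Q.mul_mem (hA x.1.2) (hB x.2.2)⟩ : Q)) ?_
  rintro ⟨a, b⟩ ⟨a', b'⟩ hxy
  have h1 : (a : M) * b = a' * b' := congrArg Subtype.val hxy
  have h2 : (a' : M)⁻¹ * a = b' * (b : M)⁻¹ := by
    calc (a' : M)⁻¹ * a = (a' : M)⁻¹ * ((a : M) * b) * (b : M)⁻¹ := by group
      _ = (a' : M)⁻¹ * ((a' : M) * b') * (b : M)⁻¹ := by rw [h1]
      _ = b' * (b : M)⁻¹ := by group
  have h3 : (a' : M)⁻¹ * a ∈ A ⊓ B := by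
    refine Subgroup.mem_inf.2 ⟨A.mul_mem (A.inv_mem a'.2) a.2, ?_⟩
    rw [h2]
    exact B.mul_mem b'.2 (B.inv_mem b.2)
  rw [h, Subgroup.mem_bot] at h3
  have h4 : (a : M) = a' := by
    have := mul_eq_one_iff_eq_inv.1 h3
    simpa using this.symm
  have h5 : (b : M) = b' := by
    rw [h4] at h1
    exact mul_left_cancel h1
  exact Prod.ext (Subtype.ext h4) (Subtype.ext h5)

/-- The central elements of exponent 2. -/
def omegaZ (P : Subgroup M) : Subgroup M where
  carrier := {z | z ∈ P ∧ (∀ x ∈ P, x * z = z * x) ∧ z * z = 1}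
  mul_mem' := by
    rintro a c ⟨ha, ha', ha2⟩ ⟨hc, hc', hc2⟩
    refine ⟨P.mul_mem ha hc, fun x hx => ?_, ?_⟩
    · rw [← mul_assoc, ha' x hx, mul_assoc, hc' x hx, mul_assoc]
    · calc a * c * (a * c) = a * (c * a) * c := by group
        _ = a * (a * c) * c := by rw [ha' c hc]
        _ = (a * a) * (c * c) := by group
        _ = 1 := by rw [ha2, hc2, one_mul]
  one_mem' := ⟨P.one_mem, by simp, by simp⟩
  inv_mem' := by
    rintro a ⟨ha, ha', ha2⟩
    have : a⁻¹ = a := by rw [inv_eq_iff_mul_eq_one]; exact ha2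
    rw [Set.mem_setOf_eq, this]
    exact ⟨ha, ha', ha2⟩

theorem mem_omegaZ {P : Subgroup M} {z : M} :
    z ∈ omegaZ P ↔ z ∈ P ∧ (∀ x ∈ P, x * z = z * x) ∧ z * z = 1 := Iff.rfl

theorem omegaZ_le (P : Subgroup M) : omegaZ P ≤ P := fun _ h => h.1

theorem omegaZ_comm {P : Subgroup M} {a c : M} (ha : a ∈ omegaZ P) (hc : c ∈ P) : c * a = a * c :=
  ha.2.1 c hc

theorem omegaZ_ne_bot {P : Subgroup M} (h2 : IsPGroup 2 P) (h1 : P ≠ ⊥) : omegaZ P ≠ ⊥ := by
  classical
  haveI : Fact (Nat.Prime 2) := ⟨Nat.prime_two⟩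
  haveI : Nontrivial P := (Subgroup.nontrivial_iff_ne_bot _).2 h1
  haveI : Nontrivial (Subgroup.center P) := h2.center_nontrivial
  have hpg : IsPGroup 2 (Subgroup.center P) :=
    IsPGroup.to_subgroup h2 (Subgroup.center P)
  have hdvd : 2 ∣ Nat.card (Subgroup.center P) := by
    obtain ⟨k, hk⟩ := IsPGroup.iff_card.1 hpg
    have h3 : 1 < Nat.card (Subgroup.center P) := Finite.one_lt_card
    rw [hk] at h3 ⊢
    have : k ≠ 0 := by
      rintro rfl
      simp at h3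
    exact dvd_pow_self 2 this
  obtain ⟨z, hz⟩ := exists_prime_orderOf_dvd_card' 2 hdvd
  intro hbot
  have hzm : ((z : P) : M) ∈ omegaZ P := by
    refine ⟨(z : P).2, fun x hx => ?_, ?_⟩
    · have := (Subgroup.mem_center_iff.1 z.2) ⟨x, hx⟩
      exact congrArg Subtype.val this
    · have h3 : z ^ 2 = 1 := by rw [← hz]; exact pow_orderOf_eq_one z
      have h4 := congrArg (fun w : Subgroup.center P => ((w : P) : M)) h3
      simpa [sq] using h4
  rw [hbot, Subgroup.mem_bot] at hzm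
  have : z = 1 := Subtype.ext (Subtype.ext hzm)
  rw [this, orderOf_one] at hz
  omega

theorem omegaZ_conj {P : Subgroup M} {g z : M} (hg : g ∈ Subgroup.normalizer (P : Set M))
    (hz : z ∈ omegaZ P) : g * z * g⁻¹ ∈ omegaZ P := by
  obtain ⟨hzP, hzc, hz2⟩ := hz
  refine ⟨(Subgroup.mem_normalizer_iff.1 hg z).1 hzP, fun x hx => ?_, ?_⟩
  · have hx' : g⁻¹ * x * g ∈ P := by
      have := (Subgroup.mem_normalizer_iff.1 (Subgroup.inv_mem _ hg) x).1 hx
      simpa using this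
    have h := hzc _ hx'
    calc x * (g * z * g⁻¹) = g * ((g⁻¹ * x * g) * z) * g⁻¹ := by group
      _ = g * (z * (g⁻¹ * x * g)) * g⁻¹ := by rw [h]
      _ = g * z * g⁻¹ * x := by group
  · calc g * z * g⁻¹ * (g * z * g⁻¹) = g * (z * z) * g⁻¹ := by group
      _ = 1 := by rw [hz2]; simp

theorem normalizer_le_omegaZ (P : Subgroup M) :
    Subgroup.normalizer (P : Set M) ≤ Subgroup.normalizer (omegaZ P : Set M) := by
  intro g hg
  rw [Subgroup.mem_normalizer_iff]
  intro z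
  constructor
  · exact omegaZ_conj hg
  · intro h
    have := omegaZ_conj (Subgroup.inv_mem _ hg) h
    simpa [mul_assoc] using this

namespace LocData

variable {X P : Subgroup M} {τ : M} {r b : ℕ}

theorem F3 (D : LocData X P τ r b) {t u : M} (ht : t ∈ X) (hu : u ∈ X) (ht2 : t * t = 1) (hu2 : u * u = 1)
    (htP : t ∉ P) (huP : u ∉ P) {k : ℕ} (hk : orderOf (t * u) = 2 ^ k) : t * u ∈ P := by
  have h1 := D.inv_mod ht ht2 htP
  have h2 := D.inv_mod hu hu2 huP
  have h3 : (t * u) * τ * (t * u)⁻¹ * τ⁻¹ ∈ P := by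
    have h4 : (t * u) * τ * (t * u)⁻¹ * τ⁻¹ =
        (t * (u * τ * u⁻¹ * τ) * t⁻¹) * (τ * (t * τ * t⁻¹ * τ)⁻¹ * τ⁻¹) := by group
    rw [h4]
    exact P.mul_mem (D.conj_mem ht h2) (D.conj_mem D.τX (P.inv_mem h1))
  have hco : (orderOf (t * u)).Coprime (orderOf τ) := by
    rw [hk, D.ord]
    exact D.r_odd
  rcases D.mod_mixed (X.mul_mem ht hu) D.τX h3 hco with h | h
  · exact h
  · exact absurd h D.τ_not_mem

theorem conj_pow_τ {n : M} {j : ℕ} (h : n * τ * n⁻¹ = τ ^ j) (k : ℕ) :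
    ∃ J : ℕ, n ^ k * τ * (n ^ k)⁻¹ = τ ^ J := by
  induction k with
  | zero => exact ⟨1, by simp⟩
  | succ k ih =>
    obtain ⟨J, hJ⟩ := ih
    refine ⟨J * j, ?_⟩
    have h1 : n ^ (k + 1) * τ * (n ^ (k + 1))⁻¹ = n ^ k * (n * τ * n⁻¹) * (n ^ k)⁻¹ := by
      rw [pow_succ]; group
    rw [h1, h, ← conj_pow, hJ, ← pow_mul]

/-- The involution `u` inverting `τ`. -/
theorem exists_u (D : LocData X P τ r b) {T : Subgroup M} (hPT : P < T) (hTX : T ≤ X)
    (hT2 : IsPGroup 2 T) : ∃ u ∈ T, orderOf u = 2 ∧ u ∉ P ∧ u * τ * u⁻¹ = τ⁻¹ := by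
  obtain ⟨w, hwT, hwP⟩ := SetLike.exists_of_lt hPT
  have hwX := hTX hwT
  have hy : w * τ * w⁻¹ ∈ KK P τ := D.conj_τ_mem hwX
  have hyP : w * τ * w⁻¹ ∉ P := by
    intro h
    apply D.τ_not_mem
    have := D.conj_mem' hwX h
    simpa [mul_assoc] using this
  obtain ⟨d, hd, j, hj⟩ := D.sylow_conj hy hyP
  set n := d * w with hn
  have hnT : n ∈ T := T.mul_mem (hPT.le hd) hwT
  have hnP : n ∉ P := by
    intro h
    apply hwP
    have : w = d⁻¹ * n := by rw [hn]; group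
    rw [this]
    exact P.mul_mem (P.inv_mem hd) h
  have hnτ : n * τ * n⁻¹ = τ ^ j := by
    rw [← hj, hn]; group
  have hn1 : n ≠ 1 := by
    intro h
    apply hnP
    rw [h]
    exact P.one_mem
  obtain ⟨e, he⟩ := orderOf_of_mem_two hT2 hnT
  have he0 : e ≠ 0 := by
    rintro rfl
    exact hn1 (orderOf_eq_one_iff.1 (by simpa using he))
  obtain ⟨f, rfl⟩ := Nat.exists_eq_succ_of_ne_zero he0
  set u := n ^ (2 ^ f) with hu
  have huord : orderOf u = 2 := by
    have h1 := orderOf_pow_orderOf_div (x := n) (n := 2) (by rw [he]; positivity)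
      (by rw [he]; exact dvd_pow_self 2 (Nat.succ_ne_zero f))
    rw [he, Nat.succ_eq_add_one, pow_succ, Nat.mul_div_cancel _ (by norm_num)] at h1
    rw [hu]
    exact h1
  have hu2 : u * u = 1 := by
    rw [← sq, ← huord]
    exact pow_orderOf_eq_one u
  have hu1 : u ≠ 1 := by
    intro h
    rw [h, orderOf_one] at huord
    omega
  have huT : u ∈ T := T.pow_mem hnT _
  have huX := hTX huT
  obtain ⟨J, hJ⟩ := conj_pow_τ hnτ (2 ^ f)
  rw [← hu] at hJ
  have huP : u ∉ P := by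
    intro h
    have h1 : u * τ * u⁻¹ * τ⁻¹ ∈ P := by
      have h2 : u * τ * u⁻¹ * τ⁻¹ = u * (τ * u⁻¹ * τ⁻¹) := by group
      rw [h2]
      exact P.mul_mem h (D.conj_mem D.τX (P.inv_mem h))
    have h3 : τ ^ ((J : ℤ) - 1) ∈ P := by
      have h4 : τ ^ ((J : ℤ) - 1) = τ ^ J * τ⁻¹ := by
        rw [zpow_sub, zpow_one]; norm_cast
      rw [h4, ← hJ]
      exact h1
    have h5 := (D.zpow_mem_iff _).1 h3
    rw [← D.ord] at h5
    have h6 : τ ^ ((J : ℤ) - 1) = 1 := orderOf_dvd_iff_zpow_eq_one.1 h5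
    have h7 : τ ^ J * τ⁻¹ = 1 := by
      have h4 : τ ^ ((J : ℤ) - 1) = τ ^ J * τ⁻¹ := by
        rw [zpow_sub, zpow_one]; norm_cast
      rw [← h4]; exact h6
    have h8 : u * τ * u⁻¹ = τ := by
      rw [hJ]; exact mul_inv_eq_one.1 h7
    have hcomm : Commute u τ := by
      show u * τ = τ * u
      calc u * τ = (u * τ * u⁻¹) * u := by group
        _ = τ * u := by rw [h8]
    have hco : (orderOf u).Coprime (orderOf τ) := by
      rw [huord, D.ord]
      simpa using (D.r_odd (k := 1))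
    rcases D.pp.mixed hcomm hco with h9 | h9
    · exact hu1 h9
    · exact D.τ_ne_one h9
  refine ⟨u, huT, huord, huP, ?_⟩
  have h1 := D.inv_mod huX hu2 huP
  rw [hJ] at h1
  have h3 : τ ^ ((J : ℤ) + 1) ∈ P := by
    have h4 : τ ^ ((J : ℤ) + 1) = τ ^ J * τ := by
      rw [zpow_add, zpow_one]; norm_cast
    rw [h4]; exact h1
  have h5 := (D.zpow_mem_iff _).1 h3
  rw [← D.ord] at h5
  have h6 : τ ^ ((J : ℤ) + 1) = 1 := orderOf_dvd_iff_zpow_eq_one.1 h5
  have h7 : τ ^ J * τ = 1 := by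
    have h4 : τ ^ ((J : ℤ) + 1) = τ ^ J * τ := by
      rw [zpow_add, zpow_one]; norm_cast
    rw [← h4]; exact h6
  rw [hJ]
  exact eq_inv_of_mul_eq_one_left h7

/-- `t ∈ uP` is conjugate to `u` by an element of `P`. -/
theorem F4 (D : LocData X P τ r b) {t u : M} (ht : t ∈ X) (ht2 : t * t = 1) (htP : t ∉ P)
    (hu2 : u * u = 1) (huτ : u * τ * u⁻¹ = τ⁻¹) (htu : t * u ∈ P) : ∃ d ∈ P, d * t * d⁻¹ = u := by
  have htinv : t⁻¹ = t := by rw [inv_eq_iff_mul_eq_one]; exact ht2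
  have huinv : u⁻¹ = u := by rw [inv_eq_iff_mul_eq_one]; exact hu2
  have hc := D.inv_mod ht ht2 htP
  set c := t * τ * t⁻¹ * τ with hcdef
  set y := t * τ * t⁻¹ * τ⁻¹ with hy
  have hyc : y = c * τ⁻¹ * τ⁻¹ := by rw [hy, hcdef]; group
  have hyK : y ∈ KK P τ := by
    rw [hyc]
    exact (KK P τ).mul_mem ((KK P τ).mul_mem (D.P_le_KK hc) ((KK P τ).inv_mem D.τ_mem_KK))
      ((KK P τ).inv_mem D.τ_mem_KK)
  have hyP : y ∉ P := by
    intro h
    have h1 : τ ^ (-2 : ℤ) ∈ P := by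
      have h2 : τ ^ (-2 : ℤ) = c⁻¹ * y := by
        rw [hyc]
        have : τ ^ (-2 : ℤ) = τ⁻¹ * τ⁻¹ := by
          rw [show (-2 : ℤ) = -1 + -1 by norm_num, zpow_add]; simp
        rw [this]; group
      rw [h2]
      exact P.mul_mem (P.inv_mem hc) h
    have h2 := (D.zpow_mem_iff _).1 h1
    have h3 : (r : ℤ) ∣ 2 := by simpa using h2
    have h4 : r ∣ 2 := by exact_mod_cast h3
    exact D.r2 ((Nat.prime_dvd_prime_iff_eq D.rp Nat.prime_two).1 h4)
  obtain ⟨d, hd, j, hj⟩ := D.sylow_conj hyK hyP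
  have hdX := D.PX hd
  set t' := d * t * d⁻¹ with ht'
  have htinvy : t * y * t⁻¹ = y⁻¹ := by
    have h1 : t * y * t⁻¹ = τ * t⁻¹ * τ⁻¹ * t⁻¹ := by
      rw [hy]
      calc t * (t * τ * t⁻¹ * τ⁻¹) * t⁻¹ = (t * t) * τ * t⁻¹ * τ⁻¹ * t⁻¹ := by group
        _ = τ * t⁻¹ * τ⁻¹ * t⁻¹ := by rw [ht2]; group
    rw [h1]
    calc τ * t⁻¹ * τ⁻¹ * t⁻¹ = τ * t * τ⁻¹ * t⁻¹ := by rw [htinv]
      _ = y⁻¹ := by rw [hy]; group
  have ht'τj : t' * τ ^ j * t'⁻¹ = (τ ^ j)⁻¹ := by
    rw [← hj, ht']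
    calc d * t * d⁻¹ * (d * y * d⁻¹) * (d * t * d⁻¹)⁻¹ = d * (t * y * t⁻¹) * d⁻¹ := by group
      _ = d * y⁻¹ * d⁻¹ := by rw [htinvy]
      _ = (d * y * d⁻¹)⁻¹ := by group
  -- `j` is invertible modulo `r`
  have hjr : ¬ r ∣ j := by
    intro hdv
    have h1 : τ ^ j = 1 := by
      rw [← D.ord] at hdv
      exact orderOf_dvd_iff_pow_eq_one.1 hdv
    rw [h1] at hj
    have h2 : y = 1 := by
      have h3 : d * y = d := by
        have := mul_inv_eq_one.1 hj
        exact this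
      exact mul_left_cancel (by rw [h3, mul_one])
    apply hyP
    rw [h2]
    exact P.one_mem
  have hco : j.Coprime r := ((Nat.Prime.coprime_iff_not_dvd D.rp).2 hjr).symm
  obtain ⟨m, -, hm⟩ := Nat.exists_mul_mod_eq_one_of_coprime hco D.rp.one_lt
  have hτm : (τ ^ j) ^ m = τ := by
    rw [← pow_mul]
    have h1 := pow_mod_orderOf τ (j * m)
    rw [D.ord, hm, pow_one] at h1
    exact h1.symm
  have ht'τ : t' * τ * t'⁻¹ = τ⁻¹ := by
    calc t' * τ * t'⁻¹ = t' * (τ ^ j) ^ m * t'⁻¹ := by rw [hτm]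
      _ = (t' * τ ^ j * t'⁻¹) ^ m := by rw [conj_pow]
      _ = (((τ ^ j) ^ m))⁻¹ := by rw [ht'τj, inv_pow]
      _ = τ⁻¹ := by rw [hτm]
  set a := t' * u with ha
  have haP : a ∈ P := by
    have h1 : a = (d * (t * d⁻¹ * t⁻¹)) * (t * u) := by
      rw [ha, ht']; group
    rw [h1]
    exact P.mul_mem (P.mul_mem hd (D.conj_mem ht (P.inv_mem hd))) htu
  have hacomm : Commute a τ := by
    show a * τ = τ * a
    have h1 : a * τ * a⁻¹ = τ := by
      rw [ha]
      calc t' * u * τ * (t' * u)⁻¹ = t' * (u * τ * u⁻¹) * t'⁻¹ := by group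
        _ = t' * τ⁻¹ * t'⁻¹ := by rw [huτ]
        _ = (t' * τ * t'⁻¹)⁻¹ := by group
        _ = τ := by rw [ht'τ]; simp
    calc a * τ = (a * τ * a⁻¹) * a := by group
      _ = τ * a := by rw [h1]
  obtain ⟨k, hk⟩ := orderOf_of_mem_two D.p2 haP
  have hco2 : (orderOf a).Coprime (orderOf τ) := by
    rw [hk, D.ord]
    exact D.r_odd
  rcases D.pp.mixed hacomm hco2 with h | h
  · refine ⟨d, hd, ?_⟩
    have h1 : t' = u⁻¹ := eq_inv_of_mul_eq_one_left h
    show t' = u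
    rw [h1, huinv]
  · exact absurd h D.τ_ne_one

/-- `|C_Q(u)|² ≤ |Q|`. -/
theorem cent_card (D : LocData X P τ r b) {Q : Subgroup M} (hQP : Q ≤ P)
    (hQτ : τ ∈ Subgroup.normalizer (Q : Set M)) {u : M} (hu2 : u * u = 1) (huτ : u * τ * u⁻¹ = τ⁻¹) :
    (Nat.card (Q ⊓ Subgroup.centralizer ({u} : Set M) : Subgroup M)) ^ 2 ≤ Nat.card Q := by
  classical
  set A : Subgroup M := Q ⊓ Subgroup.centralizer ({u} : Set M) with hA
  let B : Subgroup M := A.map (MulAut.conj τ).toMonoidHom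
  have hB : Nat.card B = Nat.card A :=
    Nat.card_congr (Subgroup.equivMapOfInjective A _ (MulAut.conj τ).injective).toEquiv.symm
  have hBQ : B ≤ Q := by
    rintro _ ⟨a, ha, rfl⟩
    have := (Subgroup.mem_normalizer_iff.1 hQτ a).1 ha.1
    simpa using this
  have hinf : A ⊓ B = ⊥ := by
    rw [eq_bot_iff]
    rintro x ⟨hxA, a, haA, hax⟩
    rw [Subgroup.mem_bot]
    have hax' : x = τ * a * τ⁻¹ := by simpa using hax.symm
    have hxu : Commute x u := by
      have := Subgroup.mem_centralizer_singleton_iff.1 hxA.2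
      exact this
    have hau : Commute a u := by
      have := Subgroup.mem_centralizer_singleton_iff.1 haA.2
      exact this
    have hxu' : Commute x (τ * u * τ⁻¹) := by
      rw [hax']
      show τ * a * τ⁻¹ * (τ * u * τ⁻¹) = τ * u * τ⁻¹ * (τ * a * τ⁻¹)
      calc τ * a * τ⁻¹ * (τ * u * τ⁻¹) = τ * (a * u) * τ⁻¹ := by group
        _ = τ * (u * a) * τ⁻¹ := by rw [hau.eq]
        _ = τ * u * τ⁻¹ * (τ * a * τ⁻¹) := by group
    have huinv : u⁻¹ = u := by rw [inv_eq_iff_mul_eq_one]; exact hu2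
    have hy : u * (τ * u * τ⁻¹) = τ⁻¹ * τ⁻¹ := by
      calc u * (τ * u * τ⁻¹) = (u * τ * u⁻¹) * τ⁻¹ := by rw [huinv]; group
        _ = τ⁻¹ * τ⁻¹ := by rw [huτ]
    have hcomm : Commute x (τ⁻¹ * τ⁻¹) := by
      rw [← hy]
      exact hxu.mul_right hxu'
    obtain ⟨k, hk⟩ := orderOf_of_mem_two D.p2 (hQP hxA.1)
    have hd : orderOf (τ⁻¹ * τ⁻¹) ∣ r := by
      apply orderOf_dvd_of_pow_eq_one
      have h1 : τ⁻¹ * τ⁻¹ = (τ ^ 2)⁻¹ := by rw [sq]; group
      rw [h1, inv_pow, ← pow_mul, mul_comm, pow_mul, ← D.ord, pow_orderOf_eq_one]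
      simp
    have hco : (orderOf x).Coprime (orderOf (τ⁻¹ * τ⁻¹)) := by
      rw [hk]
      exact Nat.Coprime.coprime_dvd_right hd D.r_odd
    rcases D.pp.mixed hcomm hco with h | h
    · exact h
    · exfalso
      have h1 : τ ^ (-2 : ℤ) = 1 := by
        rw [show (-2 : ℤ) = -1 + -1 by norm_num, zpow_add]
        simpa using h
      have h2 : τ ^ (-2 : ℤ) ∈ P := by rw [h1]; exact P.one_mem
      have h3 := (D.zpow_mem_iff _).1 h2
      have h4 : (r : ℤ) ∣ 2 := by simpa using h3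
      have h5 : r ∣ 2 := by exact_mod_cast h4
      exact D.r2 ((Nat.prime_dvd_prime_iff_eq D.rp Nat.prime_two).1 h5)
  have := card_mul_le_of_inf_eq_bot (inf_le_left : A ≤ Q) hBQ hinf
  rw [hB] at this
  rw [sq]
  exact this

/-- Conjugate involutions have centralizers of the same size in a subgroup `Q` normalized by `d`. -/
theorem card_cent_conj {Q : Subgroup M} {d t u : M} (hd : d ∈ Subgroup.normalizer (Q : Set M))
    (h : d * t * d⁻¹ = u) :
    Nat.card (Q ⊓ Subgroup.centralizer ({t} : Set M) : Subgroup M)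
      = Nat.card (Q ⊓ Subgroup.centralizer ({u} : Set M) : Subgroup M) := by
  classical
  have heq : (Q ⊓ Subgroup.centralizer ({u} : Set M) : Subgroup M)
      = (Q ⊓ Subgroup.centralizer ({t} : Set M) : Subgroup M).map (MulAut.conj d).toMonoidHom := by
    ext x
    constructor
    · rintro ⟨hxQ, hxu⟩
      have hxu' : x * u = u * x := Subgroup.mem_centralizer_singleton_iff.1 hxu
      refine ⟨d⁻¹ * x * d, ⟨?_, ?_⟩, by simp [mul_assoc]⟩
      · have := (Subgroup.mem_normalizer_iff.1 (Subgroup.inv_mem _ hd) x).1 hxQ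
        simpa using this
      · show d⁻¹ * x * d ∈ Subgroup.centralizer ({t} : Set M)
        rw [Subgroup.mem_centralizer_singleton_iff]
        have h1 : t = d⁻¹ * u * d := by rw [← h]; group
        rw [h1]
        calc d⁻¹ * x * d * (d⁻¹ * u * d) = d⁻¹ * (x * u) * d := by group
          _ = d⁻¹ * (u * x) * d := by rw [hxu']
          _ = d⁻¹ * u * d * (d⁻¹ * x * d) := by group
    · rintro ⟨y, ⟨hyQ, hyt⟩, rfl⟩
      have hyt' : y * t = t * y := Subgroup.mem_centralizer_singleton_iff.1 hyt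
      refine ⟨?_, ?_⟩
      · have := (Subgroup.mem_normalizer_iff.1 hd y).1 hyQ
        simpa using this
      · show d * y * d⁻¹ ∈ Subgroup.centralizer ({u} : Set M)
        rw [Subgroup.mem_centralizer_singleton_iff, ← h]
        calc d * y * d⁻¹ * (d * t * d⁻¹) = d * (y * t) * d⁻¹ := by group
          _ = d * (t * y) * d⁻¹ := by rw [hyt']
          _ = d * t * d⁻¹ * (d * y * d⁻¹) := by group
  rw [heq]
  exact Nat.card_congr (Subgroup.equivMapOfInjective _ _ (MulAut.conj d).injective).toEquiv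

/-- An element of `X` of order `r` lies in `K`. -/
theorem mem_KK_of_order (D : LocData X P τ r b) {x : M} (hx : x ∈ X) (hxo : orderOf x = r) :
    x ∈ KK P τ := by
  classical
  by_contra hxK
  have hZ : Subgroup.zpowers x ≤ Subgroup.normalizer (KK P τ : Set M) := by
    rw [Subgroup.zpowers_le, Subgroup.mem_normalizer_iff]
    intro y
    constructor
    · exact D.KK_conj hx
    · intro h
      have := D.KK_conj (X.inv_mem hx) h
      simpa [mul_assoc] using this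
  have h1 := Cfsg.Agent.Lib.Solvable.WielandtHall.card_sup_mul_card_inf_of_le_normalizer hZ
  have hinf : Subgroup.zpowers x ⊓ KK P τ = ⊥ := by
    have hd : Nat.card (Subgroup.zpowers x ⊓ KK P τ : Subgroup M) ∣ r := by
      rw [← hxo, ← Nat.card_zpowers]
      exact Subgroup.card_dvd_of_le inf_le_left
    rcases (Nat.dvd_prime D.rp).1 hd with h | h
    · exact Subgroup.eq_bot_of_card_eq _ h
    · exfalso
      apply hxK
      have : Subgroup.zpowers x ⊓ KK P τ = Subgroup.zpowers x := by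
        apply Subgroup.eq_of_le_of_card_ge inf_le_left
        rw [h, Nat.card_zpowers, hxo]
      have h2 : x ∈ Subgroup.zpowers x ⊓ KK P τ := by
        rw [this]; exact Subgroup.mem_zpowers x
      exact h2.2
  rw [hinf, Subgroup.card_bot, mul_one, Nat.card_zpowers, hxo, D.card_KK] at h1
  have hle : Subgroup.zpowers x ⊔ KK P τ ≤ X :=
    sup_le ((Subgroup.zpowers_le).2 hx) D.KK_le
  have hd := Subgroup.card_dvd_of_le hle
  rw [h1, D.card] at hd
  obtain ⟨n, hn⟩ := IsPGroup.iff_card.1 D.p2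
  have hpos : 0 < Nat.card P := Nat.card_pos
  have h3 : r * r ∣ r * 2 ^ b := by
    have h4 : Nat.card P * (r * r) ∣ Nat.card P * (r * 2 ^ b) := by
      convert hd using 1
      ring
    exact Nat.dvd_of_mul_dvd_mul_left hpos h4
  have h5 : r ∣ 2 ^ b := Nat.dvd_of_mul_dvd_mul_left D.rp.pos h3
  exact D.r2 ((Nat.prime_dvd_prime_iff_eq D.rp Nat.prime_two).1 (D.rp.dvd_of_dvd_pow h5))

/-- `N_X(T) = T` for a Sylow 2-subgroup `T` of `X` larger than `P`. -/
theorem normalizer_T (D : LocData X P τ r b) {T : Subgroup M} (hPT : P < T) (hTX : T ≤ X)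
    (hT2 : IsPGroup 2 T) (hTmax : ∀ Q : Subgroup M, IsPGroup 2 Q → T ≤ Q → Q ≤ X → Q ≤ T)
    {g : M} (hgX : g ∈ X) (hgT : g ∈ Subgroup.normalizer (T : Set M)) : g ∈ T := by
  classical
  by_cases hg1 : g = 1
  · rw [hg1]; exact T.one_mem
  rcases D.pp.dichotomy hg1 with ⟨k, -, hk⟩ | ⟨hp, h2, -⟩
  · have hZ2 : IsPGroup 2 (Subgroup.zpowers g) := by
      rw [IsPGroup.iff_card, Nat.card_zpowers, hk]
      exact ⟨k, rfl⟩
    have hZ : Subgroup.zpowers g ≤ Subgroup.normalizer (T : Set M) := (Subgroup.zpowers_le).2 hgT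
    have hQ := IsPGroup.to_sup_of_normal_right' hZ2 hT2 hZ
    have hle := hTmax _ hQ le_sup_right (sup_le ((Subgroup.zpowers_le).2 hgX) hTX)
    exact hle ((le_sup_left : Subgroup.zpowers g ≤ _) (Subgroup.mem_zpowers g))
  · exfalso
    have hgP : g ∉ P := by
      intro h
      obtain ⟨k, hk⟩ := orderOf_of_mem_two D.p2 h
      rw [hk] at hp h2
      have : k = 1 := by
        by_contra hne
        rcases Nat.eq_zero_or_pos k with rfl | h3
        · simp at hp
          exact Nat.not_prime_one hp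
        · exact Nat.Prime.not_prime_pow (show 2 ≤ k by omega) hp
      rw [this] at h2
      simp at h2
    have hrd : orderOf g ∣ Nat.card X := by
      have := orderOf_dvd_natCard (⟨g, hgX⟩ : X)
      rwa [Subgroup.orderOf_mk] at this
    rw [D.card] at hrd
    obtain ⟨n, hn⟩ := IsPGroup.iff_card.1 D.p2
    rw [hn] at hrd
    have hgr : orderOf g = r := by
      rcases (Nat.Prime.dvd_mul hp).1 hrd with h3 | h3
      · exact absurd ((Nat.prime_dvd_prime_iff_eq hp Nat.prime_two).1 (hp.dvd_of_dvd_pow h3)) h2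
      · rcases (Nat.Prime.dvd_mul hp).1 h3 with h4 | h4
        · exact (Nat.prime_dvd_prime_iff_eq hp D.rp).1 h4
        · exact absurd ((Nat.prime_dvd_prime_iff_eq hp Nat.prime_two).1 (hp.dvd_of_dvd_pow h4)) h2
    have hgK := D.mem_KK_of_order hgX hgr
    obtain ⟨w, hwT, hwP⟩ := SetLike.exists_of_lt hPT
    have hwX := hTX hwT
    have hc : g * w * g⁻¹ * w⁻¹ ∈ T :=
      T.mul_mem ((Subgroup.mem_normalizer_iff.1 hgT w).1 hwT) (T.inv_mem hwT)
    have hc' : g * w * g⁻¹ * w⁻¹ ∈ KK P τ := by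
      have h3 : g * w * g⁻¹ * w⁻¹ = g * (w * g⁻¹ * w⁻¹) := by group
      rw [h3]
      exact (KK P τ).mul_mem hgK (D.KK_conj hwX ((KK P τ).inv_mem hgK))
    obtain ⟨k, hk⟩ := orderOf_of_mem_two hT2 hc
    have hcP := D.two_mem_of_mem_KK hc' hk
    obtain ⟨l, hl⟩ := orderOf_of_mem_two hT2 hwT
    have hco : (orderOf g).Coprime (orderOf w) := by
      rw [hl, hgr]
      exact D.r_odd.symm
    rcases D.mod_mixed hgX hwX hcP hco with h | h
    · exact hgP h
    · exact hwP h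

end LocData

end Cfsg.Agent.Lib.EPPO7
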