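import Cfsg.Agent.Lib.EPPO7.Loc2

/-!
# Normalizers of subgroups of `P`, and intersection-maximal subgroups
-/

set_option autoImplicit false
set_option linter.style.haveILetI false

namespace Cfsg.Agent.Lib.EPPO7

open Cfsg.Agent.Lib.SmallSimple.SylowBasic

universe u

variable {M : Type u} [Group M] [Finite M]

/-- The largest normal 2-subgroup of a subgroup `L`. -/
theorem exists_O2 (L : Subgroup M) : ∃ B : Subgroup M, B ≤ L ∧ L ≤ Subgroup.normalizer (B : Set M) ∧
    IsPGroup 2 B ∧ ∀ N : Subgroup M, N ≤ L → L ≤ Subgroup.normalizer (N : Set M) → IsPGroup 2 N → N ≤ B := by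
  classical
  haveI : Fact (Nat.Prime 2) := ⟨Nat.prime_two⟩
  haveI hn : (Cfsg.pCore 2 L).Normal := Cfsg.pCore_normal 2 L
  refine ⟨(Cfsg.pCore 2 L).map L.subtype, Subgroup.map_subtype_le _, ?_, ?_, ?_⟩
  · intro g hg
    rw [Subgroup.mem_normalizer_iff]
    intro x
    constructor
    · rintro ⟨y, hy, rfl⟩
      exact ⟨⟨g, hg⟩ * y * ⟨g, hg⟩⁻¹, hn.conj_mem y hy _, by simp⟩
    · rintro ⟨y, hy, hyx⟩
      have hxL : x ∈ L := by
        have h4 : g * x * g⁻¹ = (y : M) := by simpa using hyx.symm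
        have h3 : x = g⁻¹ * (y : M) * g := by
          rw [← h4]; group
        rw [h3]
        exact L.mul_mem (L.mul_mem (L.inv_mem hg) y.2) hg
      refine ⟨⟨g, hg⟩⁻¹ * y * (⟨g, hg⟩⁻¹)⁻¹, hn.conj_mem y hy _, ?_⟩
      have h4 : g * x * g⁻¹ = (y : M) := by simpa using hyx.symm
      simp only [Subgroup.coe_subtype, Subgroup.coe_mul, Subgroup.coe_inv, inv_inv]
      rw [← h4]; group
  · exact (Cfsg.Agent.Lib.Core.Basic.pCore_isPGroup).map L.subtype
  · intro N hNL hLN hN2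
    have hN' : (N.subgroupOf L).Normal := (Subgroup.normal_subgroupOf_iff_le_normalizer hNL).2 hLN
    have hN2' : IsPGroup 2 (N.subgroupOf L) := hN2.of_equiv (Subgroup.subgroupOfEquivOfLe hNL).symm
    have hle := Cfsg.Agent.Lib.Core.Basic.le_pCore hN' hN2'
    intro x hx
    refine ⟨⟨x, hNL hx⟩, hle ?_, rfl⟩
    rw [Subgroup.mem_subgroupOf]
    exact hx

namespace LocData

variable {P : Subgroup M} {τ : M} {r b : ℕ}

/-- The normalizer of a nontrivial subgroup of `P` normalized by `X` is `X`. -/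
theorem normalizer_eq (hIH : IHyp.{u} (Nat.card M))
    (D : LocData (Subgroup.normalizer (P : Set M)) P τ r b) {A : Subgroup M} (hAP : A ≤ P) (hA1 : A ≠ ⊥)
    (hXA : Subgroup.normalizer (P : Set M) ≤ Subgroup.normalizer (A : Set M)) :
    Subgroup.normalizer (A : Set M) = Subgroup.normalizer (P : Set M) := by
  classical
  haveI : Fact (Nat.Prime 2) := ⟨Nat.prime_two⟩
  set L := Subgroup.normalizer (A : Set M) with hL
  obtain ⟨B, hBL, hLB, hB2, hBmax⟩ := exists_O2 L
  have hA2 : IsPGroup 2 A := IsPGroup.to_le D.p2 hAP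
  have hAB : A ≤ B := hBmax A Subgroup.le_normalizer le_rfl hA2
  have hB1 : B ≠ ⊥ := by
    intro h
    rw [h, le_bot_iff] at hAB
    exact hA1 hAB
  have hτL : τ ∈ L := hXA D.τX
  have hτB : τ ∉ B := by
    intro h
    obtain ⟨k, hk⟩ := orderOf_of_mem_two hB2 h
    rw [D.ord] at hk
    exact D.r2 ((Nat.prime_dvd_prime_iff_eq D.rp Nat.prime_two).1 (D.rp.dvd_of_dvd_pow (show r ∣ 2 ^ k by rw [hk])))
  have hne : B ≠ L := by
    intro h
    exact hτB (h ▸ hτL)
  obtain ⟨τ', r', b', D'⟩ := exists_locData D.pp hIH L B hBL hLB hB2 hB1 hBmax hne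
  -- `r = r'`
  have hrr : r = r' := by
    have hd : r ∣ Nat.card L := by
      have := orderOf_dvd_natCard (⟨τ, hτL⟩ : L)
      rwa [Subgroup.orderOf_mk, D.ord] at this
    rw [D'.card] at hd
    obtain ⟨n, hn⟩ := IsPGroup.iff_card.1 hB2
    rw [hn] at hd
    rcases (Nat.Prime.dvd_mul D.rp).1 hd with h3 | h3
    · exact absurd ((Nat.prime_dvd_prime_iff_eq D.rp Nat.prime_two).1 (D.rp.dvd_of_dvd_pow h3)) D.r2
    · rcases (Nat.Prime.dvd_mul D.rp).1 h3 with h4 | h4
      · exact (Nat.prime_dvd_prime_iff_eq D.rp D'.rp).1 h4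
      · exact absurd ((Nat.prime_dvd_prime_iff_eq D.rp Nat.prime_two).1 (D.rp.dvd_of_dvd_pow h4)) D.r2
  have hτK : τ ∈ KK B τ' := D'.mem_KK_of_order hτL (by rw [D.ord, hrr])
  have hPL : P ≤ L := D.PX.trans hXA
  -- `P ≤ B`
  have hPB : P ≤ B := by
    intro p hp
    have hpL := hPL hp
    have hc1 : p * τ * p⁻¹ * τ⁻¹ ∈ P := by
      have h3 : p * τ * p⁻¹ * τ⁻¹ = p * (τ * p⁻¹ * τ⁻¹) := by group
      rw [h3]
      exact P.mul_mem hp (D.conj_mem D.τX (P.inv_mem hp))
    have hc2 : p * τ * p⁻¹ * τ⁻¹ ∈ KK B τ' :=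
      (KK B τ').mul_mem (D'.KK_conj hpL hτK) ((KK B τ').inv_mem hτK)
    obtain ⟨k, hk⟩ := orderOf_of_mem_two D.p2 hc1
    have hc3 := D'.two_mem_of_mem_KK hc2 hk
    obtain ⟨l, hl⟩ := orderOf_of_mem_two D.p2 hp
    have hco : (orderOf p).Coprime (orderOf τ) := by
      rw [hl, D.ord]
      exact D.r_odd
    rcases D'.mod_mixed hpL hτL hc3 hco with h | h
    · exact h
    · exact absurd h hτB
  -- `B ∩ X ≤ P`
  have hinf : B ⊓ Subgroup.normalizer (P : Set M) ≤ P := by
    apply D.max _ inf_le_right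
    · intro g hg
      rw [Subgroup.mem_normalizer_iff]
      intro x
      constructor
      · rintro ⟨h1, h2⟩
        exact ⟨(Subgroup.mem_normalizer_iff.1 (hLB (hXA hg)) x).1 h1,
          (Subgroup.normalizer (P : Set M)).mul_mem ((Subgroup.normalizer (P : Set M)).mul_mem hg h2) ((Subgroup.normalizer (P : Set M)).inv_mem hg)⟩
      · rintro ⟨h1, h2⟩
        refine ⟨(Subgroup.mem_normalizer_iff.1 (hLB (hXA hg)) x).2 h1, ?_⟩
        have h3 := (Subgroup.normalizer (P : Set M)).mul_mem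
          ((Subgroup.normalizer (P : Set M)).mul_mem ((Subgroup.normalizer (P : Set M)).inv_mem hg) h2) hg
        simpa [mul_assoc] using h3
    · exact IsPGroup.to_le hB2 inf_le_left
  have hBP : B = P := by
    by_contra hcon
    have hlt : P < B := lt_of_le_of_ne hPB (Ne.symm hcon)
    obtain ⟨x, hxB, hxP, hxN⟩ := exists_mem_normalizer_not_mem hB2 hlt
    exact hxP (hinf ⟨hxB, hxN⟩)
  apply le_antisymm _ hXA
  rw [← hBP]
  exact hLB

/-- The centralizer of `Ω₁Z(P)` is `P`. -/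
theorem cent_omegaZ (D : LocData (Subgroup.normalizer (P : Set M)) P τ r b) :
    Subgroup.centralizer (omegaZ P : Set M) ≤ P := by
  classical
  haveI : Fact (Nat.Prime 2) := ⟨Nat.prime_two⟩
  set V := omegaZ P with hV
  have hV1 : V ≠ ⊥ := omegaZ_ne_bot D.p2 D.p1
  obtain ⟨z, hzV, hz1⟩ := (Subgroup.bot_or_exists_ne_one V).resolve_left hV1
  have hz2 : orderOf z = 2 ^ 1 := by
    rw [pow_one]
    exact orderOf_eq_prime (by rw [sq]; exact hzV.2.2) hz1
  set C := Subgroup.centralizer (V : Set M) with hC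
  have hC2 : IsPGroup 2 C := by
    apply IsPGroup.to_le (D.pp.isPGroup_centralizer hz1 hz2)
    apply Subgroup.centralizer_le
    simpa using hzV
  have hPC : P ≤ C := by
    intro p hp
    rw [hC, Subgroup.mem_centralizer_iff]
    intro v hv
    exact (omegaZ_comm hv hp).symm
  by_contra hcon
  have hlt : P < C := lt_of_le_of_ne hPC (fun h => hcon (h ▸ le_rfl))
  obtain ⟨x, hxC, hxP, hxN⟩ := exists_mem_normalizer_not_mem hC2 hlt
  have hinf : C ⊓ Subgroup.normalizer (P : Set M) ≤ P := by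
    apply D.max _ inf_le_right
    · intro g hg
      rw [Subgroup.mem_normalizer_iff]
      intro y
      have hgV := normalizer_le_omegaZ P hg
      constructor
      · rintro ⟨h1, h2⟩
        refine ⟨?_, (Subgroup.normalizer (P : Set M)).mul_mem ((Subgroup.normalizer (P : Set M)).mul_mem hg h2) ((Subgroup.normalizer (P : Set M)).inv_mem hg)⟩
        have h1 : ∀ v ∈ (V : Set M), v * y = y * v := Subgroup.mem_centralizer_iff.1 h1
        refine Subgroup.mem_centralizer_iff.2 ?_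
        intro v hv
        have hv' : g⁻¹ * v * g ∈ V := by
          have := (Subgroup.mem_normalizer_iff.1 (Subgroup.inv_mem _ hgV) v).1 hv
          simpa using this
        have h3 := h1 _ hv'
        calc v * (g * y * g⁻¹) = g * ((g⁻¹ * v * g) * y) * g⁻¹ := by group
          _ = g * (y * (g⁻¹ * v * g)) * g⁻¹ := by rw [h3]
          _ = g * y * g⁻¹ * v := by group
      · rintro ⟨h1, h2⟩
        refine ⟨?_, ?_⟩
        · have h1 : ∀ v ∈ (V : Set M), v * (g * y * g⁻¹) = (g * y * g⁻¹) * v := Subgroup.mem_centralizer_iff.1 h1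
          refine Subgroup.mem_centralizer_iff.2 ?_
          intro v hv
          have hv' : g * v * g⁻¹ ∈ V := (Subgroup.mem_normalizer_iff.1 hgV v).1 hv
          have h3 := h1 _ hv'
          have h4 : g * (v * y) * g⁻¹ = g * (y * v) * g⁻¹ := by
            calc g * (v * y) * g⁻¹ = (g * v * g⁻¹) * (g * y * g⁻¹) := by group
              _ = (g * y * g⁻¹) * (g * v * g⁻¹) := h3
              _ = g * (y * v) * g⁻¹ := by group
          have h5 := congrArg (fun w => g⁻¹ * w * g) h4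
          simpa [mul_assoc] using h5
        · have h3 := (Subgroup.normalizer (P : Set M)).mul_mem
            ((Subgroup.normalizer (P : Set M)).mul_mem ((Subgroup.normalizer (P : Set M)).inv_mem hg) h2) hg
          simpa [mul_assoc] using h3
    · exact IsPGroup.to_le hC2 inf_le_left
  exact hxP (hinf ⟨hxC, hxN⟩)

end LocData

/-- `P` is an intersection-maximal subgroup in the Sylow subgroup `S`. -/
def IsIMax (S : Sylow 2 M) (P : Subgroup M) : Prop :=
  P ≠ ⊥ ∧ (∃ S' : Sylow 2 M, S' ≠ S ∧ P = (S : Subgroup M) ⊓ S') ∧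
    ∀ S' : Sylow 2 M, S' ≠ S → P ≤ (S : Subgroup M) ⊓ S' → (S : Subgroup M) ⊓ S' = P

/-- Every nontrivial element in an intersection lies in an intersection-maximal subgroup. -/
theorem exists_IMax {S S' : Sylow 2 M} (hne : S' ≠ S) {x : M} (hxS : x ∈ (S : Subgroup M))
    (hxS' : x ∈ (S' : Subgroup M)) (hx1 : x ≠ 1) : ∃ P, IsIMax S P ∧ x ∈ P := by
  classical
  let ι := {S'' : Sylow 2 M // S'' ≠ S ∧ x ∈ (S'' : Subgroup M)}
  haveI : Nonempty ι := ⟨⟨S', hne, hxS'⟩⟩
  obtain ⟨i, hi⟩ := Finite.exists_max (fun i : ι => Nat.card ((S : Subgroup M) ⊓ (i.1 : Subgroup M) : Subgroup M))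
  have hxP : x ∈ (S : Subgroup M) ⊓ (i.1 : Subgroup M) := ⟨hxS, i.2.2⟩
  refine ⟨(S : Subgroup M) ⊓ (i.1 : Subgroup M), ⟨?_, ⟨i.1, i.2.1, rfl⟩, ?_⟩, hxP⟩
  · intro h
    rw [h, Subgroup.mem_bot] at hxP
    exact hx1 hxP
  · intro S'' hS'' hle
    have hxS'' : x ∈ (S'' : Subgroup M) := (hle hxP).2
    have := hi ⟨S'', hS'', hxS''⟩
    exact (Subgroup.eq_of_le_of_card_ge hle this).symm

/-- The data attached to an intersection-maximal subgroup. -/
structure Dat (S : Sylow 2 M) (P : Subgroup M) (τ u : M) (r b : ℕ) : Prop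
    extends LocData (Subgroup.normalizer (P : Set M)) P τ r b where
  PS : P ≤ S
  PT : P < (S : Subgroup M) ⊓ Subgroup.normalizer (P : Set M)
  Tmax : ∀ Q : Subgroup M, IsPGroup 2 Q → (S : Subgroup M) ⊓ Subgroup.normalizer (P : Set M) ≤ Q →
    Q ≤ Subgroup.normalizer (P : Set M) → Q ≤ (S : Subgroup M) ⊓ Subgroup.normalizer (P : Set M)
  uS : u ∈ (S : Subgroup M)
  uX : u ∈ Subgroup.normalizer (P : Set M)
  uord : orderOf u = 2
  uP : u ∉ P
  uτ : u * τ * u⁻¹ = τ⁻¹

theorem sylow_ne_of_lt {S S' : Sylow 2 M} (hne : S' ≠ S) : ¬ (S' : Subgroup M) ≤ S :=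
  fun h => hne (Sylow.ext (S'.3 S.2 h).symm)

theorem IsIMax.exists_dat (hM : PP M) (hIH : IHyp.{u} (Nat.card M)) {S : Sylow 2 M} {P : Subgroup M}
    (hI : IsIMax S P) : ∃ τ u r b, Dat S P τ u r b := by
  classical
  haveI : Fact (Nat.Prime 2) := ⟨Nat.prime_two⟩
  obtain ⟨hP1, ⟨S', hS'S, hPeq⟩, hImax⟩ := hI
  have hPS : P ≤ S := hPeq ▸ inf_le_left
  have hPS' : P ≤ S' := hPeq ▸ inf_le_right
  have hP2 : IsPGroup 2 P := IsPGroup.to_le S.2 hPS
  have hPltS : P < S := by
    refine lt_of_le_of_ne hPS ?_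
    intro h
    have hSS' : (S : Subgroup M) ≤ S' := h ▸ hPS'
    exact hS'S (Sylow.ext (S.3 S'.2 hSS'))
  have hPltS' : P < S' := by
    refine lt_of_le_of_ne hPS' ?_
    intro h
    exact sylow_ne_of_lt hS'S (h ▸ hPS)
  set X := Subgroup.normalizer (P : Set M) with hX
  have hPX : P ≤ X := Subgroup.le_normalizer
  have hT : P < (S : Subgroup M) ⊓ X := by
    obtain ⟨x, hxS, hxP, hxN⟩ := exists_mem_normalizer_not_mem S.2 hPltS
    exact lt_of_le_of_ne (le_inf hPS hPX) (fun h => hxP (h ▸ (⟨hxS, hxN⟩ : x ∈ (S : Subgroup M) ⊓ X)))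
  have hT2 : P < (S' : Subgroup M) ⊓ X := by
    obtain ⟨x, hxS, hxP, hxN⟩ := exists_mem_normalizer_not_mem S'.2 hPltS'
    exact lt_of_le_of_ne (le_inf hPS' hPX) (fun h => hxP (h ▸ (⟨hxS, hxN⟩ : x ∈ (S' : Subgroup M) ⊓ X)))
  have hTmax : ∀ Q : Subgroup M, IsPGroup 2 Q → (S : Subgroup M) ⊓ X ≤ Q → Q ≤ X → Q ≤ (S : Subgroup M) ⊓ X := by
    intro Q hQ hTQ hQX
    obtain ⟨S₁, hS₁⟩ := hQ.exists_le_sylow
    by_cases hS₁S : S₁ = S
    · subst hS₁S
      exact le_inf hS₁ hQX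
    · exfalso
      have h1 : P ≤ (S : Subgroup M) ⊓ S₁ := le_inf hPS (hT.le.trans (hTQ.trans hS₁))
      have h2 := hImax S₁ hS₁S h1
      have h3 : (S : Subgroup M) ⊓ X ≤ P := by
        rw [← h2]
        exact le_inf inf_le_left (hTQ.trans hS₁)
      exact absurd h3 (not_le_of_gt hT)
  have hmax : ∀ N : Subgroup M, N ≤ X → X ≤ Subgroup.normalizer (N : Set M) → IsPGroup 2 N → N ≤ P := by
    intro N hNX hXN hN2
    have hTS2 : IsPGroup 2 ((S : Subgroup M) ⊓ X : Subgroup M) := IsPGroup.to_le S.2 inf_le_left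
    have hT'S2 : IsPGroup 2 ((S' : Subgroup M) ⊓ X : Subgroup M) := IsPGroup.to_le S'.2 inf_le_left
    -- `N ≤ S`
    have hNS : N ≤ S := by
      have h1 := IsPGroup.to_sup_of_normal_right' hTS2 hN2 (inf_le_right.trans hXN)
      have h2 := hTmax _ h1 le_sup_left (sup_le inf_le_right hNX)
      exact (le_sup_right.trans h2).trans inf_le_left
    have h1 := IsPGroup.to_sup_of_normal_right' hT'S2 hN2 (inf_le_right.trans hXN)
    obtain ⟨S₂, hS₂⟩ := h1.exists_le_sylow
    have hS₂S : S₂ ≠ S := by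
      rintro rfl
      have h3 : (S' : Subgroup M) ⊓ X ≤ P := by
        rw [hPeq]
        exact le_inf ((le_sup_left.trans hS₂)) inf_le_left
      exact absurd h3 (not_le_of_gt hT2)
    have h3 : P ≤ (S : Subgroup M) ⊓ S₂ := le_inf hPS (hT2.le.trans (le_sup_left.trans hS₂))
    have h4 := hImax S₂ hS₂S h3
    rw [← h4]
    exact le_inf hNS (le_sup_right.trans hS₂)
  have hne : P ≠ X := by
    intro h
    have : (S : Subgroup M) ⊓ X ≤ P := h ▸ inf_le_right
    exact absurd this (not_le_of_gt hT)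
  obtain ⟨τ, r, b, D⟩ := exists_locData hM hIH X P hPX le_rfl hP2 hP1 hmax hne
  obtain ⟨u, huT, huord, huP, huτ⟩ := D.exists_u hT inf_le_right (IsPGroup.to_le S.2 inf_le_left)
  exact ⟨τ, u, r, b, { D with
    PS := hPS
    PT := hT
    Tmax := hTmax
    uS := huT.1
    uX := huT.2
    uord := huord
    uP := huP
    uτ := huτ }⟩

end Cfsg.Agent.Lib.EPPO7
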