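import Cfsg.Agent.Lib.EPPO7.PSL7

/-!
# `PSL₂(7)` in the class: commuting involutions and the subgroup of order 21
-/

set_option autoImplicit false
set_option linter.style.haveILetI false

namespace Cfsg.Agent.Lib.EPPO7

open Cfsg.Agent.Lib.PrimeGraph.PSL2Spec
open scoped MatrixGroups

section inv

variable {F : Type*} [Field F] [Fintype F]

/-- Commuting involutions in `PSL₂(7)`. -/
theorem exists_commuting_involutions (hF : Fintype.card F = 7) :
    ∃ a b : Matrix.ProjectiveSpecialLinearGroup (Fin 2) F,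
      orderOf a = 2 ∧ orderOf b = 2 ∧ a ≠ b ∧ a * b = b * a := by
  classical
  haveI : Fact (Nat.Prime 2) := ⟨Nat.prime_two⟩
  have h7 : (7 : F) = 0 := by
    have := Nat.cast_card_eq_zero F
    rw [hF] at this
    exact_mod_cast this
  have h2 : (2 : F) ≠ 0 := by
    intro h
    have h1 : (1 : F) = 7 - 3 * 2 := by ring
    rw [h7, h] at h1
    simp at h1
  let A : SL(2, F) := ⟨!![0, 1; -1, 0], by simp [Matrix.det_fin_two_of]⟩
  let B : SL(2, F) := ⟨!![2, 3; 3, -2], by
    rw [Matrix.det_fin_two_of]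
    linear_combination (-2 : F) * h7⟩
  let Z : SL(2, F) := ⟨!![-1, 0; 0, -1], by simp [Matrix.det_fin_two_of]⟩
  have hZc : Z ∈ Subgroup.center (SL(2, F)) := by
    refine Matrix.SpecialLinearGroup.mem_center_iff.2 ⟨-1, by simp, ?_⟩
    ext i j
    fin_cases i <;> fin_cases j <;> simp [Z]
  have hAA : A * A = Z := by
    apply Subtype.ext
    show (!![0, 1; -1, 0] : Matrix (Fin 2) (Fin 2) F) * !![0, 1; -1, 0] = !![-1, 0; 0, -1]
    rw [Matrix.mul_fin_two]
    simp
  have hBB : B * B = Z := by
    apply Subtype.ext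
    show (!![2, 3; 3, -2] : Matrix (Fin 2) (Fin 2) F) * !![2, 3; 3, -2] = !![-1, 0; 0, -1]
    rw [Matrix.mul_fin_two]
    have e1 : (2 : F) * 2 + 3 * 3 = -1 := by linear_combination (2 : F) * h7
    have e2 : (2 : F) * 3 + 3 * -2 = 0 := by ring
    have e3 : (3 : F) * 2 + -2 * 3 = 0 := by ring
    have e4 : (3 : F) * 3 + -2 * -2 = -1 := by linear_combination (2 : F) * h7
    rw [e1, e2, e3, e4]
  have hAB : A * B = B * A * Z := by
    apply Subtype.ext
    show (!![0, 1; -1, 0] : Matrix (Fin 2) (Fin 2) F) * !![2, 3; 3, -2] =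
      (!![2, 3; 3, -2] : Matrix (Fin 2) (Fin 2) F) * !![0, 1; -1, 0] * !![-1, 0; 0, -1]
    rw [Matrix.mul_fin_two, Matrix.mul_fin_two, Matrix.mul_fin_two]
    simp
  have hz : mkL Z = 1 := (QuotientGroup.eq_one_iff Z).2 hZc
  have hcen : ∀ w : SL(2, F), w ∈ Subgroup.center (SL(2, F)) → (w : Matrix (Fin 2) (Fin 2) F) 0 1 = 0 ∧
      (w : Matrix (Fin 2) (Fin 2) F) 1 0 = 0 := by
    intro w hw
    obtain ⟨r, -, hr⟩ := Matrix.SpecialLinearGroup.mem_center_iff.1 hw
    rw [← hr]
    simp [Matrix.scalar_apply]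
  refine ⟨mkL A, mkL B, ?_, ?_, ?_, ?_⟩
  · apply orderOf_eq_prime
    · rw [pow_two, ← map_mul, hAA, hz]
    · intro h
      have := (hcen A ((QuotientGroup.eq_one_iff A).1 h)).1
      simp [A] at this
  · apply orderOf_eq_prime
    · rw [pow_two, ← map_mul, hBB, hz]
    · intro h
      have := (hcen B ((QuotientGroup.eq_one_iff B).1 h)).1
      simp only [B] at this
      simp at this
      apply h2
      have h3 : (3 : F) = 0 := this
      have h1 : (1 : F) = 7 - 2 * 3 := by ring
      rw [h7, h3] at h1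
      simp at h1
  · intro h
    have h1 : A⁻¹ * B ∈ Subgroup.center (SL(2, F)) := QuotientGroup.eq.1 h
    have h3 := hcen _ h1
    have h4 : B = A * (A⁻¹ * B) := by group
    have h5 : (B : Matrix (Fin 2) (Fin 2) F) 0 0 = 2 := by simp [B]
    have h6 : ((A * (A⁻¹ * B) : SL(2, F)) : Matrix (Fin 2) (Fin 2) F) 0 0 =
        (A : Matrix (Fin 2) (Fin 2) F) 0 0 * ((A⁻¹ * B : SL(2, F)) : Matrix (Fin 2) (Fin 2) F) 0 0 +
        (A : Matrix (Fin 2) (Fin 2) F) 0 1 * ((A⁻¹ * B : SL(2, F)) : Matrix (Fin 2) (Fin 2) F) 1 0 := by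
      rw [Matrix.SpecialLinearGroup.coe_mul, Matrix.mul_apply, Fin.sum_univ_two]
    rw [← h4, h5, h3.2] at h6
    simp [A] at h6
    exact h2 h6
  · rw [← map_mul, hAB, map_mul, map_mul, hz, mul_one]

end inv

section sylow7

variable {Y : Type*} [Group Y] [Finite Y]

theorem card_sylow_of_eq {p a m : ℕ} [hp : Fact p.Prime] (hc : Nat.card Y = p ^ a * m) (hm : ¬ p ∣ m) (P : Sylow p Y) :
    Nat.card P = p ^ a := by
  have hm0 : m ≠ 0 := by
    rintro rfl
    simp at hm
  rw [Sylow.card_eq_multiplicity, hc, Nat.factorization_mul (pow_ne_zero _ hp.out.ne_zero) hm0,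
    Nat.Prime.factorization_pow hp.out]
  simp [Nat.factorization_eq_zero_of_not_dvd hm]

/-- The normalizer of a Sylow 7-subgroup in a group of order 168 in the class. -/
theorem card_normalizer_seven (hY : PP Y) (hc : Nat.card Y = 168) (P : Sylow 7 Y)
    [Fact (Nat.Prime 7)] :
    Nat.card (Subgroup.normalizer ((P : Subgroup Y) : Set Y)) = 21 := by
  classical
  haveI : Fact (Nat.Prime 2) := ⟨Nat.prime_two⟩
  have hP : Nat.card P = 7 := by
    have := card_sylow_of_eq (p := 7) (a := 1) (m := 24) (by rw [hc]; norm_num) (by norm_num) P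
    simpa using this
  set N := Subgroup.normalizer ((P : Subgroup Y) : Set Y) with hN
  have h1 := Subgroup.card_mul_index N
  rw [hc] at h1
  have h2 : Nat.card P ∣ Nat.card N := Subgroup.card_dvd_of_le Subgroup.le_normalizer
  rw [hP] at h2
  have h3 : N.index % 7 = 1 := by
    have h4 := card_sylow_modEq_one 7 Y
    rw [P.card_eq_index_normalizer] at h4
    exact h4
  obtain ⟨c, hc'⟩ := h2
  rw [hc'] at h1 ⊢
  have h5 : c * N.index = 24 := by nlinarith
  have h6 : N.index ∣ 24 := ⟨c, by linarith⟩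
  have h7 : N.index ≤ 24 := Nat.le_of_dvd (by norm_num) h6
  have h8 : N.index = 1 ∨ N.index = 8 := by
    generalize N.index = i at *
    interval_cases i <;> first | omega | (simp at h6) | skip
  rcases h8 with h8 | h8
  · exfalso
    have hNt : N = ⊤ := Subgroup.index_eq_one.1 h8
    haveI hnorm : (P : Subgroup Y).Normal := Subgroup.normalizer_eq_top_iff.1 hNt
    haveI hcyc : IsCyclic P := isCyclic_of_prime_card hP
    let φ : Y →* MulAut (P : Subgroup Y) := MulAut.conjNormal
    have hr : Nat.card φ.range ∣ 6 := by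
      have h9 := Subgroup.card_subgroup_dvd_card φ.range
      rw [IsCyclic.card_mulAut, hP, Nat.totient_prime (by norm_num)] at h9
      exact h9
    have h10 : Nat.card φ.ker * Nat.card φ.range = 168 := by
      rw [← Subgroup.index_ker, Subgroup.card_mul_index, hc]
    have h11 : 2 ∣ Nat.card φ.ker := by
      have h12 : Nat.card φ.range ≤ 6 := Nat.le_of_dvd (by norm_num) hr
      generalize Nat.card φ.range = r at *
      generalize Nat.card φ.ker = k at *
      interval_cases r <;> first | omega | (exfalso; revert hr; norm_num)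
    obtain ⟨t, ht⟩ := exists_prime_orderOf_dvd_card' 2 h11
    have hP1 : (P : Subgroup Y) ≠ ⊥ := by
      intro hb
      rw [hb] at hP
      simp at hP
    obtain ⟨z, hz, hz1⟩ := (Subgroup.bot_or_exists_ne_one _).resolve_left hP1
    have hz7 : orderOf z = 7 := by
      have h13 : orderOf z ∣ 7 := by
        rw [← hP]
        exact Subgroup.orderOf_dvd_natCard _ hz
      rcases (Nat.dvd_prime (by norm_num)).1 h13 with h14 | h14
      · exact absurd (orderOf_eq_one_iff.1 h14) hz1
      · exact h14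
    have ht' : orderOf (t : Y) = 2 := by
      rw [Subgroup.orderOf_coe]
      exact ht
    have hcomm : Commute (t : Y) z := by
      have h15 : φ (t : Y) = 1 := t.2
      have h16 : (φ (t : Y)) ⟨z, hz⟩ = ⟨z, hz⟩ := by rw [h15]; rfl
      have h17 := congrArg Subtype.val h16
      have h18 : (t : Y) * z * (t : Y)⁻¹ = z := h17
      show (t : Y) * z = z * (t : Y)
      calc (t : Y) * z = ((t : Y) * z * (t : Y)⁻¹) * (t : Y) := by group
        _ = z * (t : Y) := by rw [h18]
    have hcop : (orderOf (t : Y)).Coprime (orderOf z) := by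
      rw [ht', hz7]
      norm_num
    rcases hY.mixed hcomm hcop with h19 | h19
    · rw [h19] at ht'
      simp at ht'
    · exact hz1 h19
  · rw [h8] at h5
    omega

end sylow7

end Cfsg.Agent.Lib.EPPO7
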