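import Cfsg.Agent.Lib.EPPO7.E3

/-!
# Elementary abelian subgroups of maximal order; the case `|Ω₁Z(P)| ≥ 16`
-/

set_option autoImplicit false
set_option linter.style.haveILetI false

namespace Cfsg.Agent.Lib.EPPO7

open Cfsg.Agent.Lib.SmallSimple.SylowBasic

universe u

variable {M : Type u} [Group M] [Finite M]

/-- Exponent two. -/
def IsEA (A : Subgroup M) : Prop := ∀ x ∈ A, x * x = 1

/-- Exponent-two subgroups of maximal order in `T`. -/
def IsMaxEA (T A : Subgroup M) : Prop :=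
  A ≤ T ∧ IsEA A ∧ ∀ B : Subgroup M, B ≤ T → IsEA B → Nat.card B ≤ Nat.card A

/-- The Thompson subgroup, with exponent two subgroups. -/
def JJ (T : Subgroup M) : Subgroup M := sSup {A | IsMaxEA T A}

theorem exists_maxEA (T : Subgroup M) : ∃ A, IsMaxEA T A := by
  classical
  let ι := {A : Subgroup M // A ≤ T ∧ IsEA A}
  haveI : Nonempty ι := ⟨⟨⊥, bot_le, fun x hx => by
    rw [Subgroup.mem_bot] at hx
    rw [hx, one_mul]⟩⟩
  obtain ⟨i, hi⟩ := Finite.exists_max (fun i : ι => Nat.card (i.1 : Subgroup M))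
  exact ⟨i.1, i.2.1, i.2.2, fun B hB hE => hi ⟨B, hB, hE⟩⟩

theorem IsMaxEA.le_JJ {T A : Subgroup M} (h : IsMaxEA T A) : A ≤ JJ T := le_sSup h

theorem JJ_le (T : Subgroup M) : JJ T ≤ T := sSup_le fun _ h => h.1

theorem IsEA.map_conj {A : Subgroup M} (h : IsEA A) (g : M) : IsEA (A.map (MulAut.conj g).toMonoidHom) := by
  rintro _ ⟨a, ha, rfl⟩
  have := h a ha
  simp only [MulEquiv.coe_toMonoidHom, MulAut.conj_apply]
  calc g * a * g⁻¹ * (g * a * g⁻¹) = g * (a * a) * g⁻¹ := by group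
    _ = 1 := by rw [this]; simp

theorem IsMaxEA.conj {T A : Subgroup M} (h : IsMaxEA T A) {g : M} (hg : g ∈ Subgroup.normalizer (T : Set M)) :
    IsMaxEA T (A.map (MulAut.conj g).toMonoidHom) := by
  refine ⟨?_, h.2.1.map_conj g, fun B hB hE => ?_⟩
  · rintro _ ⟨a, ha, rfl⟩
    exact (Subgroup.mem_normalizer_iff.1 hg a).1 (h.1 ha)
  · have hcard : Nat.card (A.map (MulAut.conj g).toMonoidHom) = Nat.card A :=
      Nat.card_congr (Subgroup.equivMapOfInjective A _ (MulAut.conj g).injective).toEquiv.symm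
    rw [hcard]
    have hcB : Nat.card (B.map (MulAut.conj g⁻¹).toMonoidHom) = Nat.card B :=
      Nat.card_congr (Subgroup.equivMapOfInjective B _ (MulAut.conj g⁻¹).injective).toEquiv.symm
    rw [← hcB]
    refine h.2.2 _ ?_ (hE.map_conj _)
    rintro _ ⟨c, hc, rfl⟩
    exact (Subgroup.mem_normalizer_iff.1 (Subgroup.inv_mem _ hg) c).1 (hB hc)

/-- The normalizer of `T` normalizes `J(T)`. -/
theorem normalizer_le_JJ (T : Subgroup M) :
    Subgroup.normalizer (T : Set M) ≤ Subgroup.normalizer (JJ T : Set M) := by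
  have key : ∀ {g : M}, g ∈ Subgroup.normalizer (T : Set M) → ∀ x ∈ JJ T, g * x * g⁻¹ ∈ JJ T := by
    intro g hg x hx
    have hle : JJ T ≤ (JJ T).comap (MulAut.conj g).toMonoidHom := by
      refine sSup_le fun A hA a ha => ?_
      show (MulAut.conj g).toMonoidHom a ∈ JJ T
      exact (IsMaxEA.conj hA hg).le_JJ ⟨a, ha, rfl⟩
    exact hle hx
  intro g hg
  rw [Subgroup.mem_normalizer_iff]
  intro x
  refine ⟨key hg x, fun h => ?_⟩
  have := key (Subgroup.inv_mem _ hg) _ h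
  simpa [mul_assoc] using this

theorem mem_sup_omegaZ {A P : Subgroup M} (hAP : A ≤ P) {x : M} (hx : x ∈ A ⊔ omegaZ P) :
    ∃ a ∈ A, ∃ v ∈ omegaZ P, x = a * v := by
  have hle : omegaZ P ≤ Subgroup.normalizer (A : Set M) := by
    intro v hv
    rw [Subgroup.mem_normalizer_iff]
    intro a
    have hcomm : ∀ {a : M}, a ∈ P → v * a * v⁻¹ = a := by
      intro a ha
      rw [← omegaZ_comm hv ha]
      group
    constructor
    · intro ha
      rw [hcomm (hAP ha)]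
      exact ha
    · intro ha
      have h1 : a ∈ P := by
        have h2 := hAP ha
        have h3 := (Subgroup.mem_normalizer_iff.1 (Subgroup.le_normalizer (omegaZ_le P hv)) a).2 h2
        exact h3
      rw [hcomm h1] at ha
      exact ha
  have h := Subgroup.coe_mul_of_right_le_normalizer_left A (omegaZ P) hle
  have h2 : x ∈ ((A ⊔ omegaZ P : Subgroup M) : Set M) := hx
  rw [h, Set.mem_mul] at h2
  obtain ⟨a, ha, v, hv, rfl⟩ := h2
  exact ⟨a, ha, v, hv, rfl⟩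

theorem isEA_sup_omegaZ {A P : Subgroup M} (hAP : A ≤ P) (hA : IsEA A) : IsEA (A ⊔ omegaZ P) := by
  intro x hx
  obtain ⟨a, ha, v, hv, rfl⟩ := mem_sup_omegaZ hAP hx
  have h1 := omegaZ_comm hv (hAP ha)
  calc a * v * (a * v) = a * (v * a) * v := by group
    _ = a * (a * v) * v := by rw [h1.symm]
    _ = (a * a) * (v * v) := by group
    _ = 1 := by rw [hA a ha, hv.2.2, one_mul]

theorem sup_omegaZ_le {A P : Subgroup M} (hAP : A ≤ P) : A ⊔ omegaZ P ≤ P := sup_le hAP (omegaZ_le P)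

namespace Dat

variable {S : Sylow 2 M} {P : Subgroup M} {τ u : M} {r b : ℕ}

/-- The basic inequality. -/
theorem card_mul_m_le (D : Dat S P τ u r b) {A : Subgroup M} (hEA : IsEA A) (hAS : A ≤ S)
    (hAX : A ≤ Subgroup.normalizer (P : Set M)) {t : M} (htA : t ∈ A) (htP : t ∉ P) :
    Nat.card A * Nat.card (omegaZ P ⊓ Subgroup.centralizer ({u} : Set M) : Subgroup M)
      ≤ 2 * Nat.card ((A ⊓ P) ⊔ omegaZ P : Subgroup M) := by
  set m := Nat.card (omegaZ P ⊓ Subgroup.centralizer ({u} : Set M) : Subgroup M) with hm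
  have ht2 := hEA t htA
  have hm2 : m * m = Nat.card (omegaZ P) := by rw [← sq]; exact D.V_sq
  have hcard : Nat.card A ≤ 2 * Nat.card (A ⊓ P : Subgroup M) := by
    refine card_le_two_mul (t := t) (fun s hs hsP => ⟨A.mul_mem hs htA, ?_⟩)
    obtain ⟨k, hk⟩ := D.two_of_mem ((S : Subgroup M).mul_mem (hAS hs) (hAS htA))
    exact D.toLocData.F3 (hAX hs) (hAX htA) (hEA s hs) ht2 hsP htP hk
  have hnorm : (A ⊓ P : Subgroup M) ≤ Subgroup.normalizer (omegaZ P : Set M) :=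
    fun x hx => D.P_norm_V hx.2
  have hsup := Cfsg.Agent.Lib.Solvable.WielandtHall.card_sup_mul_card_inf_of_le_normalizer hnorm
  have hinf : Nat.card ((A ⊓ P) ⊓ omegaZ P : Subgroup M) ≤ m := by
    rw [hm, ← D.card_cent_V_t (hAS htA) (hAX htA) ht2 htP]
    apply Subgroup.card_le_of_le
    intro x hx
    refine ⟨hx.2, Subgroup.mem_centralizer_singleton_iff.2 ?_⟩
    exact comm_of_sq hEA hx.1.1 htA
  have hmpos : 0 < m := by
    rw [hm]; exact Nat.card_pos
  have h1 : Nat.card (A ⊓ P : Subgroup M) * m ≤ Nat.card ((A ⊓ P) ⊔ omegaZ P : Subgroup M) := by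
    have h2 : Nat.card (A ⊓ P : Subgroup M) * (m * m) ≤ Nat.card ((A ⊓ P) ⊔ omegaZ P : Subgroup M) * m := by
      rw [hm2, ← hsup]
      exact Nat.mul_le_mul_left _ hinf
    have h3 : (Nat.card (A ⊓ P : Subgroup M) * m) * m ≤ Nat.card ((A ⊓ P) ⊔ omegaZ P : Subgroup M) * m := by
      rw [mul_assoc]; exact h2
    exact Nat.le_of_mul_le_mul_right h3 hmpos
  calc Nat.card A * m ≤ (2 * Nat.card (A ⊓ P : Subgroup M)) * m := Nat.mul_le_mul_right _ hcard
    _ = 2 * (Nat.card (A ⊓ P : Subgroup M) * m) := by ring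
    _ ≤ _ := Nat.mul_le_mul_left _ h1

theorem four_le_m (D : Dat S P τ u r b) (h16 : 16 ≤ Nat.card (omegaZ P)) :
    4 ≤ Nat.card (omegaZ P ⊓ Subgroup.centralizer ({u} : Set M) : Subgroup M) := by
  have h := D.V_sq
  by_contra hcon
  push Not at hcon
  have : (Nat.card (omegaZ P ⊓ Subgroup.centralizer ({u} : Set M) : Subgroup M)) ^ 2 ≤ 3 ^ 2 :=
    Nat.pow_le_pow_left (by omega) 2
  omega

theorem T_le (_D : Dat S P τ u r b) :
    ((S : Subgroup M) ⊓ Subgroup.normalizer (P : Set M) : Subgroup M) ≤ S := inf_le_left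

/-- Members of `𝒜(T)` lie in `P`. -/
theorem maxEA_le_P (D : Dat S P τ u r b) (h16 : 16 ≤ Nat.card (omegaZ P)) {A : Subgroup M}
    (hA : IsMaxEA ((S : Subgroup M) ⊓ Subgroup.normalizer (P : Set M)) A) : A ≤ P := by
  by_contra hcon
  obtain ⟨t, htA, htP⟩ := SetLike.not_le_iff_exists.1 hcon
  have hle := D.card_mul_m_le hA.2.1 (hA.1.trans inf_le_left) (hA.1.trans inf_le_right) htA htP
  have h4 := D.four_le_m h16
  have hmax := hA.2.2 ((A ⊓ P) ⊔ omegaZ P) ((sup_omegaZ_le inf_le_right).trans D.PT.le)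
    (isEA_sup_omegaZ inf_le_right (fun x hx => hA.2.1 x hx.1))
  have hpos : 0 < Nat.card A := Nat.card_pos
  have h5 : Nat.card A * 4 ≤ Nat.card A * Nat.card (omegaZ P ⊓ Subgroup.centralizer ({u} : Set M) : Subgroup M) :=
    Nat.mul_le_mul_left _ h4
  omega

theorem V_le_maxEA (D : Dat S P τ u r b) {A : Subgroup M} (hAP : A ≤ P) (hEA : IsEA A)
    (hmax : ∀ B : Subgroup M, B ≤ P → IsEA B → Nat.card B ≤ Nat.card A) : omegaZ P ≤ A := by
  have h1 := hmax (A ⊔ omegaZ P) (sup_omegaZ_le hAP) (isEA_sup_omegaZ hAP hEA)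
  have h2 : A = A ⊔ omegaZ P := Subgroup.eq_of_le_of_card_ge le_sup_left h1
  rw [h2]
  exact le_sup_right

/-- `𝒜(T) = 𝒜(P)`. -/
theorem maxEA_iff (D : Dat S P τ u r b) (h16 : 16 ≤ Nat.card (omegaZ P)) (A : Subgroup M) :
    IsMaxEA ((S : Subgroup M) ⊓ Subgroup.normalizer (P : Set M)) A ↔ IsMaxEA P A := by
  constructor
  · intro h
    exact ⟨D.maxEA_le_P h16 h, h.2.1, fun B hB hE => h.2.2 B (hB.trans D.PT.le) hE⟩
  · intro h
    refine ⟨h.1.trans D.PT.le, h.2.1, fun B hB hE => ?_⟩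
    obtain ⟨A', hA'⟩ := exists_maxEA ((S : Subgroup M) ⊓ Subgroup.normalizer (P : Set M))
    exact (hA'.2.2 B hB hE).trans (h.2.2 A' (D.maxEA_le_P h16 hA') hA'.2.1)

theorem JJ_eq (D : Dat S P τ u r b) (h16 : 16 ≤ Nat.card (omegaZ P)) :
    JJ ((S : Subgroup M) ⊓ Subgroup.normalizer (P : Set M)) = JJ P := by
  unfold JJ
  congr 1
  ext A
  exact D.maxEA_iff h16 A

theorem JJ_ne_bot (D : Dat S P τ u r b) : JJ P ≠ ⊥ := by
  obtain ⟨A, hA⟩ := exists_maxEA P
  have h1 := D.V_le_maxEA hA.1 hA.2.1 hA.2.2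
  intro h
  have h2 := h1.trans hA.le_JJ
  rw [h, le_bot_iff] at h2
  exact omegaZ_ne_bot D.p2 D.p1 h2

theorem normalizer_JJ (hIH : IHyp.{u} (Nat.card M)) (D : Dat S P τ u r b) :
    Subgroup.normalizer (JJ P : Set M) = Subgroup.normalizer (P : Set M) :=
  D.toLocData.normalizer_eq hIH (JJ_le P) D.JJ_ne_bot (normalizer_le_JJ P)

/-- `N_S(P) = S` when `|V| ≥ 16`. -/
theorem S_le_X (hIH : IHyp.{u} (Nat.card M)) (D : Dat S P τ u r b) (h16 : 16 ≤ Nat.card (omegaZ P)) :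
    (S : Subgroup M) ≤ Subgroup.normalizer (P : Set M) := by
  classical
  haveI : Fact (Nat.Prime 2) := ⟨Nat.prime_two⟩
  by_contra hcon
  set T := (S : Subgroup M) ⊓ Subgroup.normalizer (P : Set M) with hT
  have hTS : T < (S : Subgroup M) :=
    lt_of_le_of_ne inf_le_left (fun h => hcon (h ▸ inf_le_right))
  obtain ⟨y, hyS, hyT, hyN⟩ := exists_mem_normalizer_not_mem S.2 hTS
  have h1 := normalizer_le_JJ T hyN
  rw [hT, D.JJ_eq h16, D.normalizer_JJ hIH] at h1
  exact hyT ⟨hyS, h1⟩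

/-- `N(S) = S` when `|V| ≥ 16`. -/
theorem normalizer_S (hIH : IHyp.{u} (Nat.card M)) (D : Dat S P τ u r b) (h16 : 16 ≤ Nat.card (omegaZ P))
    {g : M} (hg : g ∈ Subgroup.normalizer ((S : Subgroup M) : Set M)) : g ∈ (S : Subgroup M) := by
  have hSX := D.S_le_X hIH h16
  have hT : (S : Subgroup M) ⊓ Subgroup.normalizer (P : Set M) = S := inf_eq_left.2 hSX
  have h1 := normalizer_le_JJ (S : Subgroup M) hg
  have hJ := D.JJ_eq h16
  rw [hT] at hJ
  rw [hJ, D.normalizer_JJ hIH] at h1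
  have h2 : g ∈ (S : Subgroup M) ⊓ Subgroup.normalizer (P : Set M) :=
    D.toLocData.normalizer_T D.PT inf_le_right (IsPGroup.to_le S.2 inf_le_left) D.Tmax h1 (by rw [hT]; exact hg)
  exact h2.1

end Dat

end Cfsg.Agent.Lib.EPPO7
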