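import Cfsg.Agent.Lib.EPPO7.Basic

/-!
# The structure lemma for sections over a normal 2-subgroup
-/

set_option autoImplicit false
set_option linter.style.haveILetI false

namespace Cfsg.Agent.Lib.EPPO7

universe u

/-- The induction hypothesis in the form used. -/
def IHyp (n : ℕ) : Prop :=
  ∀ (Y : Type u) [Group Y] [Finite Y], Nat.card Y < n → PP Y → 3 ≤ (Nat.card Y).primeFactors.card →
    ∃ A : Subgroup Y, Nat.card A = 21

theorem IHyp.mono {n m : ℕ} (h : IHyp.{u} n) (hm : m ≤ n) : IHyp.{u} m :=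
  fun Y _ _ hY => h Y (lt_of_lt_of_le hY hm)

theorem exists_pq_of_primeFactors_card {n : ℕ} (hn : n ≠ 0) (h : n.primeFactors.card ≤ 2) :
    ∃ p q a b : ℕ, p.Prime ∧ q.Prime ∧ n = p ^ a * q ^ b := by
  have hprod : ∏ p ∈ n.primeFactors, p ^ n.factorization p = n := by
    have := Nat.factorization_prod_pow_eq_self hn
    rwa [Finsupp.prod, Nat.support_factorization] at this
  have hc : n.primeFactors.card = 0 ∨ n.primeFactors.card = 1 ∨ n.primeFactors.card = 2 := by omega
  rcases hc with h0 | h1 | h2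
  · rw [Finset.card_eq_zero] at h0
    rw [h0] at hprod
    simp at hprod
    exact ⟨2, 2, 0, 0, Nat.prime_two, Nat.prime_two, by simp [← hprod]⟩
  · obtain ⟨p, hp⟩ := Finset.card_eq_one.1 h1
    have hpp : p.Prime := Nat.prime_of_mem_primeFactors (by rw [hp]; simp)
    rw [hp] at hprod
    simp at hprod
    exact ⟨p, 2, n.factorization p, 0, hpp, Nat.prime_two, by simp [hprod]⟩
  · obtain ⟨p, q, hpq, hp⟩ := Finset.card_eq_two.1 h2
    have hpp : p.Prime := Nat.prime_of_mem_primeFactors (by rw [hp]; simp)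
    have hqp : q.Prime := Nat.prime_of_mem_primeFactors (by rw [hp]; simp)
    rw [hp, Finset.prod_pair hpq] at hprod
    exact ⟨p, q, _, _, hpp, hqp, hprod.symm⟩

theorem struct_type {L : Type u} [Group L] [Finite L] (hL : PP L) (hIH : IHyp.{u} (Nat.card L))
    (B : Subgroup L) [B.Normal] (h2 : IsPGroup 2 B) (h1 : B ≠ ⊥)
    (hmax : ∀ N : Subgroup L, N.Normal → IsPGroup 2 N → N ≤ B) (hne : B ≠ ⊤) :
    ∃ (r : ℕ) (τ : L) (b : ℕ), r.Prime ∧ r ≠ 2 ∧ orderOf τ = r ∧
      (∀ g : L, ∃ i : ℕ, g * τ * g⁻¹ * (τ ^ i)⁻¹ ∈ B) ∧ Nat.card L = Nat.card B * (r * 2 ^ b) := by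
  classical
  haveI : Fact (Nat.Prime 2) := ⟨Nat.prime_two⟩
  have hY : PP (L ⧸ B) := hL.of_surjective (QuotientGroup.mk' B) (QuotientGroup.mk'_surjective B)
  haveI hnt : Nontrivial (L ⧸ B) := by
    by_contra hcon
    rw [not_nontrivial_iff_subsingleton] at hcon
    exact hne (QuotientGroup.subgroup_eq_top_of_subsingleton B hcon)
  have hcardL : Nat.card L = Nat.card (L ⧸ B) * Nat.card B :=
    Subgroup.card_eq_card_quotient_mul_card_subgroup B
  have hlt : Nat.card (L ⧸ B) < Nat.card L := by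
    have h3 : 1 < Nat.card B := (Subgroup.one_lt_card_iff_ne_bot B).2 h1
    have h4 : 0 < Nat.card (L ⧸ B) := Nat.card_pos
    rw [hcardL]
    nlinarith
  have hnoq := fun (A : Subgroup (L ⧸ B)) {p q : ℕ} => no_pq hL B h2 h1 A (p := p) (q := q)
  have hprimes : (Nat.card (L ⧸ B)).primeFactors.card ≤ 2 := by
    by_contra hcon
    obtain ⟨A, hA⟩ := hIH _ hlt hY (by omega)
    exact hnoq A (p := 3) (q := 7) Nat.prime_three (by norm_num) (by norm_num) (by norm_num) (by simpa using hA)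
  obtain ⟨p, q, a, b, hp, hq, hpq⟩ := exists_pq_of_primeFactors_card Nat.card_pos.ne' hprimes
  haveI hsolv : Group.IsSolvable (L ⧸ B) := Cfsg.Agent.S0144.result p q a b hp hq hpq
  obtain ⟨A, hAn, hAb, hAc⟩ := Cfsg.Agent.Lib.PermMod.PrimeNormal.exists_abelian_normal (G := L ⧸ B)
  -- no nontrivial normal 2-subgroup in the quotient
  have hO2 : ∀ N : Subgroup (L ⧸ B), N.Normal → IsPGroup 2 N → N = ⊥ := by
    intro N hN hN2
    have hc : N.comap (QuotientGroup.mk' B) ≤ B := by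
      apply hmax
      · exact Subgroup.Normal.comap hN _
      · obtain ⟨m, hm⟩ := IsPGroup.iff_card.1 h2
        obtain ⟨k, hk⟩ := IsPGroup.iff_card.1 hN2
        rw [IsPGroup.iff_card]
        exact ⟨m + k, by rw [card_comap_mk, hm, hk, pow_add]⟩
    rw [eq_bot_iff]
    intro x hx
    obtain ⟨l, rfl⟩ := QuotientGroup.mk'_surjective B x
    have := hc (show l ∈ N.comap (QuotientGroup.mk' B) from hx)
    exact (QuotientGroup.eq_one_iff l).2 this
  -- an element of odd prime order in `A`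
  obtain ⟨a₀, ha₀A, ha₀⟩ : ∃ a₀ ∈ A, ¬ ∃ k : ℕ, orderOf a₀ = 2 ^ k := by
    by_contra hcon
    push Not at hcon
    exact hAb (hO2 A hAn (isPGroup_of_forall hcon))
  have ha₀1 : a₀ ≠ 1 := by
    rintro rfl
    exact ha₀ ⟨0, by simp⟩
  obtain ⟨hrp, hr2, -⟩ : (orderOf a₀).Prime ∧ orderOf a₀ ≠ 2 ∧ orderOf a₀ ≠ 5 := by
    rcases hY.dichotomy ha₀1 with ⟨k, -, hk⟩ | h
    · exact absurd ⟨k, hk⟩ ha₀
    · exact h
  set r := orderOf a₀ with hr
  haveI : Fact r.Prime := ⟨hrp⟩
  have hAelem : ∀ x ∈ A, x ≠ 1 → orderOf x = r := by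
    intro x hx hx1
    have hcomm : Commute a₀ x := by
      have := (hAc.is_comm.comm ⟨a₀, ha₀A⟩ ⟨x, hx⟩)
      exact congrArg Subtype.val this
    exact hY.eq_of_commute_odd hcomm hrp hr2 hx1
  have hApg : IsPGroup r A := by
    rw [IsPGroup.iff_orderOf]
    intro x
    by_cases hx : (x : L ⧸ B) = 1
    · exact ⟨0, by simp [Subtype.ext_iff, orderOf_eq_one_iff, hx]⟩
    · refine ⟨1, ?_⟩
      have h3 := hAelem x x.2 hx
      rw [Subgroup.orderOf_coe] at h3
      rw [h3]; simp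
  obtain ⟨m, hm⟩ := IsPGroup.iff_card.1 hApg
  have hm1 : m = 1 := by
    by_contra hne1
    have hm0 : m ≠ 0 := by
      rintro rfl
      have : Nat.card A = 1 := by simpa using hm
      exact hAb (Subgroup.eq_bot_of_card_eq A this)
    have hm2 : 2 ≤ m := by omega
    obtain ⟨K, hK⟩ := Sylow.exists_subgroup_card_pow_prime (G := A) r
      (n := 2) (by rw [hm]; exact pow_dvd_pow _ hm2)
    have hK' : Nat.card (K.map A.subtype) = r * r := by
      rw [← sq, ← hK]
      exact Nat.card_congr (Subgroup.equivMapOfInjective K A.subtype A.subtype_injective).toEquiv.symm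
    exact hnoq _ hrp hrp hr2 hr2 hK'
  subst hm1
  have hcardA : Nat.card A = r := by simpa using hm
  have hAz : A = Subgroup.zpowers a₀ := by
    symm
    apply Subgroup.eq_of_le_of_card_ge ((Subgroup.zpowers_le).2 ha₀A)
    rw [hcardA, Nat.card_zpowers]
  -- the primes of the quotient
  have hprimes2 : ∀ s : ℕ, s.Prime → s ∣ Nat.card (L ⧸ B) → s = 2 ∨ s = r := by
    intro s hs hsd
    by_contra hcon
    push Not at hcon
    haveI : Fact s.Prime := ⟨hs⟩
    obtain ⟨y, hy⟩ := exists_prime_orderOf_dvd_card' s hsd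
    have hco : (Nat.card (Subgroup.zpowers y)).Coprime (Nat.card A) := by
      rw [Nat.card_zpowers, hy, hcardA]
      exact (Nat.coprime_primes hs hrp).2 hcon.2
    have hinf : Subgroup.zpowers y ⊓ A = ⊥ := Subgroup.inf_eq_bot_of_coprime hco
    have h5 := Cfsg.Agent.Lib.Solvable.WielandtHall.card_sup_mul_card_inf_of_le_normalizer
      (Y := Subgroup.zpowers y) (D := A) (Subgroup.le_normalizer_of_normal)
    rw [hinf, Subgroup.card_bot, mul_one, Nat.card_zpowers, hy, hcardA] at h5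
    exact hnoq _ hs hrp hcon.1 hr2 h5
  have hrsq : ¬ r ^ 2 ∣ Nat.card (L ⧸ B) := by
    intro hd
    obtain ⟨K, hK⟩ := Sylow.exists_subgroup_card_pow_prime (G := L ⧸ B) r (n := 2) hd
    exact hnoq K hrp hrp hr2 hr2 (by rw [hK, sq])
  have hrd : r ∣ Nat.card (L ⧸ B) := by
    rw [← hcardA]
    exact Subgroup.card_subgroup_dvd_card A
  obtain ⟨n, hn⟩ := hrd
  have hn0 : n ≠ 0 := by
    rintro rfl
    have h5 : 0 < Nat.card (L ⧸ B) := Nat.card_pos
    rw [hn] at h5
    simp at h5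
  have hn2 : ∃ c : ℕ, n = 2 ^ c := by
    refine ⟨_, Nat.eq_prime_pow_of_unique_prime_dvd hn0 ?_⟩
    intro d hd hdn
    rcases hprimes2 d hd (by rw [hn]; exact Dvd.dvd.mul_left hdn _) with h | h
    · exact h
    · exfalso
      apply hrsq
      rw [hn, sq, ← h]
      exact Nat.mul_dvd_mul_left _ hdn
  obtain ⟨c, rfl⟩ := hn2
  -- the lift
  obtain ⟨τ, hτ⟩ := QuotientGroup.mk'_surjective B a₀
  have hτ1 : τ ≠ 1 := by
    rintro rfl
    apply ha₀1
    rw [← hτ, map_one]
  have hτord : orderOf τ = r := by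
    have hd : r ∣ orderOf τ := by
      rw [hr, ← hτ]
      exact orderOf_map_dvd _ _
    rcases hL.dichotomy hτ1 with ⟨k, -, hk⟩ | ⟨hp', -, -⟩
    · rw [hk] at hd
      exact absurd ((Nat.prime_dvd_prime_iff_eq hrp Nat.prime_two).1 (hrp.dvd_of_dvd_pow hd)) hr2
    · exact ((Nat.prime_dvd_prime_iff_eq hrp hp').1 hd).symm
  refine ⟨r, τ, c, hrp, hr2, hτord, ?_, ?_⟩
  · intro g
    have hmem : QuotientGroup.mk' B g * a₀ * (QuotientGroup.mk' B g)⁻¹ ∈ A := hAn.conj_mem _ ha₀A _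
    rw [hAz] at hmem
    obtain ⟨i, hi⟩ := mem_powers_iff_mem_zpowers.2 hmem
    refine ⟨i, ?_⟩
    rw [← QuotientGroup.eq_one_iff]
    have : ((g * τ * g⁻¹ * (τ ^ i)⁻¹ : L) : L ⧸ B)
        = QuotientGroup.mk' B g * QuotientGroup.mk' B τ * (QuotientGroup.mk' B g)⁻¹ * ((QuotientGroup.mk' B τ) ^ i)⁻¹ := by
      simp
    rw [this, hτ, ← hi]
    simp
  · rw [hcardL, hn]
    ring

/-- The data attached to a subgroup `X` and its largest normal 2-subgroup `P`. -/
structure LocData {M : Type u} [Group M] (X P : Subgroup M) (τ : M) (r b : ℕ) : Prop where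
  pp : PP M
  p2 : IsPGroup 2 P
  p1 : P ≠ ⊥
  PX : P ≤ X
  Xn : X ≤ Subgroup.normalizer (P : Set M)
  rp : r.Prime
  r2 : r ≠ 2
  τX : τ ∈ X
  ord : orderOf τ = r
  norm : ∀ g ∈ X, ∃ i : ℕ, g * τ * g⁻¹ * (τ ^ i)⁻¹ ∈ P
  card : Nat.card X = Nat.card P * (r * 2 ^ b)
  max : ∀ N : Subgroup M, N ≤ X → X ≤ Subgroup.normalizer (N : Set M) → IsPGroup 2 N → N ≤ P

theorem exists_locData {M : Type u} [Group M] [Finite M] (hM : PP M) (hIH : IHyp.{u} (Nat.card M))
    (X P : Subgroup M) (hPX : P ≤ X) (hXn : X ≤ Subgroup.normalizer (P : Set M))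
    (h2 : IsPGroup 2 P) (h1 : P ≠ ⊥)
    (hmax : ∀ N : Subgroup M, N ≤ X → X ≤ Subgroup.normalizer (N : Set M) → IsPGroup 2 N → N ≤ P)
    (hne : P ≠ X) : ∃ τ r b, LocData X P τ r b := by
  classical
  haveI : (P.subgroupOf X).Normal := (Subgroup.normal_subgroupOf_iff_le_normalizer hPX).2 hXn
  have hcardP : Nat.card (P.subgroupOf X) = Nat.card P :=
    Nat.card_congr (Subgroup.subgroupOfEquivOfLe hPX).toEquiv
  obtain ⟨r, τ, b, hr, hr2, hτ, hnorm, hcard⟩ := struct_type (L := X) (hM.subgroup X)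
    (hIH.mono (Subgroup.card_le_card_group X)) (P.subgroupOf X)
    (h2.of_equiv (Subgroup.subgroupOfEquivOfLe hPX).symm)
    (by
      intro hb
      apply h1
      rw [eq_bot_iff]
      intro x hx
      have : (⟨x, hPX hx⟩ : X) ∈ P.subgroupOf X := by
        rw [Subgroup.mem_subgroupOf]; exact hx
      rw [hb, Subgroup.mem_bot] at this
      exact congrArg Subtype.val this)
    (by
      intro N hN hN2
      have hle := hmax (N.map X.subtype) (Subgroup.map_subtype_le N)
        (by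
          intro g hg
          rw [Subgroup.mem_normalizer_iff]
          intro x
          constructor
          · rintro ⟨y, hy, rfl⟩
            refine ⟨⟨g, hg⟩ * y * ⟨g, hg⟩⁻¹, hN.conj_mem y hy _, by simp⟩
          · rintro ⟨y, hy, hyx⟩
            have hxX : x ∈ X := by
              have h3 : x = g⁻¹ * (y : M) * g := by
                have h4 : g * x * g⁻¹ = (y : M) := by simpa using hyx.symm
                rw [← h4]; group
              rw [h3]
              exact X.mul_mem (X.mul_mem (X.inv_mem hg) y.2) hg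
            refine ⟨⟨g, hg⟩⁻¹ * y * (⟨g, hg⟩⁻¹)⁻¹, hN.conj_mem y hy _, ?_⟩
            have h4 : g * x * g⁻¹ = (y : M) := by simpa using hyx.symm
            simp only [Subgroup.coe_subtype, Subgroup.coe_mul, Subgroup.coe_inv, inv_inv]
            rw [← h4]; group)
        (hN2.map X.subtype)
      intro x hx
      rw [Subgroup.mem_subgroupOf]
      exact hle ⟨x, hx, rfl⟩)
    (by
      intro ht
      apply hne
      apply le_antisymm hPX
      intro x hx
      have : (⟨x, hx⟩ : X) ∈ P.subgroupOf X := by rw [ht]; trivial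
      rwa [Subgroup.mem_subgroupOf] at this)
  refine ⟨τ, r, b, ⟨hM, h2, h1, hPX, hXn, hr, hr2, τ.2, ?_, ?_, ?_, hmax⟩⟩
  · rw [Subgroup.orderOf_coe]; exact hτ
  · intro g hg
    obtain ⟨i, hi⟩ := hnorm ⟨g, hg⟩
    refine ⟨i, ?_⟩
    rw [Subgroup.mem_subgroupOf] at hi
    simpa using hi
  · rw [hcard, hcardP]

end Cfsg.Agent.Lib.EPPO7
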