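import Cfsg.Agent.Lib.EPPO7.Rank
import Cfsg.Agent.S0215
import Cfsg.Agent.S1224
import Cfsg.Agent.S1225

/-!
# The case of TI Sylow 2-subgroups, I
-/

set_option autoImplicit false
set_option linter.style.haveILetI false

namespace Cfsg.Agent.Lib.EPPO7

universe u

variable {M : Type u} [Group M] [Finite M]

/-- The setup of the TI case. -/
structure TI (S : Sylow 2 M) : Prop where
  pp : PP M
  ne_bot : (S : Subgroup M) ≠ ⊥
  ti : ∀ S' : Sylow 2 M, S' ≠ S → (S : Subgroup M) ⊓ S' = ⊥
  ne_top : Subgroup.normalizer ((S : Subgroup M) : Set M) ≠ ⊤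

/-- The two-point stabilizer. -/
def DD (H : Subgroup M) (i : M) : Subgroup M := H ⊓ H.map (MulAut.conj i).toMonoidHom

theorem mem_map_conj {H : Subgroup M} {i x : M} : x ∈ H.map (MulAut.conj i).toMonoidHom ↔ i⁻¹ * x * i ∈ H := by
  constructor
  · rintro ⟨p, hp, rfl⟩
    simpa [mul_assoc] using hp
  · intro hx
    exact ⟨_, hx, by simp [mul_assoc]⟩

namespace TI

variable {S : Sylow 2 M}

/-- 2-elements of `N(S)` lie in `S`. -/
theorem mem_of_two {y : M} (hy : y ∈ Subgroup.normalizer ((S : Subgroup M) : Set M)) {k : ℕ}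
    (hk : orderOf y = 2 ^ k) : y ∈ (S : Subgroup M) := by
  have hZ2 : IsPGroup 2 (Subgroup.zpowers y) := by
    rw [IsPGroup.iff_card, Nat.card_zpowers, hk]
    exact ⟨k, rfl⟩
  have hQ := IsPGroup.to_sup_of_normal_right' hZ2 S.2 ((Subgroup.zpowers_le).2 hy)
  have heq := S.3 hQ le_sup_right
  rw [← heq]
  exact (le_sup_left : Subgroup.zpowers y ≤ _) (Subgroup.mem_zpowers y)

theorem stronglyEmbedded (T : TI S) :
    Cfsg.IsStronglyEmbedded (Subgroup.normalizer ((S : Subgroup M) : Set M)) := by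
  classical
  haveI : Fact (Nat.Prime 2) := ⟨Nat.prime_two⟩
  set H := Subgroup.normalizer ((S : Subgroup M) : Set M) with hH
  have hSH : (S : Subgroup M) ≤ H := Subgroup.le_normalizer
  refine ⟨T.ne_top, ?_, fun g hg => ?_⟩
  · obtain ⟨k, hk⟩ := IsPGroup.iff_card.1 S.2
    have hk0 : k ≠ 0 := by
      rintro rfl
      exact T.ne_bot (Subgroup.eq_bot_of_card_eq _ (by simpa using hk))
    have h1 : 2 ∣ Nat.card (S : Subgroup M) := by
      rw [hk]; exact dvd_pow_self 2 hk0
    exact even_iff_two_dvd.2 (h1.trans (Subgroup.card_dvd_of_le hSH))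
  · by_contra hodd
    rw [Nat.not_odd_iff_even] at hodd
    obtain ⟨y, hy⟩ := exists_prime_orderOf_dvd_card' 2 (even_iff_two_dvd.1 hodd)
    have hy1 : (y : M) ≠ 1 := by
      intro h
      have : y = 1 := Subtype.ext h
      rw [this, orderOf_one] at hy
      omega
    have hyord : orderOf (y : M) = 2 ^ 1 := by
      rw [pow_one, ← hy]; exact Subgroup.orderOf_coe y
    have hyH : (y : M) ∈ H := y.2.1
    have hyS := mem_of_two hyH hyord
    have hy' : g⁻¹ * y * g ∈ H := mem_map_conj.1 y.2.2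
    have hord' : orderOf (g⁻¹ * (y : M) * g) = 2 ^ 1 := by
      have : g⁻¹ * (y : M) * g = (MulAut.conj g⁻¹) (y : M) := by simp
      rw [this, MulEquiv.orderOf_eq]; exact hyord
    have hyS' := mem_of_two hy' hord'
    let S₁ : Sylow 2 M := (MulAut.conj g) • S
    have hyS₁ : (y : M) ∈ (S₁ : Subgroup M) := by
      have h1 : (S₁ : Subgroup M) = (S : Subgroup M).map (MulAut.conj g).toMonoidHom := rfl
      rw [h1, mem_map_conj]
      exact hyS'
    have hS₁ : S₁ = S := by
      by_contra hne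
      have := T.ti S₁ hne
      have h2 : (y : M) ∈ (S : Subgroup M) ⊓ (S₁ : Subgroup M) := ⟨hyS, hyS₁⟩
      rw [this, Subgroup.mem_bot] at h2
      exact hy1 h2
    apply hg
    have h1 : (S : Subgroup M).map (MulAut.conj g).toMonoidHom = S := congrArg (fun T : Sylow 2 M => (T : Subgroup M)) hS₁
    rw [hH, Subgroup.mem_normalizer_iff]
    intro x
    constructor
    · intro hx
      have : g * x * g⁻¹ ∈ (S : Subgroup M).map (MulAut.conj g).toMonoidHom := ⟨x, hx, rfl⟩
      rwa [h1] at this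
    · intro hx
      rw [← h1] at hx
      have h2 := mem_map_conj.1 hx
      simpa [mul_assoc] using h2

end TI

end Cfsg.Agent.Lib.EPPO7
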