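import Cfsg.Agent.Lib.EPPO7.TI1

/-!
# The case of TI Sylow 2-subgroups, II
-/

set_option autoImplicit false
set_option linter.style.haveILetI false

namespace Cfsg.Agent.Lib.EPPO7

universe u

variable {M : Type u} [Group M] [Finite M]

namespace TI

variable {S : Sylow 2 M}

theorem orderOf_conj' (g a : M) : orderOf (g * a * g⁻¹) = orderOf a := by
  have : g * a * g⁻¹ = (MulAut.conj g) a := by simp
  rw [this, MulEquiv.orderOf_eq]

/-- An involution outside `N(S)`. -/
theorem exists_involution [IsSimpleGroup M] (T : TI S) (hS : (S : Subgroup M) ≠ ⊤) :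
    ∃ i : M, orderOf i = 2 ∧ i ∉ Subgroup.normalizer ((S : Subgroup M) : Set M) := by
  classical
  by_contra hcon
  push Not at hcon
  have hle : ∀ i : M, orderOf i = 2 → i ∈ (S : Subgroup M) := fun i hi =>
    mem_of_two (hcon i hi) (by rw [pow_one]; exact hi)
  set N := Subgroup.normalClosure {x : M | orderOf x = 2} with hN
  have hNS : N ≤ (S : Subgroup M) := by
    rw [hN, Subgroup.normalClosure, Subgroup.closure_le]
    intro x hx
    obtain ⟨a, ha, hax⟩ := Group.mem_conjugatesOfSet_iff.1 hx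
    obtain ⟨c, rfl⟩ := isConj_iff.1 hax
    apply hle
    rw [orderOf_conj']
    exact ha
  obtain ⟨e, he, he1⟩ := (Subgroup.bot_or_exists_ne_one _).resolve_left (omegaZ_ne_bot S.2 T.ne_bot)
  have heo : orderOf e = 2 := orderOf_eq_prime (by rw [sq]; exact he.2.2) he1
  have heN : e ∈ N := Subgroup.subset_normalClosure heo
  have hNb : N ≠ ⊥ := by
    intro h
    rw [h, Subgroup.mem_bot] at heN
    exact he1 heN
  have hNt : N = ⊤ := (Subgroup.Normal.eq_bot_or_eq_top (inferInstance : N.Normal)).resolve_left hNb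
  apply hS
  rw [eq_top_iff, ← hNt]
  exact hNS

theorem exists_e (T : TI S) : ∃ e ∈ omegaZ (S : Subgroup M), e ≠ 1 ∧ orderOf e = 2 := by
  obtain ⟨e, he, he1⟩ := (Subgroup.bot_or_exists_ne_one _).resolve_left (omegaZ_ne_bot S.2 T.ne_bot)
  exact ⟨e, he, he1, orderOf_eq_prime (by rw [sq]; exact he.2.2) he1⟩

section one

variable (T : TI S) {i : M} (hi : orderOf i = 2)
  (hiH : i ∉ Subgroup.normalizer ((S : Subgroup M) : Set M))

include T hi

theorem i_sq : i * i = 1 := by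
  rw [← sq, ← hi]
  exact pow_orderOf_eq_one i

include hiH

theorem DD_odd : Odd (Nat.card (DD (Subgroup.normalizer ((S : Subgroup M) : Set M)) i)) :=
  (T.stronglyEmbedded).2.2 i hiH

theorem DD_orderOf_odd {d : M} (hd : d ∈ DD (Subgroup.normalizer ((S : Subgroup M) : Set M)) i) :
    Odd (orderOf d) := by
  have h1 := orderOf_dvd_natCard (⟨d, hd⟩ : DD (Subgroup.normalizer ((S : Subgroup M) : Set M)) i)
  rw [Subgroup.orderOf_mk] at h1
  exact Odd.of_dvd_nat (T.DD_odd hi hiH) h1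

theorem DD_conj {d : M} (hd : d ∈ DD (Subgroup.normalizer ((S : Subgroup M) : Set M)) i) :
    i * d * i⁻¹ ∈ DD (Subgroup.normalizer ((S : Subgroup M) : Set M)) i := by
  have h2 := T.i_sq hi
  have hinv : i⁻¹ = i := by rw [inv_eq_iff_mul_eq_one]; exact h2
  refine ⟨?_, ?_⟩
  · have h3 := mem_map_conj.1 hd.2
    rwa [hinv] at h3 ⊢
  · show i * d * i⁻¹ ∈ (Subgroup.normalizer ((S : Subgroup M) : Set M)).map (MulAut.conj i).toMonoidHom
    rw [mem_map_conj]
    have : i⁻¹ * (i * d * i⁻¹) * i = d := by group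
    rw [this]
    exact hd.1

theorem DD_fix {d : M} (hd : d ∈ DD (Subgroup.normalizer ((S : Subgroup M) : Set M)) i) (hf : i * d * i⁻¹ = d) : d = 1 := by
  have hc : Commute i d := by
    show i * d = d * i
    calc i * d = (i * d * i⁻¹) * i := by group
      _ = d * i := by rw [hf]
  have hco : (orderOf i).Coprime (orderOf d) := by
    rw [hi]
    exact Nat.coprime_two_left.2 (T.DD_orderOf_odd hi hiH hd)
  rcases T.pp.mixed hc hco with h | h
  · rw [h, orderOf_one] at hi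
    omega
  · exact h

/-- The involution inverts `D`. -/
theorem DD_inv {e : M} (he : e ∈ DD (Subgroup.normalizer ((S : Subgroup M) : Set M)) i) : i * e * i⁻¹ = e⁻¹ := by
  classical
  set D := DD (Subgroup.normalizer ((S : Subgroup M) : Set M)) i with hD
  let f : D → D := fun d => ⟨(d : M)⁻¹ * (i * d * i⁻¹), D.mul_mem (D.inv_mem d.2) (T.DD_conj hi hiH d.2)⟩
  have hinj : Function.Injective f := by
    intro a c hac
    have h1 : (a : M)⁻¹ * (i * a * i⁻¹) = (c : M)⁻¹ * (i * c * i⁻¹) := congrArg Subtype.val hac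
    set w : M := (c : M) * (a : M)⁻¹ with hw
    have hwD : w ∈ D := D.mul_mem c.2 (D.inv_mem a.2)
    have h2 : i * w * i⁻¹ = w := by
      have h3 : (c : M) * ((a : M)⁻¹ * (i * a * i⁻¹)) = i * c * i⁻¹ := by
        rw [h1]; group
      calc i * w * i⁻¹ = (i * c * i⁻¹) * (i * a * i⁻¹)⁻¹ := by rw [hw]; group
        _ = w := by rw [← h3, hw]; group
    have h3 := T.DD_fix hi hiH hwD h2
    have h4 : (c : M) = a := mul_inv_eq_one.1 h3
    exact (Subtype.ext h4).symm
  have hsurj := Finite.injective_iff_surjective.1 hinj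
  obtain ⟨d, hd⟩ := hsurj ⟨e, he⟩
  have hde : (d : M)⁻¹ * (i * d * i⁻¹) = e := congrArg Subtype.val hd
  have h2 := T.i_sq hi
  have hinv : i⁻¹ = i := by rw [inv_eq_iff_mul_eq_one]; exact h2
  rw [← hde]
  calc i * ((d : M)⁻¹ * (i * d * i⁻¹)) * i⁻¹ = (i * (d : M)⁻¹ * i⁻¹) * ((i * i) * d * (i * i)⁻¹) := by
        group
    _ = (i * (d : M)⁻¹ * i⁻¹) * d := by rw [h2]; simp
    _ = ((d : M)⁻¹ * (i * d * i⁻¹))⁻¹ := by group

theorem DD_comm {a c : M} (ha : a ∈ DD (Subgroup.normalizer ((S : Subgroup M) : Set M)) i)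
    (hc : c ∈ DD (Subgroup.normalizer ((S : Subgroup M) : Set M)) i) : a * c = c * a := by
  have h1 := T.DD_inv hi hiH ((DD _ i).mul_mem ha hc)
  have h2 : i * (a * c) * i⁻¹ = (i * a * i⁻¹) * (i * c * i⁻¹) := by group
  rw [h2, T.DD_inv hi hiH ha, T.DD_inv hi hiH hc] at h1
  have h3 : a⁻¹ * c⁻¹ = (c * a)⁻¹ := by group
  have h4 : (c * a)⁻¹ = (a * c)⁻¹ := by rw [← h3]; exact h1
  exact (inv_injective h4).symm

theorem DD_cyclic : IsCyclic (DD (Subgroup.normalizer ((S : Subgroup M) : Set M)) i) := by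
  classical
  set D := DD (Subgroup.normalizer ((S : Subgroup M) : Set M)) i with hD
  haveI hVc : IsMulCommutative (omegaZ (S : Subgroup M)) := by
    refine ⟨⟨fun x y => ?_⟩⟩
    apply Subtype.ext
    exact comm_of_sq (W := omegaZ (S : Subgroup M)) (fun y hy => hy.2.2) x.2 y.2
  haveI hDc : IsMulCommutative D := by
    refine ⟨⟨fun x y => ?_⟩⟩
    apply Subtype.ext
    exact T.DD_comm hi hiH x.2 y.2
  refine Cfsg.Agent.S0041.result D (omegaZ (S : Subgroup M)) (omegaZ_ne_bot S.2 T.ne_bot)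
    (fun d hd => normalizer_le_omegaZ _ hd.1) ?_ (Or.inl hDc)
  intro a ha ha1
  rw [eq_bot_iff]
  intro v hv
  rw [Subgroup.mem_bot]
  have hv2 := hv.1.2.2
  have hcomm : Commute v a := Subgroup.mem_centralizer_singleton_iff.1 hv.2
  have hd : orderOf v ∣ 2 := orderOf_dvd_of_pow_eq_one (by rw [sq]; exact hv2)
  have hco : (orderOf v).Coprime (orderOf a) :=
    Nat.Coprime.coprime_dvd_left hd (Nat.coprime_two_left.2 (T.DD_orderOf_odd hi hiH ha))
  rcases T.pp.mixed hcomm hco with h | h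
  · exact h
  · exact absurd h ha1

theorem DD_prime (hne : DD (Subgroup.normalizer ((S : Subgroup M) : Set M)) i ≠ ⊥) :
    (Nat.card (DD (Subgroup.normalizer ((S : Subgroup M) : Set M)) i)).Prime := by
  classical
  haveI := T.DD_cyclic hi hiH
  obtain ⟨g, hg⟩ := isCyclic_iff_exists_orderOf_eq_natCard.1
    (inferInstance : IsCyclic (DD (Subgroup.normalizer ((S : Subgroup M) : Set M)) i))
  rw [← hg, ← Subgroup.orderOf_coe]
  have hg1 : (g : M) ≠ 1 := by
    intro h
    have h1 : orderOf g = 1 := by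
      rw [orderOf_eq_one_iff]
      exact Subtype.ext h
    rw [h1] at hg
    exact hne (Subgroup.eq_bot_of_card_eq _ hg.symm)
  rcases T.pp.dichotomy hg1 with ⟨k, hk0, hk⟩ | ⟨hp, -, -⟩
  · exfalso
    have h1 := T.DD_orderOf_odd hi hiH g.2
    rw [hk] at h1
    exact (Nat.not_even_iff_odd.2 h1) ((Nat.even_pow.2 ⟨even_two, hk0⟩))
  · exact hp

theorem DD_inf_S : (DD (Subgroup.normalizer ((S : Subgroup M) : Set M)) i) ⊓ (S : Subgroup M) = ⊥ := by
  apply Subgroup.inf_eq_bot_of_coprime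
  obtain ⟨k, hk⟩ := IsPGroup.iff_card.1 S.2
  rw [hk]
  exact Nat.Coprime.pow_right _ (Nat.coprime_two_right.2 (T.DD_odd hi hiH))

end one

/-- Two distinct involutions in `S`, by the `Z*`-theorem. -/
theorem two_involutions [IsSimpleGroup M] (T : TI S) (hnc : ∃ a b : M, a * b ≠ b * a) (heven : Even (Nat.card M)) :
    ∃ s t : M, orderOf s = 2 ∧ orderOf t = 2 ∧ s ∈ (S : Subgroup M) ∧ t ∈ (S : Subgroup M) ∧ s ≠ t := by
  classical
  by_contra hcon
  push Not at hcon
  obtain ⟨e, he, he1, heo⟩ := T.exists_e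
  have heS := omegaZ_le _ he
  obtain ⟨N, hN, hNo, hNc⟩ := Cfsg.Agent.S0215.result S e heo heS (by
    intro g hg
    have h1 : orderOf (g * e * g⁻¹) = 2 := by
      rw [orderOf_conj', heo]
    exact hcon _ _ h1 heo hg heS)
  rcases hN.eq_bot_or_eq_top with hb | ht
  · -- `e` is central
    have hcen : ∀ g : M, e * g = g * e := by
      intro g
      have h1 := hNc g
      rw [hb, Subgroup.mem_bot] at h1
      have h2 : e * g * e⁻¹ = g := mul_inv_eq_one.1 h1
      calc e * g = (e * g * e⁻¹) * e := by group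
        _ = g * e := by rw [h2]
    have hcb : Subgroup.center M ≠ ⊥ := by
      intro hb2
      have : e ∈ Subgroup.center M := by
        rw [Subgroup.mem_center_iff]
        exact fun g => (hcen g).symm
      rw [hb2, Subgroup.mem_bot] at this
      exact he1 this
    have hct : Subgroup.center M = ⊤ :=
      (Subgroup.Normal.eq_bot_or_eq_top (inferInstance : (Subgroup.center M).Normal)).resolve_left hcb
    obtain ⟨a, b, hab⟩ := hnc
    apply hab
    have : a ∈ Subgroup.center M := by rw [hct]; trivial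
    exact (Subgroup.mem_center_iff.1 this b).symm
  · rw [ht, Subgroup.card_top] at hNo
    exact (Nat.not_even_iff_odd.2 hNo) heven

section two

variable (T : TI S) {i : M} (hi : orderOf i = 2)
  (hiH : i ∉ Subgroup.normalizer ((S : Subgroup M) : Set M))

include T hi hiH

theorem DD_ne_bot (h2 : ∃ s t : M, orderOf s = 2 ∧ orderOf t = 2 ∧ s ∈ (S : Subgroup M) ∧ t ∈ (S : Subgroup M) ∧ s ≠ t) :
    DD (Subgroup.normalizer ((S : Subgroup M) : Set M)) i ≠ ⊥ := by
  obtain ⟨s, t, hs, ht, hsS, htS, hst⟩ := h2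
  obtain ⟨⟨d, hd, hdst⟩, -⟩ := Cfsg.Agent.S1225.result _ T.stronglyEmbedded i hi hiH s t hs
    (Subgroup.le_normalizer hsS) ht (Subgroup.le_normalizer htS)
  intro hb
  have hd' : d ∈ DD (Subgroup.normalizer ((S : Subgroup M) : Set M)) i := hd
  rw [hb, Subgroup.mem_bot] at hd'
  rw [hd'] at hdst
  simp at hdst
  exact hst hdst

/-- `H = D S`. -/
theorem decomp {h : M} (hh : h ∈ Subgroup.normalizer ((S : Subgroup M) : Set M)) :
    ∃ d ∈ DD (Subgroup.normalizer ((S : Subgroup M) : Set M)) i, d⁻¹ * h ∈ (S : Subgroup M) := by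
  obtain ⟨e, he, he1, heo⟩ := T.exists_e
  have heS := omegaZ_le _ he
  have h1 : orderOf (h * e * h⁻¹) = 2 := by
    rw [orderOf_conj', heo]
  have h2 : h * e * h⁻¹ ∈ (S : Subgroup M) := (Subgroup.mem_normalizer_iff.1 hh e).1 heS
  obtain ⟨⟨d, hd, hde⟩, -⟩ := Cfsg.Agent.S1225.result _ T.stronglyEmbedded i hi hiH e (h * e * h⁻¹) heo
    (Subgroup.le_normalizer heS) h1 (Subgroup.le_normalizer h2)
  refine ⟨d, hd, ?_⟩
  have hcomm : Commute e (d⁻¹ * h) := by
    show e * (d⁻¹ * h) = (d⁻¹ * h) * e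
    have h3 : (d⁻¹ * h) * e * (d⁻¹ * h)⁻¹ = e := by
      calc (d⁻¹ * h) * e * (d⁻¹ * h)⁻¹ = d⁻¹ * (h * e * h⁻¹) * d := by group
        _ = d⁻¹ * (d * e * d⁻¹) * d := by rw [hde]
        _ = e := by group
    calc e * (d⁻¹ * h) = ((d⁻¹ * h) * e * (d⁻¹ * h)⁻¹) * (d⁻¹ * h) := by rw [h3]
      _ = (d⁻¹ * h) * e := by group
  obtain ⟨j, hj⟩ := T.pp.two_of_commute hcomm he1 (by rw [pow_one]; exact heo)
  exact mem_of_two ((Subgroup.normalizer _).mul_mem ((Subgroup.normalizer _).inv_mem hd.1) hh) hj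

theorem card_H : Nat.card (Subgroup.normalizer ((S : Subgroup M) : Set M))
    = Nat.card (DD (Subgroup.normalizer ((S : Subgroup M) : Set M)) i) * Nat.card (S : Subgroup M) := by
  have hle : DD (Subgroup.normalizer ((S : Subgroup M) : Set M)) i ≤ Subgroup.normalizer ((S : Subgroup M) : Set M) := inf_le_left
  have h1 := Cfsg.Agent.Lib.Solvable.WielandtHall.card_sup_mul_card_inf_of_le_normalizer hle
  rw [T.DD_inf_S hi hiH, Subgroup.card_bot, mul_one] at h1
  rw [← h1]
  have heq : DD (Subgroup.normalizer ((S : Subgroup M) : Set M)) i ⊔ (S : Subgroup M)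
      = Subgroup.normalizer ((S : Subgroup M) : Set M) := by
    apply le_antisymm (sup_le hle Subgroup.le_normalizer)
    intro h hh
    obtain ⟨d, hd, hds⟩ := T.decomp hi hiH hh
    have : h = d * (d⁻¹ * h) := by group
    rw [this]
    exact Subgroup.mul_mem _ ((le_sup_left : _ ≤ DD _ i ⊔ (S : Subgroup M)) hd)
      ((le_sup_right : _ ≤ DD _ i ⊔ (S : Subgroup M)) hds)
  rw [heq]

/-- `N_H(D) = D`. -/
theorem normalizer_DD (h2 : ∃ s t : M, orderOf s = 2 ∧ orderOf t = 2 ∧ s ∈ (S : Subgroup M) ∧ t ∈ (S : Subgroup M) ∧ s ≠ t)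
    {h : M} (hh : h ∈ Subgroup.normalizer ((S : Subgroup M) : Set M))
    (hn : ∀ d ∈ DD (Subgroup.normalizer ((S : Subgroup M) : Set M)) i,
      h * d * h⁻¹ ∈ DD (Subgroup.normalizer ((S : Subgroup M) : Set M)) i) :
    h ∈ DD (Subgroup.normalizer ((S : Subgroup M) : Set M)) i := by
  classical
  set D := DD (Subgroup.normalizer ((S : Subgroup M) : Set M)) i with hD
  obtain ⟨d₀, hd₀, hs⟩ := T.decomp hi hiH hh
  obtain ⟨d, hd, hd1⟩ := (Subgroup.bot_or_exists_ne_one D).resolve_left (T.DD_ne_bot hi hiH h2)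
  set s := d₀⁻¹ * h with hsdef
  have hsd : s * d * s⁻¹ ∈ D := by
    have h3 : s * d * s⁻¹ = d₀⁻¹ * (h * d * h⁻¹) * d₀⁻¹⁻¹ := by rw [hsdef]; group
    rw [h3]
    exact D.mul_mem (D.mul_mem (D.inv_mem hd₀) (hn d hd)) (D.inv_mem (D.inv_mem hd₀))
  have hc1 : s * d * s⁻¹ * d⁻¹ ∈ D := D.mul_mem hsd (D.inv_mem hd)
  have hc2 : s * d * s⁻¹ * d⁻¹ ∈ (S : Subgroup M) := by
    have h3 : s * d * s⁻¹ * d⁻¹ = s * (d * s⁻¹ * d⁻¹) := by group
    rw [h3]
    exact Subgroup.mul_mem _ hs ((Subgroup.mem_normalizer_iff.1 hd.1 _).1 (Subgroup.inv_mem _ hs))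
  have hc3 : s * d * s⁻¹ * d⁻¹ ∈ D ⊓ (S : Subgroup M) := ⟨hc1, hc2⟩
  rw [T.DD_inf_S hi hiH, Subgroup.mem_bot] at hc3
  have hcomm : Commute s d := by
    show s * d = d * s
    have h3 : s * d * s⁻¹ = d := mul_inv_eq_one.1 hc3
    calc s * d = (s * d * s⁻¹) * s := by group
      _ = d * s := by rw [h3]
  obtain ⟨k, hk⟩ := orderOf_of_mem_two S.2 hs
  have hco : (orderOf s).Coprime (orderOf d) := by
    rw [hk]
    exact Nat.Coprime.pow_left _ (Nat.coprime_two_left.2 (T.DD_orderOf_odd hi hiH hd))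
  rcases T.pp.mixed hcomm hco with h3 | h3
  · have : h = d₀ := by
      have h4 : d₀⁻¹ * h = 1 := h3
      exact (inv_mul_eq_one.1 h4).symm
    rw [this]
    exact hd₀
  · exact absurd h3 hd1

end two

end TI

end Cfsg.Agent.Lib.EPPO7
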